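import Cfsg.Agent.H4.CA3

/-! Suzuki: a simple CA-group has even order. -/

set_option autoImplicit false
set_option linter.unusedSectionVars false

namespace Cfsg.Agent.H4.CA

open Cfsg Finset H1 H2 Subgroup
open scoped ComplexConjugate Classical

universe u

variable {G : Type u} [Group G] [Fintype G]

/-- commuting is transitive on non-identity elements -/
def CT (G : Type u) [Group G] : Prop :=
  ∀ a b c : G, b ≠ 1 → a * b = b * a → b * c = c * b → a * c = c * a

theorem CT.loc (h : CT G) {x : G} (hx : x ≠ 1) : Loc (centralizer {x}) where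
  comm a ha b hb := h a x b hx (mem_centralizer_singleton_iff.1 ha)
    (mem_centralizer_singleton_iff.1 hb).symm
  cent a ha h1 g hg := mem_centralizer_singleton_iff.2
    (h g a x h1 hg (mem_centralizer_singleton_iff.1 ha))

structure Fam {ι : Type*} (A : ι → Subgroup G) : Prop where
  loc : ∀ i, Loc (A i)
  ne : ∀ i, A i ≠ ⊥
  cover : ∀ g, g ≠ 1 → ∃ i u, u⁻¹ * g * u ∈ A i
  uniq : ∀ i j a u, a ∈ A i → a ≠ 1 → u⁻¹ * a * u ∈ A j → i = j

theorem conj_ne_one {x : G} (hx : x ≠ 1) (u : G) : u⁻¹ * x * u ≠ 1 := fun e =>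
  hx (by simpa [mul_assoc] using congrArg (fun y => u * y * u⁻¹) e)

theorem comm_conj {a b : G} (h : a * b = b * a) (u : G) :
    u⁻¹ * a * u * (u⁻¹ * b * u) = u⁻¹ * b * u * (u⁻¹ * a * u) := by
  calc _ = u⁻¹ * (a * b) * u := by group
    _ = _ := by rw [h]; group

theorem CT.exists_fam (h : CT G) : ∃ (ι : Type u) (_ : Fintype ι) (A : ι → Subgroup G), Fam A := by
  let s : Setoid {x : G // x ≠ 1} :=
    { r := fun x y => ∃ u : G, u⁻¹ * x * u * y = y * (u⁻¹ * x * u)
      iseqv := ⟨fun x => ⟨1, by simp⟩, fun {x y} ⟨u, hu⟩ => ⟨u⁻¹, by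
          simpa [mul_assoc] using (comm_conj hu u⁻¹).symm⟩,
        fun {x y z} ⟨u, hu⟩ ⟨v, hv⟩ => ⟨u * v, by
          have := h _ _ _ (conj_ne_one y.2 v) (comm_conj hu v) hv
          simpa [mul_assoc] using this⟩⟩ }
  refine ⟨Quotient s, Fintype.ofFinite _, fun i => centralizer {(i.out : G)},
    fun i => h.loc i.out.2, fun i e => i.out.2 ?_, fun g hg => ?_, fun i j a u ha h1 hu => ?_⟩
  · exact mem_bot.1 (e ▸ mem_centralizer_singleton_iff.2 rfl)
  · obtain ⟨u, hu⟩ := s.symm (Quotient.mk_out (s := s) ⟨g, hg⟩)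
    exact ⟨_, u, mem_centralizer_singleton_iff.2 hu⟩
  · rw [← i.out_eq, ← j.out_eq]
    exact Quotient.sound ⟨u, h _ _ _ (conj_ne_one h1 u)
      (comm_conj (mem_centralizer_singleton_iff.1 ha).symm u) (mem_centralizer_singleton_iff.1 hu)⟩

variable {ι : Type*} [Fintype ι] {A : ι → Subgroup G}

theorem Fam.indFun_zero (h : Fam A) {i j : ι} (hij : i ≠ j) {θ : A j → ℂ} (h1 : θ 1 = 0)
    (a : A i) : indFun (A j) θ a = 0 := by
  by_cases ha : (a : G) = 1
  · rw [ha]
    exact ((h.loc j).indFun_apply h1 1).trans (by simp [h1])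
  · rw [indFun, sum_eq_zero fun x _ => extendByZero_not_mem _ _ fun e =>
      hij (h.uniq i j a x a.2 ha e), mul_zero]

theorem Fam.sum_eq (h : Fam A) {φ : G → ℂ} (hφ : IsClassFunction G φ) :
    ∑ g, φ g = φ 1 + ∑ i, (normalizer (A i : Set G)).index * (∑ a : A i, φ a - φ 1) := by
  let θ : ∀ i, A i → ℂ := fun i a => if a = 1 then 0 else 1
  have hθ : ∀ i, θ i 1 = 0 := fun i => if_pos rfl
  have hc : ∀ H : Subgroup G, (Nat.card H : ℂ) ≠ 0 := fun H => by exact_mod_cast Nat.card_pos.ne'
  have h1 : ∀ g, ∑ i, (Nat.card (A i) : ℂ) / Nat.card (normalizer (A i : Set G)) *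
      indFun (A i) (θ i) g = if g = 1 then 0 else 1 := fun g => by
    split_ifs with hg
    · refine sum_eq_zero fun i _ => ?_
      rw [hg, show indFun (A i) (θ i) 1 = 0 from
        ((h.loc i).indFun_apply (hθ i) 1).trans (by simp [hθ]), mul_zero]
    · obtain ⟨i, u, hu⟩ := h.cover g hg
      have h2 : ∀ j, indFun (A j) (θ j) g = indFun (A j) (θ j) (⟨_, hu⟩ : A i) := fun j => by
        simpa using (indFun_class (A j) (θ j) g u⁻¹).symm
      rw [sum_eq_single i (fun j _ hj => by rw [h2, h.indFun_zero hj.symm (hθ j), mul_zero])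
        (by simp), h2, (h.loc i).indFun_apply (hθ i), sum_congr rfl (g := fun _ => 1)]
      · rw [sum_const, card_univ, ← Nat.card_eq_fintype_card, nsmul_eq_mul]
        have := hc (A i)
        have := hc (normalizer (A i : Set G))
        field_simp
      · intro n _
        refine if_neg fun e => conj_ne_one hg u ?_
        rw [inv_smul_eq_iff, smul_one] at e
        exact congrArg Subtype.val e
  have h2 : ∀ i, ∑ g, indFun (A i) (θ i) g * φ g =
      Nat.card G / Nat.card (A i) * (∑ a : A i, φ a - φ 1) := fun i => by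
    have := classInner_indFun (A i) (θ i) (φ := fun g => conj (φ g)) fun g x => by
      simp only [hφ g x]
    simp only [classInner, Complex.conj_conj] at this
    have h3 : ∑ a : A i, θ i a * φ a = ∑ a : A i, φ a - φ 1 := by
      rw [← add_sum_erase _ _ (mem_univ 1), ← add_sum_erase _ (fun a : A i => φ a) (mem_univ 1),
        hθ, sum_congr rfl fun a ha => by rw [show θ i a = 1 from if_neg (mem_erase.1 ha).1]]
      simp
    rw [h3, inv_mul_eq_iff_eq_mul₀ (by exact_mod_cast Nat.card_pos.ne')] at this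
    rw [this]
    ring
  have h3 : ∑ g, (if g = 1 then 0 else 1) * φ g = ∑ g, φ g - φ 1 := by
    rw [← add_sum_erase _ _ (mem_univ 1), ← add_sum_erase _ φ (mem_univ 1),
      sum_congr rfl fun a ha => by rw [if_neg (mem_erase.1 ha).1]]
    simp
  rw [← sub_eq_iff_eq_add', ← h3]
  simp only [← h1, sum_mul, mul_assoc]
  rw [sum_comm]
  refine sum_congr rfl fun i _ => ?_
  rw [← mul_sum, h2, ← (normalizer (A i : Set G)).index_mul_card]
  have := hc (A i)
  have := hc (normalizer (A i : Set G))
  push_cast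
  field_simp

theorem Fam.even [IsSimpleGroup G] (hG : ¬ IsMulCommutative G) (h : Fam A) :
    Even (Nat.card G) := by
  by_contra hodd
  rw [Nat.not_even_iff_odd] at hodd
  obtain ⟨g, hg⟩ := exists_ne (1 : G)
  obtain ⟨i0, -⟩ := h.cover g hg
  have : Nonempty ι := ⟨i0⟩
  choose d hd0 hd using fun ψ : IrrCharacter G => irr_deg ψ.2
  choose m hm1 hm2 using fun i ψ => exists_mult' (h.loc i) ψ
  choose c hc using fun i (l k : A i →* ℂˣ) => (h.loc i).dvd_cnt l k
  choose w hw using fun i => card_dvd_of_le (le_normalizer (H := A i))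
  have ha : ∀ i, 0 < Nat.card (A i) := fun i => Nat.card_pos
  have ha' : ∀ i, (Nat.card (A i) : ℂ) ≠ 0 := fun i => by exact_mod_cast (ha i).ne'
  have hind : ∀ i (l k : A i →* ℂˣ) (ψ : IrrCharacter G),
      classInner (indFun (A i) (df l k)) ψ.1 = m i ψ l - m i ψ k := fun i l k ψ => by
    rw [classInner_indFun _ _ (irr_class ψ.2), df, classInner_sub_left, hm2, hm2]
  have hpar : ∀ i j (l k : A i →* ℂˣ) (l' k' : A j →* ℂˣ),
      classInner (indFun (A i) (df l k)) (indFun (A j) (df l' k')) =
        ((∑ ψ, ((m i ψ l : ℤ) - m i ψ k) * (m j ψ l' - m j ψ k') : ℤ) : ℂ) := by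
    intro i j l k l' k'
    rw [parseval (indFun_class _ _)]
    simp [hind]
  have hself : ∀ i (l : A i →* ℂˣ), l ≠ 1 → c i l l = 1 := fun i l hl =>
    Nat.eq_of_mul_eq_mul_left (ha i) (by rw [← hc, (h.loc i).cnt_self hl, mul_one])
  have hzero : ∀ i (l k : A i →* ℂˣ), cnt l k = 0 → c i l k = 0 := fun i l k e =>
    Nat.eq_of_mul_eq_mul_left (ha i) (by rw [← hc, e, mul_zero])
  have hmo : ∀ i (l : A i →* ℂˣ), (m i ⟨_, isIrr_one G⟩ l : ℂ) = if l = 1 then 1 else 0 :=
    fun i l => by rw [← hm2, ← classInner_hom l 1]; rfl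
  refine Data.false (I := IrrCharacter G) (Λ := fun i => A i →* ℂˣ)
    { o := ⟨_, isIrr_one G⟩
      bar := fun ψ => ⟨_, irr_conj ψ.2⟩
      bar_bar := fun ψ => Subtype.ext (by simp)
      bar_o := Subtype.ext (by simp)
      bar_fix := fun ψ e => Subtype.ext (eq_one_of_real hodd ψ.2
        (congrFun (congrArg Subtype.val e)))
      d := fun ψ => d ψ
      d_pos := fun ψ => by exact_mod_cast hd0 ψ
      e := fun i => 1
      cj := fun l => l⁻¹
      cj_cj := fun l => by ext; simp
      cj_e := fun i => by ext; simp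
      c := fun {i} l k => c i l k
      w := fun i => w i
      n := fun i => (normalizer (A i : Set G)).index
      g := Nat.card G
      m := fun {i} l ψ => m i ψ l
      g_pos := by exact_mod_cast Nat.card_pos
      two_le := fun i => ?_
      nontriv := fun i => ?_
      hn := fun i => ?_
      c_e := fun i => ?_
      c_e' := fun {i} l hl => by rw [hzero i _ _ (cnt_one hl)]; rfl
      c_symm := fun {i} l k => ?_
      c_self := fun {i} l hl => by rw [hself i l hl]; rfl
      c_cases := fun {i} l k hl => ?_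
      c_card := fun {i} l hl => ?_
      c_cj := fun {i} l hl => by rw [hzero i _ _ ((h.loc i).cnt_inv hodd hl)]; rfl
      inner := fun {i} l k l' k' => ?_
      cross := fun {i j} hij l k l' k' => ?_
      m_bar := fun {i} l ψ => ?_
      m_o := fun {i} l hl => ?_
      m_e := fun i => ?_
      m_nonneg := fun l ψ => Nat.cast_nonneg _
      sum_m := fun i ψ => ?_
      deg := fun {i} l k => ?_
      norm := fun ψ => ?_ }
  · by_contra h2
    have h3 := hw i
    have h4 : 0 < Nat.card (normalizer (A i : Set G)) := Nat.card_pos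
    have h5 : w i = 1 := by
      rcases Nat.eq_zero_or_pos (w i) with e | e
      · rw [h3, e] at h4; omega
      · omega
    rw [h5, mul_one] at h3
    exact (h.loc i).norm_ne hG (h.ne i) (eq_of_le_of_card_ge le_normalizer h3.le).ge
  · have : 1 < Fintype.card (A i →* ℂˣ) := by
      rw [(h.loc i).card_dual]; exact (one_lt_card_iff_ne_bot _).2 (h.ne i)
    exact Fintype.exists_ne_of_one_lt_card this 1
  · rw [(h.loc i).card_dual, ← (normalizer (A i : Set G)).index_mul_card, hw]
    push_cast; ring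
  · exact congrArg Nat.cast (Nat.eq_of_mul_eq_mul_left (ha i) (by rw [← hc, cnt_one_one, hw]))
  · exact congrArg Nat.cast (Nat.eq_of_mul_eq_mul_left (ha i) (by rw [← hc, cnt_symm, hc]))
  · rcases cnt_cases l k with e | e
    · exact .inl (by rw [hzero i _ _ e]; rfl)
    · rw [hc, hc, hself i l hl] at e
      exact .inr (by rw [Nat.eq_of_mul_eq_mul_left (ha i) e]; rfl)
  · have := sum_cnt l
    simp only [hc, hw, ← mul_sum] at this
    exact_mod_cast Nat.eq_of_mul_eq_mul_left (ha i) this
  · have := hpar i i l k l' k'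
    rw [(h.loc i).inner_ind, hc, hc, hc, hc, inv_mul_eq_iff_eq_mul₀ (ha' i)] at this
    push_cast at this
    apply Int.cast_injective (α := ℂ)
    apply mul_left_cancel₀ (ha' i)
    push_cast
    rw [← this]
    ring
  · have := hpar i j l k l' k'
    rw [classInner_indFun _ _ (indFun_class _ _)] at this
    simp only [h.indFun_zero hij (df_one _ _), classInner, map_zero, mul_zero, sum_const_zero] at this
    exact_mod_cast this.symm
  · have := classInner_bar (fun a => (l a : ℂ)) (fun a : A i => ψ.1 a)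
    simp only [hom_conj] at this
    rw [hm2 i ⟨_, irr_conj ψ.2⟩, hm2, map_natCast] at this
    exact_mod_cast this
  · have := hmo i l
    rw [if_neg hl] at this
    exact_mod_cast this
  · have := hmo i 1
    rw [if_pos rfl] at this
    exact_mod_cast this
  · have := hm1 i ψ 1
    simp only [OneMemClass.coe_one, hd, map_one, Units.val_one, mul_one] at this
    exact_mod_cast this.symm
  · have := expand (indFun_class (A i) (df l k)) 1
    rw [show indFun (A i) (df l k) 1 = 0 from
      ((h.loc i).indFun_apply (df_one _ _) 1).trans (by simp [df_one])] at this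
    simp only [hind, hd, mul_comm _ (d _ : ℂ)] at this
    exact_mod_cast this.symm
  · have h1 := h.sum_eq (φ := fun g => ψ.1 g * conj (ψ.1 g)) fun g x => by
      simp only [irr_class ψ.2 g x]
    have h2 := classInner_irr ψ.2 ψ.2
    rw [if_pos rfl, classInner, inv_mul_eq_one₀ (by exact_mod_cast Nat.card_pos.ne')] at h2
    have h3 : ∀ i, ∑ a : A i, ψ.1 a * conj (ψ.1 a) =
        Fintype.card (A i →* ℂˣ) * ∑ l, (m i ψ l : ℂ) ^ 2 := fun i => by
      have : classInner (fun a : A i => ∑ k, ((m i ψ k : ℂ) • fun a => (k a : ℂ)) a)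
          (fun a : A i => ψ.1 a) = ∑ l, (m i ψ l : ℂ) ^ 2 := by
        rw [classInner_sum_left]
        simp only [classInner_smul_left, hm2, pow_two]
      simp only [Pi.smul_apply, smul_eq_mul, ← hm1, classInner] at this
      rw [(h.loc i).card_dual, ← this, mul_inv_cancel_left₀ (ha' i)]
    simp only [← h2, h3, hd, map_natCast, ← pow_two] at h1
    exact_mod_cast h1

theorem CT.even [IsSimpleGroup G] (hG : ¬ IsMulCommutative G) (h : CT G) : Even (Nat.card G) := by
  obtain ⟨ι, _, A, hA⟩ := h.exists_fam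
  exact hA.even hG

end Cfsg.Agent.H4.CA
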