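import Cfsg.Agent.H4.CA4
import Cfsg.Agent.H2.Zass3
import Cfsg.Agent.H3.PglBasic

/-! Simple CA-groups of even order. -/

set_option autoImplicit false
set_option linter.unusedSectionVars false

namespace Cfsg.Agent.H4.CA

open Cfsg Subgroup MulAction
open scoped Classical MatrixGroups

universe u

variable {G : Type u} [Group G] [Fintype G]

/-- centralisers of involutions -/
def Om (G : Type u) [Group G] : Type u :=
  {A : Subgroup G // Loc A ∧ ∃ s ∈ A, s ≠ 1 ∧ s * s = 1}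

instance : Finite (Om G) := Subtype.finite

instance : MulAction G (Om G) where
  smul g A := ⟨A.1.comap (MulAut.conj g⁻¹).toMonoidHom,
    ⟨fun a ha b hb => (MulAut.conj g⁻¹).injective (by
        rw [map_mul, map_mul]; exact A.2.1.comm _ ha _ hb),
      fun a ha h1 x hx => A.2.1.cent _ ha ((MulAut.conj g⁻¹).map_ne_one_iff.2 h1) _ (by
        rw [← map_mul, ← map_mul, hx])⟩, by
      obtain ⟨s, hs, h1, h2⟩ := A.2.2
      exact ⟨g * s * g⁻¹, by simpa [mul_assoc] using hs, by simpa using h1,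
        by simp [mul_assoc, ← mul_assoc s s, h2]⟩⟩
  one_smul A := Subtype.ext (by ext x; change 1⁻¹ * x * 1⁻¹⁻¹ ∈ A.1 ↔ _; simp)
  mul_smul g h A := Subtype.ext (by
    ext x
    change (g * h)⁻¹ * x * (g * h)⁻¹⁻¹ ∈ A.1 ↔ h⁻¹ * (g⁻¹ * x * g⁻¹⁻¹) * h⁻¹⁻¹ ∈ A.1
    simp [mul_assoc])

namespace Om

theorem mem_smul {g x : G} {α : Om G} : x ∈ (g • α).1 ↔ g⁻¹ * x * g ∈ α.1 := by
  change g⁻¹ * x * g⁻¹⁻¹ ∈ α.1 ↔ _
  rw [inv_inv]

theorem eq_of_mem {α β : Om G} {x : G} (h : x ≠ 1) (h1 : x ∈ α.1) (h2 : x ∈ β.1) : α = β :=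
  Subtype.ext (le_antisymm (fun y hy => β.2.1.cent x h2 h y (α.2.1.comm y hy x h1))
    fun y hy => α.2.1.cent x h1 h y (β.2.1.comm y hy x h2))

theorem smul_eq {α β : Om G} {g x : G} (h : x ≠ 1) (h1 : x ∈ α.1) (h2 : g * x * g⁻¹ ∈ β.1) :
    g • α = β :=
  eq_of_mem (x := g * x * g⁻¹) (by simpa using h) (mem_smul.2 (by simpa [mul_assoc] using h1)) h2

theorem conj_mem {α : Om G} (g : G) {x : G} (h1 : x ∈ α.1) : g * x * g⁻¹ ∈ (g • α).1 :=
  mem_smul.2 (by simpa [mul_assoc] using h1)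

theorem smul_of_mem {α : Om G} {x : G} (h : x ∈ α.1) : x • α = α := by
  obtain ⟨s, hs, h1, -⟩ := α.2.2
  exact smul_eq h1 hs (mul_mem (mul_mem h hs) (inv_mem h))

theorem smul_eq_iff {α : Om G} {g : G} : g • α = α ↔ g ∈ normalizer (α.1 : Set G) := by
  obtain ⟨s, hs, h1, -⟩ := α.2.2
  exact ⟨fun h => mem_normalizer_fintype fun x hx => by simpa [h] using conj_mem g hx,
    fun h => smul_eq h1 hs ((mem_normalizer_iff.1 h s).1 hs)⟩

theorem swap {α β : Om G} (h : α ≠ β) {s t : G} (hs : s ∈ α.1) (hs1 : s ≠ 1) (hs2 : s * s = 1)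
    (ht : t ∈ β.1) (ht1 : t ≠ 1) (ht2 : t * t = 1) :
    ∃ u : G, u * u = 1 ∧ u * s * u⁻¹ = t ∧ u • α = β ∧ u • β = α := by
  have e1 : s⁻¹ = s := inv_eq_of_mul_eq_one_right hs2
  have e2 : t⁻¹ = t := inv_eq_of_mul_eq_one_right ht2
  have h1 : ∀ k : ℕ, s * (s * t) ^ k = ((s * t) ^ k)⁻¹ * s := fun k => by
    rw [← inv_pow, ← mul_inv_eq_iff_eq_mul, ← conj_pow, mul_inv_rev, e1, e2, ← mul_assoc, hs2,
      one_mul]
  have h2 : ∀ k : ℕ, t * (s * t) ^ k = ((s * t) ^ k)⁻¹ * t := fun k => by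
    rw [← inv_pow, ← mul_inv_eq_iff_eq_mul, ← conj_pow, mul_inv_rev, e1, e2, mul_assoc,
      mul_assoc, ht2, mul_one]
  have h3 := pow_orderOf_eq_one (s * t)
  rcases Nat.even_or_odd' (orderOf (s * t)) with ⟨k, hk | hk⟩
  · have h4 : (s * t) ^ k ≠ 1 := pow_ne_one_of_lt_orderOf
      (by have := orderOf_pos (s * t); omega) (by have := orderOf_pos (s * t); omega)
    rw [hk, two_mul, pow_add] at h3
    refine absurd (eq_of_mem h4 (α.2.1.cent s hs hs1 _ ?_) (β.2.1.cent t ht ht1 _ ?_)) h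
    · rw [h1 k, inv_eq_of_mul_eq_one_right h3]
    · rw [h2 k, inv_eq_of_mul_eq_one_right h3]
  · have h4 : (s * t) ^ k * s * ((s * t) ^ k * s) = 1 := by
      rw [mul_assoc, ← mul_assoc s, h1, mul_assoc, hs2, mul_one, mul_inv_cancel]
    have h5 : (s * t) ^ k * s * s * ((s * t) ^ k * s)⁻¹ = t := by
      rw [inv_eq_of_mul_eq_one_right h4, mul_assoc _ s s, hs2, mul_one, ← mul_assoc, ← pow_add,
        ← two_mul, ← mul_left_inj t, mul_assoc, ← pow_succ, ← hk, h3, ht2]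
    have h6 := smul_eq hs1 hs (h5 ▸ ht)
    exact ⟨_, h4, h5, h6, by rw [← h6, ← mul_smul, h4, one_smul]⟩

theorem card_eq (α β : Om G) : Nat.card α.1 = Nat.card β.1 := by
  by_cases h : α = β
  · rw [h]
  obtain ⟨s, hs, hs1, hs2⟩ := α.2.2
  obtain ⟨t, ht, ht1, ht2⟩ := β.2.2
  obtain ⟨u, -, -, rfl, -⟩ := swap h hs hs1 hs2 ht ht1 ht2
  exact Nat.card_congr ⟨fun x => ⟨_, conj_mem u x.2⟩, fun x => ⟨_, mem_smul.1 x.2⟩,
    fun x => Subtype.ext (by simp [mul_assoc]), fun x => Subtype.ext (by simp [mul_assoc])⟩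

theorem semireg {α β : Om G} (h : α ≠ β) {x : G} (hx : x ∈ α.1) (hxb : x • β = β) : x = 1 := by
  by_contra h1
  obtain ⟨p, hp, hd⟩ := Nat.exists_prime_and_dvd (mt orderOf_eq_one_iff.1 h1)
  have := Fact.mk hp
  have h2 := orderOf_pow_orderOf_div (orderOf_pos x).ne' hd
  have h3 : x ^ (orderOf x / p) ∈ α.1 := pow_mem hx _
  have h4 : x ^ (orderOf x / p) ∈ normalizer (β.1 : Set G) := pow_mem (smul_eq_iff.1 hxb) _
  generalize x ^ (orderOf x / p) = y at h2 h3 h4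
  have h5 : p ∣ Fintype.card β.1 := by
    rw [← Nat.card_eq_fintype_card, ← card_eq α β, ← h2]
    exact orderOf_dvd_natCard _ h3
  obtain ⟨b, hb, hb1⟩ := Equiv.Perm.exists_fixed_point_of_prime' (n := 1) h5
    (σ := toPermHom _ β.1 (⟨y, h4⟩ : normalizer (β.1 : Set G))) (a := 1)
    (by rw [← map_pow, show (⟨y, h4⟩ : normalizer (β.1 : Set G)) ^ p ^ 1 = 1 from
      Subtype.ext (by simp [← h2]), map_one]) (smul_one (⟨y, h4⟩ : normalizer (β.1 : Set G)))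
  refine h (eq_of_mem (fun e => hp.ne_one (by rw [← h2, e, orderOf_one])) h3
    (β.2.1.cent b b.2 (fun e => hb1 (Subtype.ext e)) y ?_))
  exact mul_inv_eq_iff_eq_mul.1 (congrArg Subtype.val hb)

theorem sq_of_swap {α β : Om G} (h : α ≠ β) {g : G} (h1 : g • α = β) (h2 : g • β = α) :
    g * g = 1 := by
  obtain ⟨s, hs, hs1, hs2⟩ := α.2.2
  obtain ⟨u, hu, e, u1, u2⟩ := swap h hs hs1 hs2 (h1 ▸ conj_mem g hs) (by simpa using hs1)
    (by simp [mul_assoc, ← mul_assoc s s, hs2])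
  have h3 : g⁻¹ * u = 1 := semireg h (α.2.1.cent s hs hs1 _ (by
    calc g⁻¹ * u * s = g⁻¹ * (u * s * u⁻¹) * u := by group
      _ = _ := by rw [e]; group)) (by rw [mul_smul, u2, inv_smul_eq_iff, h2])
  rw [inv_mul_eq_one.1 h3, hu]

theorem inverts {α β : Om G} (h : α ≠ β) {u d : G} (h1 : u • α = β) (h2 : u • β = α)
    (h3 : d • α = α) (h4 : d • β = β) : u * d * u⁻¹ = d⁻¹ := by
  have e1 := sq_of_swap h h1 h2
  have e2 := sq_of_swap h (g := u * d) (by rw [mul_smul, h3, h1]) (by rw [mul_smul, h4, h2])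
  rw [inv_eq_of_mul_eq_one_right e1, eq_inv_iff_mul_eq_one, mul_assoc, e2]

theorem exists_swap {α β : Om G} (h : α ≠ β) : ∃ u : G, u • α = β ∧ u • β = α := by
  obtain ⟨s, hs, hs1, hs2⟩ := α.2.2
  obtain ⟨t, ht, ht1, ht2⟩ := β.2.2
  obtain ⟨u, -, -, h1⟩ := swap h hs hs1 hs2 ht ht1 ht2
  exact ⟨u, h1⟩

theorem decomp {α β : Om G} (h : α ≠ β) {g : G} (hg : g • α = α) :
    ∃ x ∈ α.1, ∃ e : G, e • α = α ∧ e • β = β ∧ g = x * e := by
  obtain ⟨s, hs, hs1, hs2⟩ := α.2.2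
  obtain ⟨t, ht, ht1, ht2⟩ := β.2.2
  obtain ⟨u, -, e1, u1, u2⟩ := swap h hs hs1 hs2 ht ht1 ht2
  obtain ⟨v, -, e2, v1, v2⟩ := swap h (hg ▸ conj_mem g hs) (by simpa using hs1)
    (by simp [mul_assoc, ← mul_assoc s s, hs2]) ht ht1 ht2
  have h1 : (v⁻¹ * u) • α = α := by rw [mul_smul, u1, inv_smul_eq_iff, v1]
  refine ⟨g * (v⁻¹ * u)⁻¹, ?_, v⁻¹ * u, h1, by rw [mul_smul, u2, inv_smul_eq_iff, v2], by group⟩
  rw [← h1, mem_smul]
  refine α.2.1.cent s hs hs1 _ ?_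
  calc _ = u⁻¹ * (v * (g * s * g⁻¹) * v⁻¹) * v * g := by group
    _ = _ := by rw [e2, ← e1]; group

theorem comm_of_inv {t x y : G} (hx : t * x * t⁻¹ = x⁻¹) (hy : t * y * t⁻¹ = y⁻¹)
    (hxy : t * (x * y) * t⁻¹ = (x * y)⁻¹) : x * y = y * x := by
  apply inv_injective
  rw [← hxy, mul_inv_rev, ← hx, ← hy]; group

theorem fix_three (hG : CT G) (d : G) (α β γ : Om G) (h1 : α ≠ β) (h2 : β ≠ γ) (h3 : α ≠ γ)
    (a1 : d • α = α) (a2 : d • β = β) (a3 : d • γ = γ) : d = 1 := by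
  obtain ⟨u, u1, u2⟩ := exists_swap h1
  obtain ⟨v, v1, v2⟩ := exists_swap h2
  obtain ⟨w, w1, w2⟩ := exists_swap h3
  have e1 := inverts h1 u1 u2 a1 a2
  have e2 := inverts h2 v1 v2 a2 a3
  have e3 := inverts h3 w1 w2 a1 a3
  obtain ⟨x, hx, e, f1, f2, e4⟩ := decomp h1 (g := u * v * w) (by rw [mul_smul, mul_smul, w1, v2, u2])
  have e5 : e * d = d * e := comm_of_inv (inverts h1 u1 u2 f1 f2) e1
    (inverts h1 u1 u2 (by rw [mul_smul, a1, f1]) (by rw [mul_smul, a2, f2]))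
  have e6 : x * d * x⁻¹ = d⁻¹ := by
    calc x * d * x⁻¹ = x * e * d * (x * e)⁻¹ := by rw [mul_assoc x e, e5]; group
      _ = u * (v * (w * d * w⁻¹) * v⁻¹) * u⁻¹ := by rw [← e4]; group
      _ = u * (v * d * v⁻¹)⁻¹ * u⁻¹ := by rw [e3]; group
      _ = _ := by rw [e2, inv_inv, e1]
  have e7 : d * d = 1 := by
    refine semireg h1 ?_ (by rw [mul_smul, a2, a2])
    have : d * d = d * x * d⁻¹ * x⁻¹ := by
      calc d * d = d * (x * d * x⁻¹)⁻¹ := by rw [e6, inv_inv]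
        _ = _ := by group
    rw [this]
    exact mul_mem (a1 ▸ conj_mem d hx) (inv_mem hx)
  by_contra h
  let δ : Om G := ⟨_, hG.loc h, d, mem_centralizer_singleton_iff.2 rfl, h, e7⟩
  have hd : d ∈ δ.1 := mem_centralizer_singleton_iff.2 rfl
  by_cases h4 : δ = α
  · exact h (semireg h1 (h4 ▸ hd) a2)
  · exact h (semireg h4 hd a1)

theorem exists_conj {α : Om G} {e y : G} (h1 : e • α = α) (h2 : e ∉ α.1) (hy : y ∈ α.1) :
    ∃ x ∈ α.1, x * e * x⁻¹ = y * e := by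
  have : Function.Injective fun x : α.1 => (⟨x * (e * (x : G)⁻¹ * e⁻¹),
      mul_mem x.2 (by simpa only [h1] using conj_mem e (inv_mem x.2))⟩ : α.1) := fun x z hxz => by
    have e1 : (x : G) * (e * (x : G)⁻¹ * e⁻¹) = z * (e * (z : G)⁻¹ * e⁻¹) :=
      congrArg Subtype.val hxz
    by_contra hne
    refine h2 (α.2.1.cent ((z : G)⁻¹ * x) (mul_mem (inv_mem z.2) x.2)
      (fun e => hne (Subtype.ext (inv_mul_eq_one.1 e).symm)) _ ?_)
    calc e * ((z : G)⁻¹ * x) = (z : G)⁻¹ * (z * (e * (z : G)⁻¹ * e⁻¹)) * e * x := by group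
      _ = _ := by rw [← e1]; group
  obtain ⟨x, hx⟩ := Finite.injective_iff_surjective.1 this ⟨y, hy⟩
  have h3 : (x : G) * (e * (x : G)⁻¹ * e⁻¹) = y := congrArg Subtype.val hx
  exact ⟨x, x.2, (by group : _ = (x : G) * (e * (x : G)⁻¹ * e⁻¹) * e).trans (by rw [h3])⟩

theorem exists_D [IsSimpleGroup G] (hG : ¬ IsMulCommutative G) {α β : Om G} (h : α ≠ β) :
    ∃ d : G, d ≠ 1 ∧ d • α = α ∧ d • β = β := by
  obtain ⟨s, hs, hs1, -⟩ := α.2.2
  obtain ⟨n, hn, hn'⟩ := SetLike.not_le_iff_exists.1 (α.2.1.norm_ne hG fun e => hs1 (by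
    rwa [e] at hs))
  obtain ⟨x, hx, e, f1, f2, rfl⟩ := decomp h (smul_eq_iff.2 hn)
  exact ⟨e, fun e1 => hn' (by simpa [e1] using hx), f1, f2⟩

theorem regular [IsSimpleGroup G] (hG : ¬ IsMulCommutative G) (hc : CT G) {α β γ : Om G}
    (h1 : β ≠ α) (h2 : γ ≠ α) : ∃! x : α.1, (x : G) • β = γ := by
  refine existsUnique_of_exists_of_unique ?_ fun x y hx hy => Subtype.ext (inv_mul_eq_one.1
    (semireg h1.symm (mul_mem (inv_mem x.2) y.2) (by rw [mul_smul, hy, inv_smul_eq_iff, hx])))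
  obtain ⟨d, hd, d1, d2⟩ := exists_D hG h2.symm
  obtain ⟨y, hy, e, f1, f2, rfl⟩ := decomp h1.symm d1
  obtain ⟨x, hx, e1⟩ := exists_conj f1 (fun e => hd (semireg h2.symm (mul_mem hy e) d2)) hy
  refine ⟨⟨x, hx⟩, by_contra fun hne => hd (fix_three hc _ α _ _ (fun e => h1 ?_) hne h2.symm d1
    ?_ d2)⟩
  · exact (smul_left_cancel_iff x).1 (e.symm.trans (smul_of_mem hx).symm)
  · rw [← e1, mul_smul, mul_smul, inv_smul_smul, f2]

end Om

theorem CT.iso [IsSimpleGroup G] (hG : ¬ IsMulCommutative G) (hc : CT G) :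
    ∃ f : ℕ, 2 ≤ f ∧ Nonempty (G ≃* PSL(2, GaloisField 2 f)) := by
  obtain ⟨s, hs⟩ := exists_prime_orderOf_dvd_card' (G := G) 2 (hc.even hG).two_dvd
  have hs1 : s ≠ 1 := by rintro rfl; simp at hs
  have hs2 : s * s = 1 := by rw [← pow_two, ← hs, pow_orderOf_eq_one]
  let α : Om G := ⟨_, hc.loc hs1, s, mem_centralizer_singleton_iff.2 rfl, hs1, hs2⟩
  have hsa : s ∈ α.1 := mem_centralizer_singleton_iff.2 rfl
  obtain ⟨β, hab⟩ : ∃ β, α ≠ β := by
    by_contra! h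
    have : α.1.Normal := normalizer_eq_top_iff.1 (eq_top_iff.2 fun g _ =>
      Om.smul_eq_iff.1 (h _).symm)
    rcases this.eq_bot_or_eq_top with e | e
    · exact hs1 (by rwa [e] at hsa)
    · exact hG ⟨⟨fun a b => α.2.1.comm a (e ▸ mem_top a) b (e ▸ mem_top b)⟩⟩
  have hsb : s • β ≠ β := fun e => hs1 (Om.semireg hab hsa e)
  have hsb' : s • β ≠ α := fun e => hab ((smul_left_cancel_iff s).1
    ((Om.smul_of_mem hsa).trans e.symm))
  have h3 := Om.fix_three hc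
  have : FaithfulSMul G (Om G) := ⟨fun {g h} e => inv_mul_eq_one.1 (h3 _ α β _ hab hsb.symm
    hsb'.symm (by rw [mul_smul, ← e, inv_smul_smul]) (by rw [mul_smul, ← e, inv_smul_smul])
    (by rw [mul_smul, ← e, inv_smul_smul]))⟩
  have h2 : ∀ a b c d : Om G, a ≠ b → c ≠ d → ∃ g : G, g • a = c ∧ g • b = d := by
    intro a b c d h1 h2
    obtain ⟨u, hu⟩ : ∃ u : G, u • a = c := by
      by_cases h : a = c
      · exact ⟨1, by rw [one_smul, h]⟩
      · exact (Om.exists_swap h).imp fun _ => And.left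
    obtain ⟨x, hx, -⟩ := Om.regular hG hc (β := u • b)
      (fun e => h1 ((smul_left_cancel_iff u).1 (hu.trans e.symm))) h2.symm
    exact ⟨x * u, by rw [mul_smul, hu, Om.smul_of_mem x.2], by rw [mul_smul, hx]⟩
  obtain ⟨V, _, _, C, hC⟩ := H2.exists_coord hab α.1 (fun x hx => Om.smul_of_mem hx)
    (fun g hg u hu => (show g • α = α from hg) ▸ Om.conj_mem g hu) α.2.1.comm
    fun y z => Om.regular hG hc
  obtain ⟨d, hd, hd'⟩ := Om.exists_D hG hab
  have := C.nontrivial_of (g := d) hd' hd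
  have := C.finite
  obtain ⟨v, hv⟩ := C.ι_surj _ hsb'
  have hv0 : v ≠ 0 := by rintro rfl; exact hsb (hv.symm.trans C.ι_zero)
  have hv2 : v + v = 0 := by
    have : C.t v = s := congrArg Subtype.val ((Om.regular hG hc hab.symm hsb').unique
      (y₁ := ⟨_, hC v⟩) (y₂ := ⟨s, hsa⟩) (by rw [← hv]; exact C.t_b v) rfl)
    exact C.ι_inj (by rw [← C.t_b, C.t_add, this, hs2, one_smul, C.ι_zero])
  have hcard := C.card
  have h3t : IsMultiplyPretransitive G (Om G) 3 := by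
    refine (C.dichotomy h2 h3 fun N hN hN' => ?_).resolve_right ?_
    · rcases hN.eq_bot_or_eq_top with rfl | rfl
      · obtain ⟨⟨g, hg⟩, e⟩ := hN'.exists_smul_eq α β
        rw [mem_bot] at hg
        subst hg
        exact absurd ((one_smul G α).symm.trans e) hab
      · refine ⟨α, fun e => hs1 ?_⟩
        have : (⟨s, trivial⟩ : (⊤ : Subgroup G)) ∈ stabilizer (⊤ : Subgroup G) α :=
          Om.smul_of_mem hsa
        rw [e, mem_bot] at this
        exact congrArg Subtype.val this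
    · rintro ⟨-, ⟨p, f, hp, hp2, -, e⟩, -⟩
      have h4 : addOrderOf v = 2 := addOrderOf_eq_prime (by rw [two_nsmul, hv2]) hv0
      have h5 := addOrderOf_dvd_natCard v
      rw [h4, show Nat.card V = p ^ f by omega] at h5
      exact hp2 ((Nat.prime_dvd_prime_iff_eq Nat.prime_two hp).1
        (Nat.prime_two.dvd_of_dvd_pow h5)).symm
  obtain ⟨f, hf⟩ : ∃ f, Nat.card (Multiplicative V) = 2 ^ f := by
    refine IsPGroup.iff_card.1 fun w => ⟨1, ?_⟩
    by_cases hw : w.toAdd = 0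
    · rw [show w = 1 from hw, one_pow]
    · obtain ⟨g, hg⟩ := C.trans_of_three h3t v _ hv0 hw
      apply Multiplicative.toAdd.injective
      rw [pow_one, pow_two, toAdd_mul, ← hg, ← smul_add, hv2, smul_zero, toAdd_one]
  change Nat.card V = _ at hf
  have hf2 : 2 ≤ f := by
    have h4 := C.card_dvd h3
    have h5 : 1 < Nat.card (H2.St G α β) :=
      (one_lt_card_iff_ne_bot _).2 fun e => hd (mem_bot.1 (e ▸ hd' : d ∈ (⊥ : Subgroup G)))
    have h6 : 1 < Nat.card V := Finite.one_lt_card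
    have h7 := Nat.le_of_dvd (by omega) h4
    by_contra h8
    have : f ≤ 1 := by omega
    interval_cases f <;> omega
  obtain ⟨u, u1, u2⟩ := Om.exists_swap hab
  obtain ⟨e⟩ := C.pgl_of_inverted h3t u1 u2 (fun x hx => Om.inverts hab u1 u2 hx.1 hx.2)
    (GaloisField 2 f) (by rw [GaloisField.card 2 f (by omega), ← hcard, hf])
  exact ⟨f, hf2, ⟨e.trans (topEquiv.symm.trans ((MulEquiv.subgroupCongr
    (H3.Lsub_eq_top CharTwo.two_eq_zero).symm).trans (H3.pslEquiv _).symm))⟩⟩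

end Cfsg.Agent.H4.CA
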