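import Cfsg.Agent.H4.J2c
import Cfsg.Prelude.Def_Spor_J2

/-! The icosian ring and the icosian Leech lattice in coordinates. -/

set_option autoImplicit false
set_option maxRecDepth 100000

noncomputable section

namespace Cfsg.Agent.H4.J2

open Cfsg.Spor Quaternion Cfsg.Agent.H4.TC

theorem s5_sq : Real.sqrt 5 * Real.sqrt 5 = 5 := Real.mul_self_sqrt (by norm_num)
theorem tau_sq : tau * tau = tau + 1 := by unfold tau; linear_combination (1 / 4 : ℝ) * s5_sq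
theorem s5_eq : Real.sqrt 5 = 2 * tau - 1 := by unfold tau; ring
theorem sig_eq : sig = 1 - tau := by unfold tau sig; ring

def rt (x : T) : ℝ := x.1 + x.2 * tau
def rq (p : Q) : ℍ[ℝ] := ⟨rt p.1, rt p.2.1, rt p.2.2.1, rt p.2.2.2⟩
def hf (p : Q) : ℍ[ℝ] := (1 / 2 : ℝ) • rq p

@[simp] theorem rq_re (p : Q) : (rq p).re = rt p.1 := rfl
@[simp] theorem rq_imI (p : Q) : (rq p).imI = rt p.2.1 := rfl
@[simp] theorem rq_imJ (p : Q) : (rq p).imJ = rt p.2.2.1 := rfl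
@[simp] theorem rq_imK (p : Q) : (rq p).imK = rt p.2.2.2 := rfl
@[simp] theorem h_re : icoH.re = -(Real.sqrt 5) / 2 := rfl
@[simp] theorem h_imI : icoH.imI = 1 / 2 := rfl
@[simp] theorem h_imJ : icoH.imJ = 1 / 2 := rfl
@[simp] theorem h_imK : icoH.imK = 1 / 2 := rfl

theorem rt_tm (x y : T) : rt (tm x y) = rt x * rt y := by
  simp only [rt, tm]; push_cast; linear_combination (-(x.2 : ℝ) * y.2) * tau_sq
theorem rt_add (x y : T) : rt (x + y) = rt x + rt y := by simp only [rt, Prod.fst_add, Prod.snd_add]; push_cast; ring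
theorem rt_sub (x y : T) : rt (x - y) = rt x - rt y := by simp only [rt, Prod.fst_sub, Prod.snd_sub]; push_cast; ring
theorem rt_neg (x : T) : rt (-x) = -rt x := by simp only [rt, Prod.fst_neg, Prod.snd_neg]; push_cast; ring
theorem rt_int (n : ℤ) : rt (n, 0) = n := by simp [rt]

theorem rt_inj {x y : T} (h : rt x = rt y) : x = y := by
  have h5 : Irrational (Real.sqrt 5) := by simpa using Nat.prime_five.irrational_sqrt
  simp only [rt] at h
  by_cases h2 : x.2 = y.2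
  · rw [h2] at h
    exact Prod.ext (by exact_mod_cast add_right_cancel h) h2
  · exfalso
    apply h5
    refine ⟨(2 * (y.1 - x.1) - (x.2 - y.2) : ℤ) / (x.2 - y.2 : ℤ), ?_⟩
    have : ((x.2 : ℝ) - y.2) ≠ 0 := sub_ne_zero.2 (by exact_mod_cast h2)
    push_cast
    rw [div_eq_iff this, s5_eq]
    linear_combination -2 * h

theorem rq_qm (p q : Q) : rq (qm p q) = rq p * rq q := by
  ext <;> simp [qm, rt_tm, rt_add, rt_sub]
theorem rq_add (p q : Q) : rq (p + q) = rq p + rq q := by ext <;> simp [rt_add]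
theorem rq_sub (p q : Q) : rq (p - q) = rq p - rq q := by ext <;> simp [rt_sub]
theorem rq_neg (p : Q) : rq (-p) = -rq p := by ext <;> simp [rt_neg]
theorem rq_qs (p : Q) : rq (qs p) = star (rq p) := by ext <;> simp [qs, rt_neg]
theorem rq_qsc (t : T) (p : Q) : rq (qsc t p) = rt t • rq p := by ext <;> simp [qsc, rt_tm]
theorem rq_nrm (p : Q) : normSq (rq p) = rt (nrm p) := by
  simp [nrm, normSq_def', rt_tm, rt_add, pow_two]
theorem rq_inj {p q : Q} (h : rq p = rq q) : p = q := by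
  exact Prod.ext (rt_inj (congrArg (·.re) h)) (Prod.ext (rt_inj (congrArg (·.imI) h))
    (Prod.ext (rt_inj (congrArg (·.imJ) h)) (rt_inj (congrArg (·.imK) h))))
theorem hf_inj {p q : Q} (h : hf p = hf q) : p = q := rq_inj (smul_right_injective _ (by norm_num) h)
theorem hf_add (p q : Q) : hf (p + q) = hf p + hf q := by rw [hf, rq_add, smul_add]; rfl
theorem hf_sub (p q : Q) : hf (p - q) = hf p - hf q := by rw [hf, rq_sub, smul_sub]; rfl
theorem hf_qsc (t : T) (p : Q) : hf (qsc t p) = rt t • hf p := by rw [hf, rq_qsc, smul_comm]; rfl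
theorem hf_mul (p q : Q) : hf p * hf q = (1 / 4 : ℝ) • rq (qm p q) := by
  rw [hf, hf, rq_qm, smul_mul_assoc, mul_smul_comm, smul_smul]; norm_num
theorem hf_nrm (p : Q) : normSq (hf p) = rt (nrm p) / 4 := by
  rw [hf, normSq_smul, rq_nrm]; ring
theorem hf_ONE : hf ONE = 1 := by ext <;> simp [hf, rt, ONE]
theorem hf_ZZ : hf ZZ = 0 := by ext <;> simp [hf, rt, ZZ]
theorem hf_HH : hf HH = icoH := by ext <;> simp [hf, rt, HH, s5_eq]; ring
theorem hf_HB : hf HB = star icoH := by rw [← hf_HH]; ext <;> simp [hf, rt, HH, HB]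
theorem hf_GG : hf GG = ⟨1 / 2, sig / 2, 0, tau / 2⟩ := by ext <;> simp [hf, rt, GG, sig_eq] <;> ring
theorem rq_II : rq II = qI := by ext <;> simp [rt, II] <;> rfl

theorem mul_II (p : Q) : qI * hf p = hf (qm II p) := by rw [hf, hf, rq_qm, rq_II, mul_smul_comm]
theorem mul_GG {p : Q} (h : inI p = true) : hf GG * hf p = hf (qd 2 (qm GG p)) := by
  rw [hf_mul, (step_G h).2, rq_qsc, show qd 2 (qsc (2, 0) (qd 2 (qm GG p))) = qd 2 (qm GG p) by rw [← (step_G h).2],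
    hf, smul_smul, rt_int]; norm_num

theorem exists_hf {x : ℍ[ℝ]} (hx : x ∈ icosians) : ∃ p, inI p = true ∧ x = hf p := by
  let S : AddSubgroup ℍ[ℝ] :=
    { carrier := {x | ∃ p, inI p = true ∧ x = hf p}
      zero_mem' := ⟨ZZ, by decide, hf_ZZ.symm⟩
      add_mem' := by
        rintro _ _ ⟨p, hp, rfl⟩ ⟨q, hq, rfl⟩
        refine ⟨p + q, ?_, (hf_add p q).symm⟩
        simp only [inI, Bool.and_eq_true, beq_iff_eq, Prod.fst_add, Prod.snd_add] at hp hq ⊢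
        omega
      neg_mem' := by
        rintro _ ⟨p, hp, rfl⟩
        refine ⟨-p, ?_, by rw [hf, hf, rq_neg, smul_neg]⟩
        simp only [inI, Bool.and_eq_true, beq_iff_eq, Prod.fst_neg, Prod.snd_neg] at hp ⊢
        omega }
  have : ∀ y ∈ S, x * y ∈ S := by
    induction hx using Subring.closure_induction with
    | mem x hx =>
      rintro _ ⟨p, hp, rfl⟩
      rcases hx with rfl | rfl
      · exact ⟨_, step_I hp, mul_II p⟩
      · exact ⟨_, (step_G hp).1, by rw [← hf_GG, mul_GG hp]⟩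
    | zero => intro y _; rw [zero_mul]; exact zero_mem _
    | one => intro y hy; rwa [one_mul]
    | add a b _ _ ha hb => intro y hy; rw [add_mul]; exact add_mem (ha y hy) (hb y hy)
    | neg a _ ha => intro y hy; rw [neg_mul]; exact neg_mem (ha y hy)
    | mul a b _ _ ha hb => intro y hy; rw [mul_assoc]; exact ha _ (hb y hy)
  have h1 := this 1 ⟨ONE, by decide, hf_ONE.symm⟩
  rwa [mul_one] at h1

theorem wv_mem (l : List Bool) : inI (wv l) = true ∧ hf (wv l) ∈ icosians := by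
  induction l with
  | nil => exact ⟨by decide, by rw [wv, hf_ONE]; exact one_mem _⟩
  | cons b l ih =>
    cases b
    · exact ⟨step_I ih.1, by
        rw [wv, cond_false, ← mul_II]; exact mul_mem (Subring.subset_closure (by simp)) ih.2⟩
    · exact ⟨(step_G ih.1).1, by
        rw [wv, cond_true, ← mul_GG ih.1, hf_GG]; exact mul_mem (Subring.subset_closure (Or.inr rfl)) ih.2⟩

theorem E_mem : ∀ p ∈ [E0, E1, E2, E3, ((0, 2), (0, 0), (0, 0), (0, 0))], hf p ∈ icosians := by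
  rw [← wv_ok]
  intro p hp
  obtain ⟨x, -, rfl⟩ := List.mem_map.1 hp
  rw [hf_add]; exact add_mem (wv_mem _).2 (wv_mem _).2

theorem tau_mem : (tau : ℍ[ℝ]) ∈ icosians := by
  convert E_mem ((0, 2), (0, 0), (0, 0), (0, 0)) (by simp) using 1
  ext <;> simp [hf, rt]

theorem smul_mem_I (t : T) {x : ℍ[ℝ]} (hx : x ∈ icosians) : rt t • x ∈ icosians := by
  rw [← coe_mul_eq_smul, rt]
  push_cast
  exact mul_mem (add_mem (intCast_mem _ _) (mul_mem (intCast_mem _ _) tau_mem)) hx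

theorem eQ_mem (y : Q) : hf (eQ y) ∈ icosians := by
  simp only [eQ, hf_add, hf_qsc]
  exact add_mem (add_mem (add_mem (smul_mem_I _ (E_mem _ (by simp))) (smul_mem_I _ (E_mem _ (by simp))))
    (smul_mem_I _ (E_mem _ (by simp)))) (smul_mem_I _ (E_mem _ (by simp)))

theorem hf_mem {p : Q} : hf p ∈ icosians ↔ inI p = true :=
  ⟨fun h => by obtain ⟨q, h1, h2⟩ := exists_hf h; rwa [hf_inj h2],
    fun h => by obtain ⟨y, rfl⟩ := exists_eQ h; exact eQ_mem y⟩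

theorem star_mem {x : ℍ[ℝ]} (hx : x ∈ icosians) : star x ∈ icosians := by
  obtain ⟨p, hp, rfl⟩ := exists_hf hx
  rw [show star (hf p) = hf (qs p) by rw [hf, hf, rq_qs, Quaternion.star_smul], hf_mem]
  simp only [inI, qs, Bool.and_eq_true, beq_iff_eq, Prod.fst_neg, Prod.snd_neg] at hp ⊢
  omega

theorem h_mem : icoH ∈ icosians := by rw [← hf_HH, hf_mem]; decide
theorem h_nrm : normSq icoH = 2 := by rw [← hf_HH, hf_nrm, show nrm HH = (8, 0) by decide, rt_int]; norm_num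
theorem h_hb : icoH * star icoH = 2 := by rw [self_mul_star, h_nrm]; rfl
theorem hb_h : star icoH * icoH = 2 := by rw [star_mul_self, h_nrm]; rfl

theorem h_ne : icoH ≠ 0 := fun e => by have := h_nrm; rw [e, map_zero] at this; norm_num at this

/-- norms of icosians -/
theorem nrm_spec {x : ℍ[ℝ]} (hx : x ∈ icosians) : ∃ m n : ℤ, normSq x = rt (m, n) ∧ 0 ≤ 2 * m + 3 * n ∧
    0 ≤ 5 * m - 3 * n ∧ (m = 0 → x = 0) := by
  obtain ⟨w, h1, h2⟩ := exists_hf (mul_mem hx (star_mem hx))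
  obtain ⟨p, hp, rfl⟩ := exists_hf hx
  rw [self_mul_star, hf_nrm] at h2
  generalize hc : rt (nrm p) / 4 = c at h2
  obtain ⟨w0, w1, w2, w3⟩ := w
  have a1 : w1 = 0 := rt_inj (by simpa [hf, rt] using (congrArg (·.imI) h2).symm)
  have a2 : w2 = 0 := rt_inj (by simpa [hf, rt] using (congrArg (·.imJ) h2).symm)
  have a3 : w3 = 0 := rt_inj (by simpa [hf, rt] using (congrArg (·.imK) h2).symm)
  have a0 : nrm p = w0 + w0 := rt_inj (by
    have := congrArg (·.re) h2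
    simp only [hf, rq_re, re_coe, re_smul, smul_eq_mul] at this
    rw [rt_add]; linarith)
  subst a1 a2 a3
  simp only [inI, Bool.and_eq_true, beq_iff_eq, Prod.fst_zero, Prod.snd_zero] at h1
  obtain ⟨⟨a0', b0⟩, ⟨a1, b1⟩, ⟨a2, b2⟩, ⟨a3, b3⟩⟩ := p
  have e := a0
  simp only [nrm, tm, Prod.mk_add_mk, Prod.ext_iff, Prod.fst_add, Prod.snd_add] at e
  obtain ⟨m, hm⟩ : ∃ m, w0.1 = 2 * m := ⟨w0.1 / 2, by omega⟩
  obtain ⟨n, hn⟩ : ∃ m, w0.2 = 2 * m := ⟨w0.2 / 2, by omega⟩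
  refine ⟨m, n, ?_, ?_, ?_, fun h => ?_⟩
  · rw [hf_nrm, a0, rt_add]; simp only [rt, hm, hn]; push_cast; ring
  · nlinarith [sq_nonneg (a0' + b0), sq_nonneg (a0' + 2 * b0), sq_nonneg (a1 + b1), sq_nonneg (a1 + 2 * b1),
      sq_nonneg (a2 + b2), sq_nonneg (a2 + 2 * b2), sq_nonneg (a3 + b3), sq_nonneg (a3 + 2 * b3)]
  · nlinarith [sq_nonneg (a0' - b0), sq_nonneg (2 * a0' - b0), sq_nonneg (a1 - b1), sq_nonneg (2 * a1 - b1),
      sq_nonneg (a2 - b2), sq_nonneg (2 * a2 - b2), sq_nonneg (a3 - b3), sq_nonneg (2 * a3 - b3)]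
  · have e1 := e.1
    rw [hm, h] at e1
    have z : ∀ t : ℤ, t * t ≤ 0 → t = 0 := fun t h => mul_self_eq_zero.1 (le_antisymm h (mul_self_nonneg t))
    have p0 := mul_self_nonneg a0'
    have p1 := mul_self_nonneg a1
    have p2 := mul_self_nonneg a2
    have p3 := mul_self_nonneg a3
    have q0 := mul_self_nonneg b0
    have q1 := mul_self_nonneg b1
    have q2 := mul_self_nonneg b2
    have q3 := mul_self_nonneg b3
    rw [z a0' (by linarith), z a1 (by linarith), z a2 (by linarith), z a3 (by linarith), z b0 (by linarith),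
      z b1 (by linarith), z b2 (by linarith), z b3 (by linarith)]
    exact hf_ZZ

theorem nrm_of {p : Q} {m n : ℤ} (h : normSq (hf p) = rt (m, n)) : nrm p = (4 * m, 4 * n) := by
  apply rt_inj
  rw [hf_nrm] at h
  simp only [rt] at h ⊢
  push_cast; linarith

/-! ### the lattice -/

def Lam (x y z : ℍ[ℝ]) : Prop := x ∈ icosians ∧ y ∈ icosians ∧ z ∈ icosians ∧
  (∃ a ∈ icosians, x - y = a * icoH) ∧ (∃ a ∈ icosians, y - z = a * icoH) ∧
  ∃ a ∈ icosians, x + y + z = a * star icoH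

theorem mem_lam {v : Fin 3 → ℍ[ℝ]} : v ∈ icoLeech ↔ Lam (v 0) (v 1) (v 2) :=
  ⟨fun h => ⟨h.1 0, h.1 1, h.1 2, h.2⟩, fun h => ⟨fun t => by fin_cases t; exacts [h.1, h.2.1, h.2.2.1], h.2.2.2⟩⟩

theorem Lam.sw1 {x y z : ℍ[ℝ]} (h : Lam x y z) : Lam y x z := by
  obtain ⟨h1, h2, h3, ⟨a, a1, a2⟩, ⟨b, b1, b2⟩, c, c1, c2⟩ := h
  exact ⟨h2, h1, h3, ⟨-a, neg_mem a1, by rw [neg_mul, ← a2, neg_sub]⟩,
    ⟨a + b, add_mem a1 b1, by rw [add_mul, ← a2, ← b2]; abel⟩, c, c1, by rw [← c2]; abel⟩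

theorem Lam.sw2 {x y z : ℍ[ℝ]} (h : Lam x y z) : Lam x z y := by
  obtain ⟨h1, h2, h3, ⟨a, a1, a2⟩, ⟨b, b1, b2⟩, c, c1, c2⟩ := h
  exact ⟨h1, h3, h2, ⟨a + b, add_mem a1 b1, by rw [add_mul, ← a2, ← b2]; abel⟩,
    ⟨-b, neg_mem b1, by rw [neg_mul, ← b2, neg_sub]⟩, c, c1, by rw [← c2]; abel⟩

theorem Lam.mul {x y z u : ℍ[ℝ]} (h : Lam x y z) (hu : u ∈ icosians) : Lam (u * x) (u * y) (u * z) := by
  obtain ⟨h1, h2, h3, ⟨a, a1, a2⟩, ⟨b, b1, b2⟩, c, c1, c2⟩ := h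
  exact ⟨mul_mem hu h1, mul_mem hu h2, mul_mem hu h3, ⟨u * a, mul_mem hu a1, by rw [← mul_sub, a2, mul_assoc]⟩,
    ⟨u * b, mul_mem hu b1, by rw [← mul_sub, b2, mul_assoc]⟩, u * c, mul_mem hu c1, by
      rw [← mul_add, ← mul_add, c2, mul_assoc]⟩

theorem in8_of {p q : Q} {a : ℍ[ℝ]} (ha : a ∈ icosians) (h : hf p * hf q = a * 2) : in8 p q = true := by
  obtain ⟨r, h1, rfl⟩ := exists_hf ha
  have : qm p q = qsc (4, 0) r := rq_inj (by
    rw [hf_mul, mul_two, hf, ← add_smul] at h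
    rw [rq_qsc, rt_int, ← one_smul ℝ (rq r), ← show (1 / 2 + 1 / 2 : ℝ) = 1 by norm_num, ← h, smul_smul]; norm_num)
  have h2 : qd 4 (qsc (4, 0) r) = r := by simp [qd, qsc, td, tm]
  simp [in8, fQ_eq, this, h2, h1]

theorem in8_iff {p q : Q} (h : in8 p q = true) : ∃ a ∈ icosians, hf p * hf q = a * 2 := by
  simp only [in8, fQ_eq, Bool.and_eq_true, beq_iff_eq] at h
  refine ⟨_, hf_mem.2 h.2, ?_⟩
  rw [hf_mul, mul_two, hf, ← add_smul]
  conv_lhs => rw [h.1, rq_qsc, rt_int, smul_smul]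
  norm_num

theorem inL_iff {x y z : Q} : inL (x, y, z) = true ↔ Lam (hf x) (hf y) (hf z) := by
  simp only [inL, Bool.and_eq_true, ← hf_mem]
  constructor
  · rintro ⟨⟨⟨⟨⟨h1, h2⟩, h3⟩, h4⟩, h5⟩, h6⟩
    obtain ⟨a, a1, a2⟩ := in8_iff h4
    obtain ⟨b, b1, b2⟩ := in8_iff h5
    obtain ⟨c, c1, c2⟩ := in8_iff h6
    rw [hf_HB, hf_sub, ← h_hb, ← mul_assoc] at a2 b2
    rw [hf_HH, hf_add, hf_add, ← hb_h, ← mul_assoc] at c2
    have n1 := h_ne
    exact ⟨h1, h2, h3, ⟨a, a1, mul_right_cancel₀ (star_ne_zero.2 n1) a2⟩,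
      ⟨b, b1, mul_right_cancel₀ (star_ne_zero.2 n1) b2⟩, c, c1, mul_right_cancel₀ n1 c2⟩
  · rintro ⟨h1, h2, h3, ⟨a, a1, a2⟩, ⟨b, b1, b2⟩, c, c1, c2⟩
    exact ⟨⟨⟨⟨⟨h1, h2⟩, h3⟩, in8_of a1 (by rw [hf_sub, a2, hf_HB, mul_assoc, h_hb])⟩,
      in8_of b1 (by rw [hf_sub, b2, hf_HB, mul_assoc, h_hb])⟩,
      in8_of c1 (by rw [hf_add, hf_add, c2, hf_HH, mul_assoc, hb_h])⟩

theorem Lam.zero_right {x y : ℍ[ℝ]} (h : Lam x y 0) :
    ∃ a ∈ icosians, ∃ b ∈ icosians, x = a * icoH ∧ y = b * icoH := by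
  obtain ⟨-, -, -, ⟨a, a1, a2⟩, ⟨b, b1, b2⟩, -⟩ := h
  rw [sub_zero] at b2
  exact ⟨a + b, add_mem a1 b1, b, b1, by rw [add_mul, ← a2, ← b2]; abel, b2⟩

theorem Lam.two {x : ℍ[ℝ]} (h : Lam x 0 0) : ∃ d ∈ icosians, x = d * 2 := by
  obtain ⟨h1, -, -, ⟨a, a1, a2⟩, -, c, c1, c2⟩ := h
  rw [sub_zero] at a2
  rw [add_zero, add_zero] at c2
  refine ⟨a + c + x * tau, add_mem (add_mem a1 c1) (mul_mem h1 tau_mem), ?_⟩
  have e1 : x * star icoH = a * 2 := by rw [a2, mul_assoc, h_hb]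
  have e2 : x * icoH = c * 2 := by rw [c2, mul_assoc, hb_h]
  have e3 : star icoH + icoH + tau * 2 = 1 := by
    ext <;> simp [s5_eq, mul_two]; ring
  rw [add_mul, add_mul, ← e1, ← e2, mul_assoc, ← mul_add, ← mul_add, e3, mul_one]

theorem rt_eq {m n m' n' : ℤ} {c : ℤ} (h : rt (m, n) = rt (m', n') * c) : m = c * m' ∧ n = c * n' := by
  have : ((m, n) : T) = (c * m', c * n') := rt_inj (by rw [h]; simp only [rt]; push_cast; ring)
  simpa using this

/-- no short vectors -/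
theorem small_zero {x y z : ℍ[ℝ]} (h : Lam x y z) {M N : ℤ} (hn : normSq x + normSq y + normSq z = rt (M, N))
    (hM : M ≤ 2) : x = 0 ∧ y = 0 ∧ z = 0 := by
  have k1 : ∀ {x : ℍ[ℝ]}, Lam x 0 0 → ∀ {N}, normSq x = rt (M, N) → x = 0 := fun {x} h N hn => by
    obtain ⟨d, h1, rfl⟩ := h.two
    obtain ⟨m, n, a1, a2, a3, a4⟩ := nrm_spec h1
    have := rt_eq (c := 4) (m := M) (n := N) (m' := m) (n' := n) (by
      rw [← hn, map_mul, a1, show (2 : ℍ[ℝ]) = (2 : ℝ) by rfl, normSq_coe]; norm_num)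
    rw [a4 (by omega), zero_mul]
  have k2 : ∀ {x y : ℍ[ℝ]}, Lam x y 0 → ∀ {N}, normSq x + normSq y = rt (M, N) → x = 0 ∧ y = 0 := fun {x y} h N hn => by
    obtain ⟨a, h1, b, h2, rfl, rfl⟩ := h.zero_right
    obtain ⟨m, n, a1, a2, a3, a4⟩ := nrm_spec h1
    obtain ⟨m', n', b1, b2, b3, b4⟩ := nrm_spec h2
    have := rt_eq (c := 2) (m := M) (n := N) (m' := m + m') (n' := n + n') (by
      rw [← hn, map_mul, map_mul, a1, b1, h_nrm]; simp only [rt]; push_cast; ring)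
    by_cases h0 : m = 0
    · rw [a4 h0, zero_mul] at h hn ⊢
      exact ⟨rfl, k1 h.sw1 (by simpa using hn)⟩
    · rw [b4 (by omega), zero_mul] at h hn ⊢
      exact ⟨k1 h (by simpa using hn), rfl⟩
  obtain ⟨m0, n0, a1, a2, a3, a4⟩ := nrm_spec h.1
  obtain ⟨m1, n1, b1, b2, b3, b4⟩ := nrm_spec h.2.1
  obtain ⟨m2, n2, c1, c2, c3, c4⟩ := nrm_spec h.2.2.1
  have := rt_eq (c := 1) (m := M) (n := N) (m' := m0 + m1 + m2) (n' := n0 + n1 + n2) (by
    rw [← hn, a1, b1, c1]; simp only [rt]; push_cast; ring)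
  rcases (by omega : m0 = 0 ∨ m1 = 0 ∨ m2 = 0) with h0 | h0 | h0
  · obtain rfl := a4 h0
    exact ⟨rfl, k2 h.sw1.sw2 (by simpa using hn)⟩
  · obtain rfl := b4 h0
    have := k2 h.sw2 (by simpa using hn)
    exact ⟨this.1, rfl, this.2⟩
  · obtain rfl := c4 h0
    have := k2 h (by simpa using hn)
    exact ⟨this.1, this.2, rfl⟩

def lam (a b c : ℍ[ℝ]) : Fin 3 → ℍ[ℝ] :=
  ![a * icoH + c * star icoH, (a + b) * icoH + c * star icoH, b * icoH + c * star icoH]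

def kap (u : ℕ → ℤ) : Fin 3 → ℍ[ℝ] := lam (hf (eQ (cq u 0))) (hf (eQ (cq u 8))) (hf (eQ (cq u 16)))

theorem kap_mem (u : ℕ → ℤ) : kap u ∈ icoLeech := by
  have ha := eQ_mem (cq u 0)
  have hb := eQ_mem (cq u 8)
  have hc := eQ_mem (cq u 16)
  rw [kap]
  generalize hf (eQ (cq u 0)) = a at ha
  generalize hf (eQ (cq u 8)) = b at hb
  generalize hf (eQ (cq u 16)) = c at hc
  have h1 := h_mem
  have h2 := star_mem h_mem
  refine mem_lam.2 ⟨add_mem (mul_mem ha h1) (mul_mem hc h2), add_mem (mul_mem (add_mem ha hb) h1) (mul_mem hc h2),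
    add_mem (mul_mem hb h1) (mul_mem hc h2), ⟨-b, neg_mem hb, ?_⟩, ⟨a, ha, ?_⟩,
    (a + b) * icoH * icoH + (c + c + c), add_mem (mul_mem (mul_mem (add_mem ha hb) h1) h1)
      (add_mem (add_mem hc hc) hc), ?_⟩
  · simp [lam]; noncomm_ring
  · simp [lam]; noncomm_ring
  · rw [add_mul, mul_assoc _ icoH (star icoH), h_hb]; simp [lam]; noncomm_ring

theorem exists_kap {v : Fin 3 → ℍ[ℝ]} (hv : v ∈ icoLeech) : ∃ u, v = kap u := by
  obtain ⟨-, -, h3, ⟨b, b1, b2⟩, ⟨a, a1, a2⟩, d, d1, d2⟩ := mem_lam.1 hv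
  have hc : d - a * icoH * icoH - v 2 * icoH ∈ icosians :=
    sub_mem (sub_mem d1 (mul_mem (mul_mem a1 h_mem) h_mem)) (mul_mem h3 h_mem)
  have e : v = lam a (-b) (d - a * icoH * icoH - v 2 * icoH) := by
    have e1 : (d - a * icoH * icoH - v 2 * icoH) * star icoH = v 2 + b * icoH := by
      rw [sub_mul, sub_mul, mul_assoc _ icoH (star icoH), mul_assoc _ icoH (star icoH), h_hb, ← d2, ← a2, ← b2]
      noncomm_ring
    funext t
    rw [lam, e1, add_mul, neg_mul, ← a2, ← b2]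
    fin_cases t <;> simp <;> abel
  obtain ⟨p, p1, rfl⟩ := exists_hf a1
  obtain ⟨q, q1, q2⟩ := exists_hf (neg_mem b1)
  obtain ⟨r, r1, r2⟩ := exists_hf hc
  obtain ⟨p, rfl⟩ := exists_eQ p1
  obtain ⟨q, rfl⟩ := exists_eQ q1
  obtain ⟨r, rfl⟩ := exists_eQ r1
  rw [r2, q2] at e
  exact ⟨fun n => [p.1.1, p.1.2, p.2.1.1, p.2.1.2, p.2.2.1.1, p.2.2.1.2, p.2.2.2.1, p.2.2.2.2,
    q.1.1, q.1.2, q.2.1.1, q.2.1.2, q.2.2.1.1, q.2.2.1.2, q.2.2.2.1, q.2.2.2.2,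
    r.1.1, r.1.2, r.2.1.1, r.2.1.2, r.2.2.1.1, r.2.2.1.2, r.2.2.2.1, r.2.2.2.2].getD n 0, e⟩

theorem kap_add (u v : ℕ → ℤ) : kap (u + v) = kap u + kap v := by
  have : ∀ n, cq (u + v) n = cq u n + cq v n := fun n => rfl
  simp only [kap, this, eQ_add, hf_add]
  funext t
  fin_cases t <;> simp [lam] <;> noncomm_ring

def kapH : (ℕ → ℤ) →+ (Fin 3 → ℍ[ℝ]) := AddMonoidHom.mk' kap kap_add

theorem kap_zero {u : ℕ → ℤ} (h : kap u = 0) : ∀ k < 24, u k = 0 := by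
  have h0 := congrFun h 0
  have h1 := congrFun h 1
  have h2 := congrFun h 2
  simp only [kap, lam, Matrix.cons_val_zero, Matrix.cons_val_one, Matrix.cons_val, Pi.zero_apply] at h0 h1 h2
  have n1 := h_ne
  have b0 : hf (eQ (cq u 8)) = 0 := (mul_eq_zero.1 (by rw [← sub_eq_zero.2 (h1.trans h0.symm)]; noncomm_ring)).resolve_right n1
  have a0 : hf (eQ (cq u 0)) = 0 := (mul_eq_zero.1 (by rw [← sub_eq_zero.2 (h1.trans h2.symm)]; noncomm_ring)).resolve_right n1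
  have c0 : hf (eQ (cq u 16)) = 0 := by
    rw [a0, zero_mul, zero_add] at h0
    exact (mul_eq_zero.1 h0).resolve_right (star_ne_zero.2 n1)
  have a1 := eQ_eq_zero (hf_inj (a0.trans hf_ZZ.symm))
  have b1 := eQ_eq_zero (hf_inj (b0.trans hf_ZZ.symm))
  have c1 := eQ_eq_zero (hf_inj (c0.trans hf_ZZ.symm))
  simp only [cq, Prod.mk_eq_zero] at a1 b1 c1
  intro k hk
  interval_cases k <;> simp [a1, b1, c1]

def sv (c : ℝ) (X : V) : Fin 3 → ℍ[ℝ] := c • ![rq X.1, rq X.2.1, rq X.2.2]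

theorem sv_half (x y z : Q) : sv (1 / 2) (x, y, z) = ![hf x, hf y, hf z] := by
  funext t; fin_cases t <;> rfl

theorem kap_eq (u : ℕ → ℤ) : kap u = sv (1 / 4) (kapQ u) := by
  rw [kap, kapQ, fV_eq, lam, ← hf_HB, ← hf_HH]
  funext t
  fin_cases t <;> simp [sv, lamQ, ← hf_add, hf_mul, rq_add]

end Cfsg.Agent.H4.J2
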