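import Cfsg.Agent.H4.J2d

/-! The reflection group `2.J₂` and its reduction modulo two. -/

set_option autoImplicit false
set_option maxRecDepth 100000

noncomputable section

namespace Cfsg.Agent.H4.J2

open Cfsg.Spor Quaternion Cfsg.Agent.H4.TC Cfsg.Agent.H4.Bit Matrix

abbrev H3 := Fin 3 → ℍ[ℝ]

theorem qip_add (x y r : H3) : qip (x + y) r = qip x r + qip y r := by
  simp [qip, add_mul, Finset.sum_add_distrib]
theorem qip_sub (x y r : H3) : qip (x - y) r = qip x r - qip y r := by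
  simp [qip, sub_mul, Finset.sum_sub_distrib]
theorem qip_smul (a : ℍ[ℝ]) (x r : H3) : qip (a • x) r = a * qip x r := by
  simp [qip, Finset.mul_sum, mul_assoc]
theorem qip_smul' (a : ℍ[ℝ]) (x r : H3) : qip x (a • r) = qip x r * star a := by
  simp [qip, Finset.sum_mul, mul_assoc]
theorem qip_add' (x y r : H3) : qip r (x + y) = qip r x + qip r y := by
  simp [qip, mul_add, Finset.sum_add_distrib]
theorem qip_sub' (x y r : H3) : qip r (x - y) = qip r x - qip r y := by
  simp [qip, mul_sub, Finset.sum_sub_distrib]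
theorem qip_star (x r : H3) : star (qip x r) = qip r x := by simp [qip, star_sum]
theorem qip_self (x : H3) : qip x x = ((normSq (x 0) + normSq (x 1) + normSq (x 2) : ℝ) : ℍ[ℝ]) := by
  simp [qip, Fin.sum_univ_three, self_mul_star]

theorem qrefl_eq (r x : H3) : qrefl r x = x - ((1 / 2 : ℝ) • qip x r) • r := rfl

def RL (r : H3) : H3 →ₗ[ℍ[ℝ]] H3 where
  toFun := qrefl r
  map_add' x y := by rw [qrefl_eq, qrefl_eq, qrefl_eq, qip_add, smul_add, add_smul]; abel
  map_smul' a x := by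
    rw [qrefl_eq, qrefl_eq, qip_smul, RingHom.id_apply, smul_sub, smul_smul, mul_smul_comm]

theorem four_eq : (4 : ℍ[ℝ]) = (4 : ℝ) • (1 : ℍ[ℝ]) := by ext <;> simp <;> rfl

theorem qip_qrefl {r : H3} (hr : qip r r = 4) (x y : H3) : qip (qrefl r x) (qrefl r y) = qip x y := by
  rw [qrefl_eq, qrefl_eq, qip_sub, qip_sub', qip_sub', qip_smul, qip_smul, qip_smul', qip_smul', hr,
    Quaternion.star_smul, qip_star, four_eq]
  simp only [smul_mul_assoc, mul_smul_comm, smul_smul, one_mul]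
  module

theorem qrefl_qrefl {r : H3} (hr : qip r r = 4) (x : H3) : qrefl r (qrefl r x) = x := by
  rw [qrefl_eq r (qrefl r x), qrefl_eq, qip_sub, qip_smul, hr, four_eq, sub_sub, ← add_smul]
  simp only [mul_smul_comm, mul_one, smul_smul]
  rw [show (1 / 2 : ℝ) • qip x r + (1 / 2 : ℝ) • (qip x r - (4 * (1 / 2) : ℝ) • qip x r) = 0 by module]; simp

theorem qrefl_conj {s : H3} (hs : qip s s = 4) (r x : H3) : qrefl s (qrefl r (qrefl s x)) = qrefl (qrefl s r) x := by
  rw [qrefl_eq r, qrefl_eq (qrefl s r), ← qip_qrefl hs, qrefl_qrefl hs]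
  show RL s _ = _
  rw [map_sub, map_smul]
  exact congrArg (· - _) (qrefl_qrefl hs x)

theorem qrefl_smul {u : ℍ[ℝ]} (hu : normSq u = 1) (r x : H3) : qrefl (u • r) x = qrefl r x := by
  rw [qrefl_eq, qrefl_eq, qip_smul', smul_smul, smul_mul_assoc, mul_assoc, star_mul_self, hu]; simp

theorem refl_sv {S X X' : V} (c : ℝ) (h : rf S X = vsc 8 X') : qrefl (sv (1 / 2) S) (sv c X) = sv c X' := by
  rw [rf, fQ_eq] at h
  have e : qip (sv c X) (sv (1 / 2) S) = (c / 2) • rq (ip X S) := by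
    simp only [qip, sv, Fin.sum_univ_three, ip, rq_add, rq_qm, rq_qs, Pi.smul_apply, Quaternion.star_smul,
      smul_mul_assoc, mul_smul_comm, smul_add, smul_smul, Matrix.cons_val_zero, Matrix.cons_val_one, Matrix.cons_val]
    module
  have k : ∀ a b s : Q, qsc (8, 0) a - qm (ip X S) s = qsc (8, 0) b →
      c • rq a - ((1 / 2 : ℝ) • (c / 2) • rq (ip X S)) * ((1 / 2 : ℝ) • rq s) = c • rq b := fun a b s h => by
    have := congrArg rq h
    rw [rq_sub, rq_qsc, rq_qsc, rq_qm, rt_int] at this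
    simp only [smul_mul_assoc, mul_smul_comm, smul_smul]
    linear_combination (norm := module) (c / 8) • this
  rw [qrefl_eq, e]
  funext t
  fin_cases t
  exacts [k _ _ _ (congrArg (·.1) h), k _ _ _ (congrArg (·.2.1) h), k _ _ _ (congrArg (·.2.2) h)]

def sg (g : ℕ) : H3 := sv (1 / 2) (SG g)

theorem sg_spec {g : ℕ} (hg : g ∈ h4) : qip (sg g) (sg g) = 4 ∧ sg g ∈ icoLeech := by
  have h := List.all_eq_true.1 SG_ok g hg
  simp only [Bool.and_eq_true, beq_iff_eq] at h
  refine ⟨?_, ?_⟩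
  · have : qip (sg g) (sg g) = (1 / 4 : ℝ) • rq (ip (SG g) (SG g)) := by
      simp only [qip, sg, sv, Fin.sum_univ_three, ip, rq_add, rq_qm, rq_qs, Pi.smul_apply, Quaternion.star_smul,
        smul_mul_assoc, mul_smul_comm, smul_add, smul_smul, Matrix.cons_val_zero, Matrix.cons_val_one, Matrix.cons_val]
      module
    rw [this, h.1, four_eq]; ext <;> simp [rt]; norm_num
  · rw [mem_lam]; exact inL_iff.1 h.2

variable {K : Type*} [Field K] [CharP K 2] {ω : K}

def nat (ω : K) (h : ℕ) (u : ℕ → ℤ) : Fin 6 → K := fun l => (u (ix h l) : K) + ω * u (ix h l + 1)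

theorem nat_pk (h : ℕ) (u : ℕ → ℤ) (l : Fin 6) : D6 ω (pk h u) l 0 = nat ω h u l := by
  have : ∀ f : ℕ → ℤ, bit K (xr (fun l => bif oddZ (f l) then 2 ^ l else 0) 6) l = f l := fun f => by
    rw [bit_xr, Finset.sum_eq_single (l : ℕ) (fun b _ hb => by cases oddZ (f b) <;> simp [bit_two_pow, hb])
      (by simp), cast_oddZ]
    cases oddZ (f l) <;> simp [bit_two_pow]
  simp only [D6, d6, pk, nat, Matrix.add_apply, Matrix.smul_apply, dec_apply, Fin.val_zero, mul_zero, zero_add,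
    smul_eq_mul]
  rw [this fun l => u (ix h l), this fun l => u (ix h l + 1)]

def cj (ω : K) (y : M6 K) : M6 K := D6 ω PI * y * D6 ω PP

def Act (ω : K) (g : H3 → H3) (M : M6 K) : Prop :=
  ∀ u, ∃ u', g (kap u) = kap u' ∧ ∀ h < 2, nat ω h u' = cj ω M *ᵥ nat ω h u

theorem act_gen (hω : ω ^ 2 + ω + 1 = 0) {g : ℕ} (hg : g ∈ h4) : Act ω (qrefl (sg g)) (D6 ω (gm g)) := by
  have nadd : ∀ h u v, nat ω h (u + v) = nat ω h u + nat ω h v := fun h u v => by
    funext l; simp [nat]; ring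
  have nneg : ∀ h u, nat ω h (-u) = -nat ω h u := fun h u => by funext l; simp [nat]; ring
  let S : AddSubgroup (ℕ → ℤ) :=
    { carrier := {u | ∃ u', RL (sg g) (kapH u) = kapH u' ∧ ∀ h < 2, nat ω h u' = cj ω (D6 ω (gm g)) *ᵥ nat ω h u}
      zero_mem' := ⟨0, by simp, fun h _ => by rw [show nat ω h 0 = 0 by funext l; simp [nat]]; simp⟩
      add_mem' := by
        rintro u v ⟨u', h1, h2⟩ ⟨v', h3, h4⟩
        exact ⟨u' + v', by simp [h1, h3], fun h hh => by rw [nadd, nadd, h2 h hh, h4 h hh, Matrix.mulVec_add]⟩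
      neg_mem' := by
        rintro u ⟨u', h1, h2⟩
        exact ⟨-u', by simp [h1], fun h hh => by rw [nneg, nneg, h2 h hh, Matrix.mulVec_neg]⟩ }
  have hb : ∀ k < 24, un k ∈ S := fun k hk => by
    have h := List.all_eq_true.1 AL_ok g hg
    rw [fo_eq] at h
    have h1 := all_range h hk
    simp only [fV_eq, Bool.and_eq_true, beq_iff_eq] at h1
    refine ⟨col g k, ?_, fun h hh => funext fun l => ?_⟩
    · show qrefl (sg g) (kap _) = kap _
      rw [kap_eq, kap_eq]; exact refl_sv _ h1.1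
    · have h2 := congrArg (fun X => D6 ω X l 0) (beq_iff_eq.1 (all_range h1.2 hh))
      simp only [D6_m4 hω, nat_pk] at h2
      rw [← h2, Matrix.mul_apply]
      simp only [nat_pk]; rfl
  have ht : ∀ u : ℕ → ℤ, ∀ n ≤ 24, (fun k => if k < n then u k else 0) ∈ S := fun u n hn => by
    induction n with
    | zero => convert zero_mem S using 1; funext k; simp
    | succ n ih =>
      convert add_mem (ih (by omega)) (zsmul_mem (hb n (by omega)) (u n)) using 1
      funext k
      simp only [un, Pi.add_apply, Pi.smul_apply, smul_eq_mul]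
      split_ifs <;> first | omega | simp_all
  intro u
  obtain ⟨u', h1, h2⟩ := ht u 24 le_rfl
  refine ⟨u', h1, fun h hh => ?_⟩
  rw [h2 h hh]
  congr 1
  funext l
  have := l.2
  simp only [nat]
  rw [if_pos (show ix h l < 24 by rw [ix]; omega), if_pos (show ix h l + 1 < 24 by rw [ix]; omega)]

theorem sg_mem (hω : ω ^ 2 + ω + 1 = 0) {g : ℕ} (hg : g ∈ h4) {x : H3} (hx : x ∈ icoLeech) :
    qrefl (sg g) x ∈ icoLeech := by
  obtain ⟨u, rfl⟩ := exists_kap hx
  obtain ⟨u', h, -⟩ := act_gen hω hg u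
  rw [h]; exact kap_mem _

section
variable (hω : ω ^ 2 + ω + 1 = 0)

def ff (g : ℕ) : Equiv.Perm icoLeech :=
  if h : g ∈ h4 then Function.Involutive.toPerm (fun x => ⟨qrefl (sg g) x, sg_mem hω h x.2⟩)
    fun x => Subtype.ext (qrefl_qrefl (sg_spec h).1 x) else 1

theorem ff_apply {g : ℕ} (hg : g ∈ h4) (x : icoLeech) : (ff hω g x : H3) = qrefl (sg g) x := by
  rw [ff, dif_pos hg]; rfl

theorem ff_sq (g : ℕ) : ff hω g * ff hω g = 1 := by
  by_cases hg : g ∈ h4
  · ext1 x
    exact Subtype.ext (by rw [Equiv.Perm.mul_apply, ff_apply hω hg, ff_apply hω hg, qrefl_qrefl (sg_spec hg).1]; rfl)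
  · rw [ff, dif_neg hg, one_mul]

def KK : Subgroup (Equiv.Perm icoLeech) := Subgroup.closure (ff hω '' {g | g ∈ h4})

def Pr (r : H3) : Prop := ∃ k ∈ KK hω, ∀ x : icoLeech, (k x : H3) = qrefl r x

variable {hω}

theorem Pr.gen {g : ℕ} (hg : g ∈ h4) : Pr hω (sg g) := ⟨_, Subgroup.subset_closure ⟨g, hg, rfl⟩, ff_apply hω hg⟩

theorem Pr.refl {g : ℕ} (hg : g ∈ h4) {r : H3} (h : Pr hω r) : Pr hω (qrefl (sg g) r) := by
  obtain ⟨k, h1, h2⟩ := h
  have h3 : ff hω g ∈ KK hω := Subgroup.subset_closure ⟨g, hg, rfl⟩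
  refine ⟨_, mul_mem (mul_mem h3 h1) h3, fun x => ?_⟩
  rw [Equiv.Perm.mul_apply, Equiv.Perm.mul_apply, ff_apply hω hg, h2, ff_apply hω hg, qrefl_conj (sg_spec hg).1]

theorem Pr.unit {u : ℍ[ℝ]} (hu : normSq u = 1) {r : H3} (h : Pr hω r) : Pr hω (u • r) := by
  obtain ⟨k, h1, h2⟩ := h
  exact ⟨k, h1, fun x => by rw [h2, qrefl_smul hu]⟩

theorem Pr.sw1 {x y z : ℍ[ℝ]} (h : Pr hω ![x, y, z]) : Pr hω ![y, x, z] := by
  convert h.refl (g := 1) (by decide) using 1
  have : sg 1 = ![icoH, -icoH, 0] := by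
    rw [sg, show SG 1 = (HH, ZZ - HH, ZZ) from beq_iff_eq.1 (by decide +kernel), sv_half, hf_sub, hf_HH, hf_ZZ, zero_sub]
  have e : ((1 / 2 : ℝ) • qip ![x, y, z] ![icoH, -icoH, 0]) * icoH = x - y := by
    simp only [qip, Fin.sum_univ_three, Matrix.cons_val_zero, Matrix.cons_val_one, Matrix.cons_val, star_neg,
      star_zero, mul_zero, add_zero, smul_mul_assoc, mul_neg, add_mul, neg_mul, mul_assoc, hb_h, mul_two]
    module
  rw [this, qrefl_eq]
  generalize (1 / 2 : ℝ) • qip ![x, y, z] _ = c at e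
  funext t
  fin_cases t <;> simp [e]

theorem Pr.sw2 {x y z : ℍ[ℝ]} (h : Pr hω ![x, y, z]) : Pr hω ![x, z, y] := by
  convert h.refl (g := 2) (by decide) using 1
  have : sg 2 = ![0, icoH, -icoH] := by
    rw [sg, show SG 2 = (ZZ, HH, ZZ - HH) from beq_iff_eq.1 (by decide +kernel), sv_half, hf_sub, hf_HH, hf_ZZ, zero_sub]
  have e : ((1 / 2 : ℝ) • qip ![x, y, z] ![0, icoH, -icoH]) * icoH = y - z := by
    simp only [qip, Fin.sum_univ_three, Matrix.cons_val_zero, Matrix.cons_val_one, Matrix.cons_val, star_neg,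
      star_zero, mul_zero, zero_add, smul_mul_assoc, mul_neg, add_mul, neg_mul, mul_assoc, hb_h, mul_two]
    module
  rw [this, qrefl_eq]
  generalize (1 / 2 : ℝ) • qip ![x, y, z] _ = c at e
  funext t
  fin_cases t <;> simp [e]

theorem chn_sound {w : List ℕ} {X : V} {k : V → Bool} (h : chn w X k = true) (hX : Pr hω (sv (1 / 2) X)) :
    ∃ Y, k Y = true ∧ Pr hω (sv (1 / 2) Y) := by
  induction w generalizing X with
  | nil => exact ⟨X, h, hX⟩
  | cons g w ih =>
    simp only [chn, fV_eq, Bool.and_eq_true, List.contains_iff_mem, beq_iff_eq] at h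
    exact ih h.2.2 (refl_sv _ h.2.1 ▸ hX.refl h.1)

theorem known_sound {x y z : Q} (h : known (x, y, z) = true) : Pr hω ![hf x, hf y, hf z] := by
  simp only [known, List.any_eq_true, beq_iff_eq] at h
  obtain ⟨c, h1, h2⟩ := h
  have h3 := List.all_eq_true.1 KL_ok c h1
  simp only [Bool.and_eq_true, List.contains_iff_mem, beq_iff_eq] at h3
  obtain ⟨Y, h4, h5⟩ := chn_sound h3.2 (Pr.gen (hω := hω) h3.1.1)
  rw [h2, beq_iff_eq] at h4
  generalize cq (dz c.2.2.2) 0 = U at h3 h4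
  convert h5.unit (u := hf U) (by rw [hf_nrm, h3.1.2, rt_int]; norm_num) using 1
  have k : ∀ a b : Q, qsc (2, 0) a = qm U b → hf a = hf U * hf b := fun a b e => by
    rw [hf_mul, ← e, rq_qsc, rt_int, smul_smul, hf]; norm_num
  funext t
  fin_cases t
  exacts [k _ _ (congrArg (·.1) h4), k _ _ (congrArg (·.2.1) h4), k _ _ (congrArg (·.2.2) h4)]

theorem Pr.mul {u x y z : ℍ[ℝ]} (hu : normSq u = 1) (h : Pr hω ![star u * x, star u * y, star u * z]) :
    Pr hω ![x, y, z] := by
  convert h.unit hu using 1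
  funext t
  fin_cases t <;> simp [← mul_assoc, self_mul_star, hu]

theorem pr_zero {x y : ℍ[ℝ]} (h : Lam x y 0) (hn : normSq x + normSq y = 4) : Pr hω ![x, y, 0] := by
  have k1 : ∀ {x : ℍ[ℝ]}, normSq x = 4 → Pr hω ![x, 0, 0] := fun {x} hx => by
    have := known_sound (hω := hω) (x := ONE + ONE) (y := ZZ) (z := ZZ) (by decide +kernel)
    rw [hf_add, hf_ONE, hf_ZZ] at this
    convert this.unit (u := (1 / 2 : ℝ) • x) (by rw [normSq_smul, hx]; norm_num) using 1
    funext t
    fin_cases t <;> simp [mul_add, ← add_smul]; norm_num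
  obtain ⟨a, h1, b, h2, rfl, rfl⟩ := h.zero_right
  obtain ⟨m, n, a1, a2, a3, a4⟩ := nrm_spec h1
  obtain ⟨m', n', b1, b2, b3, b4⟩ := nrm_spec h2
  have := rt_eq (c := 2) (m := 4) (n := 0) (m' := m + m') (n' := n + n') (by
    rw [rt_int, Int.cast_ofNat, ← hn, map_mul, map_mul, a1, b1, h_nrm]; simp only [rt]; push_cast; ring)
  rcases (by omega : m = 0 ∨ m' = 0 ∨ (m = 1 ∧ n = 0 ∧ m' = 1 ∧ n' = 0)) with h0 | h0 | ⟨rfl, rfl, rfl, rfl⟩
  · rw [a4 h0, zero_mul] at hn ⊢
    exact (k1 (by simpa using hn)).sw1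
  · rw [b4 h0, zero_mul] at hn ⊢
    exact k1 (by simpa using hn)
  · rw [rt_int, Int.cast_one] at a1 b1
    have h3 := h.mul (star_mem h1)
    refine Pr.mul a1 ?_
    obtain ⟨y, -, e⟩ := exists_hf h3.2.1
    have h5 : nrm y = (8, 0) := nrm_of (m := 2) (n := 0) (by
      rw [← e, map_mul, map_mul, normSq_star, a1, b1, h_nrm, rt_int]; norm_num)
    rw [e, ← mul_assoc, star_mul_self, a1, mul_zero, coe_one, one_mul, ← hf_HH, ← hf_ZZ] at h3 ⊢
    have := enum_sound en2 le_rfl h5
    rw [inL_iff.2 h3] at this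
    exact known_sound (by simpa using this)

theorem pr_one {x y z : ℍ[ℝ]} (h : Lam x y z) (hz : normSq z = 1) (hn : normSq x + normSq y = 3) :
    Pr hω ![x, y, z] := by
  have h1 := h.mul (star_mem h.2.2.1)
  refine Pr.mul hz ?_
  rw [star_mul_self, hz, coe_one] at h1 ⊢
  replace hn : normSq (star z * x) + normSq (star z * y) = 3 := by simpa [hz] using hn
  generalize star z * x = x at h1 hn
  generalize star z * y = y at h1 hn
  have key : ∀ {x y : ℍ[ℝ]}, Lam x y 1 → (normSq x = rt (2, 0) ∧ normSq y = rt (1, 0)) ∨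
      (normSq x = rt (1, 1) ∧ normSq y = rt (2, -1)) → Pr hω ![x, y, 1] := fun {x y} h hn => by
    obtain ⟨p, p1, rfl⟩ := exists_hf h.1
    obtain ⟨q, q1, rfl⟩ := exists_hf h.2.1
    rw [← hf_ONE] at h ⊢
    have a1 := inL_iff.2 h
    have a2 := inL_iff.2 h.sw1
    have a3 := a1
    simp only [inL, Bool.and_eq_true] at a2 a3
    rcases hn with hn | hn
    · have b1 := enum_sound en3a (by norm_num) (nrm_of hn.2)
      have b2 := enum_sound en3 le_rfl (nrm_of hn.1)
      simp only [p1, q1, a2.1.2, a3.1.2, Bool.and_self, Bool.not_true, Bool.false_or, List.any_eq_true, beq_iff_eq,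
        List.all_eq_true, fQ_eq] at b1 b2
      obtain ⟨c, c1, c2⟩ := b1
      have := b2 c c1
      rw [c2, a1] at this
      exact known_sound (by simpa using this)
    · have b1 := enum_sound en4 le_rfl (nrm_of hn.2)
      simp only [q1, a3.1.2, Bool.and_self, Bool.not_true, Bool.false_or] at b1
      have := enum_sound b1 (by norm_num) (nrm_of hn.1)
      rw [a1] at this
      exact known_sound (by simpa using this)
  obtain ⟨m, n, a1, a2, a3, a4⟩ := nrm_spec h1.1
  obtain ⟨m', n', b1, b2, b3, b4⟩ := nrm_spec h1.2.1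
  have := rt_eq (c := 1) (m := 3) (n := 0) (m' := m + m') (n' := n + n') (by
    rw [rt_int, Int.cast_ofNat, ← hn, a1, b1]; simp only [rt]; push_cast; ring)
  rcases (by omega : m = 0 ∨ m' = 0 ∨ (m = 2 ∧ n = 0 ∧ m' = 1 ∧ n' = 0) ∨ (m = 1 ∧ n = 1 ∧ m' = 2 ∧ n' = -1) ∨
    (m = 1 ∧ n = 0 ∧ m' = 2 ∧ n' = 0) ∨ (m = 2 ∧ n = -1 ∧ m' = 1 ∧ n' = 1)) with
    h0 | h0 | ⟨rfl, rfl, rfl, rfl⟩ | ⟨rfl, rfl, rfl, rfl⟩ | ⟨rfl, rfl, rfl, rfl⟩ | ⟨rfl, rfl, rfl, rfl⟩
  · obtain rfl := a4 h0
    exact (pr_zero h1.sw1.sw2 (by simp at hn; simp [hn]; norm_num)).sw2.sw1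
  · obtain rfl := b4 h0
    exact (pr_zero h1.sw2 (by simp at hn; simp [hn]; norm_num)).sw2
  · exact key h1 (Or.inl ⟨a1, b1⟩)
  · exact key h1 (Or.inr ⟨a1, b1⟩)
  · exact (key h1.sw1 (Or.inl ⟨b1, a1⟩)).sw1
  · exact (key h1.sw1 (Or.inr ⟨b1, a1⟩)).sw1

theorem norm_four {r : H3} (h : qip r r = 4) : normSq (r 0) + normSq (r 1) + normSq (r 2) = 4 := by
  rw [qip_self] at h
  exact coe_injective h

theorem pr_all {r : H3} (hr : r ∈ icoLeech) (h : qip r r = 4) : Pr hω r := by
  have h1 := mem_lam.1 hr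
  have hn := norm_four h
  rw [show r = ![r 0, r 1, r 2] by funext t; fin_cases t <;> rfl]
  generalize r 0 = x at h1 hn
  generalize r 1 = y at h1 hn
  generalize r 2 = z at h1 hn
  obtain ⟨m0, n0, a1, a2, a3, a4⟩ := nrm_spec h1.1
  obtain ⟨m1, n1, b1, b2, b3, b4⟩ := nrm_spec h1.2.1
  obtain ⟨m2, n2, c1, c2, c3, c4⟩ := nrm_spec h1.2.2.1
  have := rt_eq (c := 1) (m := 4) (n := 0) (m' := m0 + m1 + m2) (n' := n0 + n1 + n2) (by
    rw [rt_int, Int.cast_ofNat, ← hn, a1, b1, c1]; simp only [rt]; push_cast; ring)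
  rcases (by omega : m0 = 0 ∨ m1 = 0 ∨ m2 = 0 ∨ (m0 = 1 ∧ n0 = 0) ∨ (m1 = 1 ∧ n1 = 0) ∨ (m2 = 1 ∧ n2 = 0)) with
    h0 | h0 | h0 | ⟨rfl, rfl⟩ | ⟨rfl, rfl⟩ | ⟨rfl, rfl⟩
  · obtain rfl := a4 h0
    exact (pr_zero h1.sw1.sw2 (by simpa using hn)).sw2.sw1
  · obtain rfl := b4 h0
    exact (pr_zero h1.sw2 (by simpa using hn)).sw2
  · obtain rfl := c4 h0
    exact pr_zero h1 (by simpa using hn)
  · rw [rt_int, Int.cast_one] at a1
    exact (pr_one h1.sw1.sw2 a1 (by linarith)).sw2.sw1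
  · rw [rt_int, Int.cast_one] at b1
    exact (pr_one h1.sw2 b1 (by linarith)).sw2
  · rw [rt_int, Int.cast_one] at c1
    exact pr_one h1 c1 (by linarith)

variable (hω)

theorem twoJ2_eq : twoJ2 = KK hω := by
  apply le_antisymm <;> refine (Subgroup.closure_le _).2 ?_
  · rintro f ⟨r, h1, h2⟩
    obtain ⟨k, h3, h4⟩ := pr_all (hω := hω) r.2 h1
    rwa [show f = k from Equiv.ext fun x => Subtype.ext (by rw [h2, h4])]
  · rintro _ ⟨g, hg, rfl⟩
    exact Subgroup.subset_closure ⟨⟨_, (sg_spec hg).2⟩, (sg_spec hg).1, ff_apply hω hg⟩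

end

theorem pm_of {g : H3 →ₗ[ℍ[ℝ]] H3} (hg : ∀ x y, qip (g x) (g y) = qip x y)
    (h : ∀ x ∈ icoLeech, ∃ y ∈ icoLeech, g x - x = y + y) : (∀ x, g x = x) ∨ ∀ x, g x = -x := by
  have key : ∀ r ∈ icoLeech, qip r r = 4 → g r = r ∨ g r = -r := fun r hr h4 => by
    obtain ⟨y, hy, e⟩ := h r hr
    have e1 : g r = y + y + r := by rw [← e]; abel
    have hz : y + r ∈ icoLeech := by
      obtain ⟨u, rfl⟩ := exists_kap hr
      obtain ⟨v, rfl⟩ := exists_kap hy
      rw [← kap_add]; exact kap_mem _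
    have h1 := hg r r
    have h2 : qip y y + qip (y + r) (y + r) = 4 := by
      have t : (2 : ℝ) • (qip y y + qip (y + r) (y + r)) = (2 : ℝ) • qip r r := by
        rw [e1] at h1
        simp only [qip_add, qip_add'] at h1 ⊢
        linear_combination (norm := module) h1
      rw [smul_right_injective _ two_ne_zero t, h4]
    rw [qip_self, qip_self, ← coe_add] at h2
    have h3 : _ = (4 : ℝ) := coe_injective h2
    have nm : ∀ v ∈ icoLeech, ∃ M N : ℤ, normSq (v 0) + normSq (v 1) + normSq (v 2) = rt (M, N) := fun v hv => by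
      obtain ⟨m0, n0, a1, -⟩ := nrm_spec (hv.1 0)
      obtain ⟨m1, n1, b1, -⟩ := nrm_spec (hv.1 1)
      obtain ⟨m2, n2, c1, -⟩ := nrm_spec (hv.1 2)
      exact ⟨m0 + m1 + m2, n0 + n1 + n2, by rw [a1, b1, c1, ← rt_add, ← rt_add]; rfl⟩
    have zz : ∀ v ∈ icoLeech, ∀ M N : ℤ, normSq (v 0) + normSq (v 1) + normSq (v 2) = rt (M, N) → M ≤ 2 → v = 0 :=
      fun v hv M N e hM => by
        have := small_zero (mem_lam.1 hv) e hM
        funext t; fin_cases t
        exacts [this.1, this.2.1, this.2.2]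
    obtain ⟨M, N, a⟩ := nm y hy
    obtain ⟨M', N', b⟩ := nm _ hz
    have := rt_eq (c := 1) (m := 4) (n := 0) (m' := M + M') (n' := N + N') (by
      rw [rt_int, Int.cast_ofNat, ← h3, a, b]; simp only [rt]; push_cast; ring)
    by_cases hM : M ≤ 2
    · left; rw [e1, zz y hy M N a hM]; simp
    · right; rw [e1, add_assoc, zz _ hz M' N' b (by omega), add_zero, eq_neg_iff_add_eq_zero,
        zz _ hz M' N' b (by omega)]
  have hw := sg_spec (g := 3) (by decide)
  have k2 : ∀ ε : ℝ, ε * ε = 1 → g (sg 3) = ε • sg 3 → ∀ x, g x = ε • x := fun ε h1 h2 x => by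
    have k3 : ∀ t : Fin 3, g (Pi.single t 2) = ε • Pi.single t 2 := fun t => by
      have b1 : (Pi.single t 2 : H3) ∈ icoLeech := by
        have := inL_iff.1 (show inL (ONE + ONE, ZZ, ZZ) = true by decide +kernel)
        rw [hf_add, hf_ONE, hf_ZZ, one_add_one_eq_two] at this
        rw [mem_lam]
        fin_cases t
        exacts [this, this.sw1, this.sw1.sw2]
      have b2 : ∀ v : H3, qip (Pi.single t 2) v = 2 * star (v t) := fun v => by
        rw [qip, Finset.sum_eq_single t (fun b _ hb => by simp [hb]) (by simp)]; simp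
      have b3 : sg 3 t ≠ 0 := fun e => by
        have : ∀ p : Q, hf p = 0 → p = ZZ := fun p e => hf_inj (e.trans hf_ZZ.symm)
        fin_cases t <;> exact absurd (this _ e) (by decide)
      have b4 := hg (Pi.single t 2) (sg 3)
      have b5 : (2 : ℍ[ℝ]) * star (sg 3 t) ≠ 0 :=
        mul_ne_zero (fun e => h_ne (by rw [← h_hb] at e; simpa using e)) (star_ne_zero.2 b3)
      have b6 : ∀ v : H3, qip v (ε • sg 3) = ε • qip v (sg 3) := fun v => by
        simp [qip, Finset.smul_sum]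
      rcases key _ b1 (by rw [b2]; simp [show star (2 : ℍ[ℝ]) = 2 by ext <;> simp <;> rfl]; norm_num) with e | e
      · rw [e, h2, b6, b2] at b4
        rw [e, show ε = 1 from smul_left_injective ℝ b5 (by simpa using b4), one_smul]
      · rw [e, h2, b6, ← zero_sub, qip_sub, b2] at b4
        rw [e, show ε = -1 from smul_left_injective ℝ b5 (by
          simp only [qip, Pi.zero_apply, zero_mul, Finset.sum_const_zero, zero_sub, smul_neg] at b4
          simp [← neg_eq_iff_eq_neg, b4]), neg_one_smul]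
    have e : x = ∑ t, ((1 / 2 : ℝ) • x t) • (Pi.single t 2 : H3) := by
      funext s
      rw [Finset.sum_apply, Finset.sum_eq_single s (fun b _ hb => by simp [hb.symm]) (by simp)]
      simp [mul_two, ← add_smul]; norm_num
    rw [e, map_sum, Finset.smul_sum]
    exact Finset.sum_congr rfl fun t _ => by rw [map_smul, k3, smul_comm]
  rcases key _ hw.2 hw.1 with e | e
  · left; simpa using k2 1 (by norm_num) (by simpa using e)
  · right; simpa using k2 (-1) (by norm_num) (by simpa using e)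

theorem iso_J2 {Γ : Type*} [Group Γ] (S : St ω Γ) : IsoJ2 S.H := by
  have hω := S.hω
  let f : ℕ → Equiv.Perm icoLeech × Γ := fun g => (ff hω g, S.s g)
  have hf : ∀ g, f g * f g = 1 := fun g => Prod.ext (ff_sq hω g) (S.sq g)
  have pp : D6 ω PP * D6 ω PI = 1 := by rw [← D6_m4 hω, PP_ok, D6_I]
  have pp' := mul_eq_one_comm.1 pp
  have rel : ∀ p ∈ Subgroup.closure (f '' {g | g ∈ h4}), ∃ g : H3 →ₗ[ℍ[ℝ]] H3, (∀ x : icoLeech, (p.1 x : H3) = g x) ∧
      (∀ x y, qip (g x) (g y) = qip x y) ∧ Act ω g (S.θ p.2) := fun p hp => by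
    obtain ⟨l, hl, rfl⟩ := (mem_closure_iff hf).1 hp
    clear hp
    induction l with
    | nil => exact ⟨LinearMap.id, fun _ => rfl, fun _ _ => rfl, fun u => ⟨u, rfl, fun h _ => by simp [cj, pp']⟩⟩
    | cons a l ih =>
      obtain ⟨g, h1, h2, h3⟩ := ih fun b hb => hl b (List.mem_cons_of_mem _ hb)
      have ha := hl a (List.mem_cons_self ..)
      refine ⟨RL (sg a) ∘ₗ g, fun x => ?_, fun x y => ?_, fun u => ?_⟩
      · rw [evL_cons, Prod.fst_mul, Equiv.Perm.mul_apply, ff_apply hω ha, h1]; rfl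
      · exact (qip_qrefl (sg_spec ha).1 _ _).trans (h2 x y)
      · obtain ⟨u', a1, a2⟩ := h3 u
        obtain ⟨u'', b1, b2⟩ := act_gen hω ha u'
        refine ⟨u'', by rw [← b1, ← a1]; rfl, fun h hh => ?_⟩
        rw [b2 h hh, a2 h hh, Matrix.mulVec_mulVec, evL_cons, Prod.snd_mul, map_mul, Units.val_mul, S.hs, cj, cj, cj,
          mul_assoc _ (D6 ω PP), ← mul_assoc (D6 ω PP), ← mul_assoc (D6 ω PP), pp, one_mul]
        simp only [mul_assoc]
  have e1 : ∀ x ∈ twoJ2, ∃ y, (x, y) ∈ Subgroup.closure (f '' {g | g ∈ h4}) := fun x hx => by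
    rw [twoJ2_eq hω, KK, show ff hω '' {g | g ∈ h4} = MonoidHom.fst _ _ '' (f '' {g | g ∈ h4}) by
      rw [Set.image_image]; rfl, ← MonoidHom.map_closure] at hx
    obtain ⟨p, hp, rfl⟩ := hx
    exact ⟨p.2, hp⟩
  obtain ⟨π, hπ⟩ := hom_of_rel _ twoJ2 e1 fun p hp e => by
    obtain ⟨g, h1, -, h3⟩ := rel p hp
    have : cj ω (S.θ p.2) = 1 := by
      refine Matrix.toLin'.injective (LinearMap.pi_ext' fun l => LinearMap.ext_ring ?_)
      obtain ⟨u', a1, a2⟩ := h3 (un (ix 0 l))
      have a3 : kap (u' - un (ix 0 l)) = 0 := by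
        show kapH _ = 0
        rw [map_sub, sub_eq_zero]
        show kap _ = kap _
        rw [← a1, ← h1 ⟨_, kap_mem _⟩, e]; rfl
      have a4 : nat ω 0 u' = nat ω 0 (un (ix 0 l)) := funext fun m => by
        have := m.2
        have b1 := kap_zero a3 (ix 0 m) (by rw [ix]; omega)
        have b2 := kap_zero a3 (ix 0 m + 1) (by rw [ix]; omega)
        rw [Pi.sub_apply, sub_eq_zero] at b1 b2
        rw [nat, nat, b1, b2]
      have a5 : nat ω 0 (un (ix 0 l)) = Pi.single l 1 := funext fun m => by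
        have := m.2
        have := l.2
        have q1 : ix 0 m = ix 0 l ↔ m = l := by rw [ix, ix, Fin.ext_iff]; omega
        simp only [nat, un, Pi.single_apply, q1]
        rw [if_neg (show ¬ ix 0 m + 1 = ix 0 l by rw [ix, ix]; omega)]
        split_ifs <;> simp
      have := a2 0 (by norm_num)
      rw [a4, a5] at this
      simpa using this.symm
    apply S.inj
    apply Units.ext
    rw [map_one, Units.val_one, ← one_mul (S.θ p.2 : M6 K), ← pp, ← mul_one (_ * (S.θ p.2 : M6 K)), ← pp,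
      show D6 ω PP * D6 ω PI * (S.θ p.2 : M6 K) * (D6 ω PP * D6 ω PI) = D6 ω PP * cj ω (S.θ p.2) * D6 ω PI by
        simp only [cj, mul_assoc], this, mul_one]
  have hg : ∀ g ∈ h4, ∃ x : twoJ2, π x = S.s g := fun g hg =>
    ⟨⟨ff hω g, twoJ2_eq hω ▸ Subgroup.subset_closure ⟨g, hg, rfl⟩⟩,
      (hπ _ _).1 (Subgroup.subset_closure ⟨g, hg, rfl⟩)⟩
  have hr : π.range = S.H := by
    apply le_antisymm
    · rintro _ ⟨x, rfl⟩
      have : π x ∈ (Subgroup.closure (f '' {g | g ∈ h4})).map (MonoidHom.snd _ _) := ⟨_, (hπ x _).2 rfl, rfl⟩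
      rwa [MonoidHom.map_closure, Set.image_image] at this
    · refine (Subgroup.closure_le _).2 ?_
      rintro _ ⟨g, h1, rfl⟩
      exact hg g h1
  have hk : Subgroup.center twoJ2 = π.ker := by
    ext x
    rw [MonoidHom.mem_ker, Subgroup.mem_center_iff]
    constructor
    · intro h
      refine S.central fun g h1 => ?_
      obtain ⟨y, e⟩ := hg g h1
      rw [← e]; exact (Commute.map (h y) π).symm
    · intro h y
      obtain ⟨g, a1, a2, a3⟩ := rel _ ((hπ x 1).2 h)
      obtain ⟨g', b1, -⟩ := rel _ ((hπ y _).2 rfl)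
      have := pm_of a2 fun v hv => by
        obtain ⟨u, rfl⟩ := exists_kap hv
        obtain ⟨u', c1, c2⟩ := a3 u
        refine ⟨_, kap_mem fun k => (u' k - u k) / 2, ?_⟩
        rw [c1, ← kap_add]
        show kapH u' - kapH u = kapH _
        rw [← sub_eq_zero, ← map_sub, ← map_sub]
        have c3 : ∀ k < 24, (u' k - u k) % 2 = 0 := by
          have c4 : ∀ h < 2, ∀ l < 6, (u' (ix h l) - u (ix h l)) % 2 = 0 ∧
              (u' (ix h l + 1) - u (ix h l + 1)) % 2 = 0 := fun h hh l hl => by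
            have := congrFun (c2 h hh) ⟨l, hl⟩
            simp only [map_one, Units.val_one, cj, mul_one, pp', Matrix.one_mulVec, nat] at this
            have c5 : ((u' (ix h l) - u (ix h l) : ℤ) : K) + ω * (u' (ix h l + 1) - u (ix h l + 1) : ℤ) = 0 := by
              push_cast; linear_combination this
            rw [cast_oddZ, cast_oddZ] at c5
            generalize u' (ix h l) - u (ix h l) = a at c5
            generalize u' (ix h l + 1) - u (ix h l + 1) = b at c5
            have w0 : ω ≠ 0 := by rintro rfl; simp at hω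
            have w2 : (1 : K) + ω ≠ 0 := fun e => one_ne_zero (α := K) (by linear_combination hω - ω * e)
            simp only [oddZ] at c5
            rcases Int.emod_two_eq_zero_or_one a with d1 | d1 <;> rcases Int.emod_two_eq_zero_or_one b with d2 | d2 <;>
              simp [d1, d2, w0, w2] at c5 ⊢
          intro k hk
          have := c4 (k % 8 / 4) (by omega) (2 * (k / 8) + k % 4 / 2) (by omega)
          rcases Nat.mod_two_eq_zero_or_one k with d | d
          · rw [show ix (k % 8 / 4) (2 * (k / 8) + k % 4 / 2) = k by rw [ix]; omega] at this; exact this.1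
          · rw [show ix (k % 8 / 4) (2 * (k / 8) + k % 4 / 2) + 1 = k by rw [ix]; omega] at this; exact this.2
        have c6 : ∀ n ≤ 16, cq (u' - u - ((fun k => (u' k - u k) / 2) + fun k => (u' k - u k) / 2)) n = cq 0 n :=
          fun n hn => by
            have c7 : ∀ k < 24, (u' - u - ((fun k => (u' k - u k) / 2) + fun k => (u' k - u k) / 2)) k = (0 : ℕ → ℤ) k :=
              fun k hk => by
                have := c3 k hk
                simp only [Pi.sub_apply, Pi.add_apply, Pi.zero_apply]; omega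
            simp (disch := omega) only [cq, c7]
        rw [← map_zero kapH]
        show kap _ = kap _
        rw [kap, kap, c6 0 (by norm_num), c6 8 (by norm_num), c6 16 le_rfl]
      refine Subtype.ext (Equiv.ext fun v => Subtype.ext ?_)
      show ((y.1 (x.1 v) : icoLeech) : H3) = (x.1 (y.1 v) : icoLeech)
      rw [b1, a1, a1, b1]
      rcases this with e | e <;> simp [e]
  exact ⟨(MulEquiv.subgroupCongr hr.symm).trans ((QuotientGroup.quotientKerEquivRange π).symm.trans
    (QuotientGroup.quotientMulEquivOfEq hk.symm))⟩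

end Cfsg.Agent.H4.J2
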