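import Cfsg.Agent.H4.GF2
import Cfsg.Agent.H4.SlE7
import Cfsg.Prelude.Def_Classical

/-! Elements of order 65 in small classical groups over `F₈`, `F₆₄`, by kernel certificates. -/

set_option autoImplicit false

namespace Cfsg.Agent.H4.GF2

open Matrix

structure Cert where
  (a1 a2 a4 a5 a8 a12 a13 a26 a52 b z5 z13 : ℕ)

section
variable {ι : Type} [Fintype ι] [DecidableEq ι]

def Cert.ok (c : Cert) (t m : ℕ) (x : ι → ℕ) (o : ι) : Bool :=
  eqm (mm t m (un x c.a1) (un x c.a1)) (un x c.a2) && eqm (mm t m (un x c.a2) (un x c.a2)) (un x c.a4) &&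
  eqm (mm t m (un x c.a4) (un x c.a1)) (un x c.a5) && eqm (mm t m (un x c.a4) (un x c.a4)) (un x c.a8) &&
  eqm (mm t m (un x c.a8) (un x c.a4)) (un x c.a12) && eqm (mm t m (un x c.a12) (un x c.a1)) (un x c.a13) &&
  eqm (mm t m (un x c.a13) (un x c.a13)) (un x c.a26) && eqm (mm t m (un x c.a26) (un x c.a26)) (un x c.a52) &&
  eqm (mm t m (un x c.a52) (un x c.a13)) idm && eqm (mm t m (un x c.b) (un x c.b)) idm &&
  (gmul t m (mm t m (un x c.a5) (un x c.b) o o ^^^ mm t m (un x c.b) (un x c.a5) o o) c.z5 == 1) &&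
  (gmul t m (mm t m (un x c.a13) (un x c.b) o o ^^^ mm t m (un x c.b) (un x c.a13) o o) c.z13 == 1)

variable {F : Type*} [Field F] [CharP F 2] {γ : F} {t m : ℕ}

theorem Cert.spec (hm : enc γ m = 0) {c : Cert} {x : ι → ℕ} {o : ι} (h : c.ok t m x o = true) :
    E γ (un x c.a1) ^ 65 = 1 ∧ E γ (un x c.b) ^ 2 = 1 ∧
    E γ (un x c.a1) ^ 5 * E γ (un x c.b) ≠ E γ (un x c.b) * E γ (un x c.a1) ^ 5 ∧
    E γ (un x c.a1) ^ 13 * E γ (un x c.b) ≠ E γ (un x c.b) * E γ (un x c.a1) ^ 13 := by
  simp only [Cert.ok, Bool.and_eq_true, beq_iff_eq] at h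
  obtain ⟨⟨⟨⟨⟨⟨⟨⟨⟨⟨⟨h2, h4⟩, h5⟩, h8⟩, h12⟩, h13⟩, h26⟩, h52⟩, h65⟩, hb⟩, n5⟩, n13⟩ := h
  replace h2 := E_mul hm h2
  replace h4 := E_mul hm h4
  replace h5 := E_mul hm h5
  replace h8 := E_mul hm h8
  replace h12 := E_mul hm h12
  replace h13 := E_mul hm h13
  replace h26 := E_mul hm h26
  replace h52 := E_mul hm h52
  replace h65 := E_mul hm h65
  replace hb := E_mul hm hb
  rw [E_idm] at h65 hb
  generalize E γ (un x c.a1) = A at *
  have e2 : E γ (un x c.a2) = A ^ 2 := by rw [← h2, sq]
  have e4 : E γ (un x c.a4) = A ^ 4 := by rw [← h4, e2, ← pow_add]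
  have e5 : E γ (un x c.a5) = A ^ 5 := by rw [← h5, e4, ← pow_succ]
  have e8 : E γ (un x c.a8) = A ^ 8 := by rw [← h8, e4, ← pow_add]
  have e12 : E γ (un x c.a12) = A ^ 12 := by rw [← h12, e8, e4, ← pow_add]
  have e13 : E γ (un x c.a13) = A ^ 13 := by rw [← h13, e12, ← pow_succ]
  have e26 : E γ (un x c.a26) = A ^ 26 := by rw [← h26, e13, ← pow_add]
  have e52 : E γ (un x c.a52) = A ^ 52 := by rw [← h52, e26, ← pow_add]
  refine ⟨by rw [← h65, e52, e13, ← pow_add], by rw [sq, hb], ?_, ?_⟩
  · rw [← e5]; exact E_noncomm hm n5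
  · rw [← e13]; exact E_noncomm hm n13

end

theorem noiso {G R : Type*} [Group G] [Monoid R] (φ : G →* R) (hφ : Function.Injective φ) (a b : G)
    (h65 : φ a ^ 65 = 1) (h5 : φ a ^ 5 * φ b ≠ φ b * φ a ^ 5) (h13 : φ a ^ 13 * φ b ≠ φ b * φ a ^ 13)
    (H : Subgroup ↥(Cfsg.Lie.chevE7.group (ZMod 2))) : IsEmpty (↥H ≃* G ⧸ Subgroup.center G) := by
  refine ⟨fun e => ?_⟩
  have key : ∀ k : ℕ, ((e.symm (a : G ⧸ Subgroup.center G) : H) : Cfsg.Lie.chevE7.group (ZMod 2)) ^ k = 1 →
      φ a ^ k * φ b = φ b * φ a ^ k := by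
    intro k hk
    have h1 : (e.symm (a : G ⧸ Subgroup.center G)) ^ k = 1 := Subtype.ext (by simpa using hk)
    rw [← map_pow, ← map_one e.symm, e.symm.apply_eq_iff_eq, ← QuotientGroup.mk_pow,
      QuotientGroup.eq_one_iff, Subgroup.mem_center_iff] at h1
    rw [← map_pow, ← map_mul, ← map_mul, h1 b]
  refine Sl.e7_no65 ((e.symm (a : G ⧸ Subgroup.center G) : H) : Cfsg.Lie.chevE7.group (ZMod 2)) ?_
    (fun h => h5 (key 5 h)) (fun h => h13 (key 13 h))
  have : a ^ 65 = 1 := hφ (by rw [map_pow, h65, map_one])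
  rw [← Subgroup.coe_pow, ← map_pow, ← QuotientGroup.mk_pow, this]
  simp

def cSL2 : Cert := ⟨9463179709812999979264, 23648725902495645172225, 99317270092852225902597, 160947842043115837854984, 141781674950531613722130, 284135198967348223552297, 76664668370336896531499, 165817782478575159483673, 204168563407817317301264, 4722366482869645213953, 35, 55⟩
def cSp4 : Cert := ⟨318824586610917113360012008442903647254343154067396429143376986624, 317174229853954453384991914686493246547078160824556265248272089601, 421668602612187284817439201983825341044631088291369528692190872832, 316348282530510538560666675458636289265581970462242755973612896769, 740075360223190119107683415088971416082724065647547326523655782917, 529447556732885492356122348034954520410870323191169229113964954885, 633940272336260181687698360496500378007019241513350608965941395971, 421663775520952772454356537148428472200069729517931029854813554178, 211457008629549207297746504256822501220378484990495904360426702086, 105312291668557186697940328428868962942036635841188242485462237185,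 3, 1⟩
def cSp6 : Cert := ⟨2348542582773833227890986165329836386254233256335099101611336616443165124252569473947595906498419588945936896, 2348542582773833227890978394564760198357368938432907380430720225644433612158799635474375783118674209642906113, 2348542582773833227891471832552545442254169872137960526075628578626010846118629748701288754689671505624696064, 2348542582773833227890974509168037573477514667757062102317030568432730297087161663519998851408174614386311681, 2348542582773833227892975458305118307667445866363813430534537072086714158163414914682667280948818491811561989, 2348542582773833227891980811772897392604446234751301096876179427656508886168771959923131794927630694190417157, 2348542582773833227892474249730113524942514707705798075621716739537838581666208984156548342354012924100477443, 2348542582773833227891471832463501325630647389782678975754337174300564169263215546540168317140200902960875010, 2348542582773833227890479128778376661632866685359698480736783382121605522828208806553035468065520620952093958, 2348542582773833227889977920025746814017838036468758360104578125623334801701011849477227999070023721886416897,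 3, 1⟩
def cSU4 : Cert := ⟨654967106862202952685047091219460678825395859549546945786955766064, 4224870111364470002412642985006983383636028019827923106983349271086, 652483119609272264468555838553925656787370456367282875035968154681, 120625193472608699208118998543229553606787492905766323337991171893, 1166265930431634350478833263199073650658792216434607096666842540349, 5607063589727392483489560441395045469656955637083194104220808521736, 2955747522848670412203342595306391373475018208074635375195573658136, 4120764598781642640620736801284780629488456724800095437966630595125, 1181130082232623068797895670375983794869246964073537110546999155480, 105312291668557186697940328428868962942036631137268503689526509824, 33, 60⟩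

def ix (n : ℕ) : Fin n ⊕ Fin n → ℕ := Sum.elim (fun i => i) (fun i => n + i)

def jm (n : ℕ) : Fin n ⊕ Fin n → Fin n ⊕ Fin n → ℕ
  | .inl _, .inl _ => 0
  | .inr _, .inr _ => 0
  | .inl i, .inr j => idm i j
  | .inr i, .inl j => idm i j

def spOk (n : ℕ) (L : ℕ) : Bool :=
  eqm (mm 8 11 (mm 8 11 (un (ix n) L) (jm n)) (fun i j => un (ix n) L j i)) (jm n)

def suOk (L : ℕ) : Bool :=
  eqm (mm 64 67 (fun i j : Fin 4 => un Fin.val L j i) (fun i j =>
    (fun y => gmul 64 67 y y) ((fun y => gmul 64 67 y y) ((fun y => gmul 64 67 y y) (un Fin.val L i j))))) idm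

theorem cSL2_ok : cSL2.ok 64 67 (Fin.val : Fin 2 → ℕ) 0 = true := by decide +kernel
theorem cSL4_ok : cSp4.ok 8 11 (Fin.val : Fin 4 → ℕ) 0 = true := by decide +kernel
theorem cSp4_ok : cSp4.ok 8 11 (ix 2) (.inl 0) = true := by decide +kernel
theorem cSp6_ok : cSp6.ok 8 11 (ix 3) (.inl 0) = true := by decide +kernel
theorem cSU4_ok : cSU4.ok 64 67 (Fin.val : Fin 4 → ℕ) 0 = true := by decide +kernel
theorem sp4_ok : (spOk 2 cSp4.a1 && spOk 2 cSp4.b) = true := by decide +kernel
theorem sp6_ok : (spOk 3 cSp6.a1 && spOk 3 cSp6.b) = true := by decide +kernel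
theorem su4_ok : (suOk cSU4.a1 && suOk cSU4.b) = true := by decide +kernel

section
variable {F : Type*} [Field F] [CharP F 2] {γ : F}

theorem E_jm (n : ℕ) : E γ (jm n) = Matrix.J (Fin n) F := by
  ext i j
  rcases i with i | i <;> rcases j with j | j <;> simp only [E_apply, jm, Matrix.J, fromBlocks_apply₁₁,
    fromBlocks_apply₁₂, fromBlocks_apply₂₁, fromBlocks_apply₂₂, enc_zero, Matrix.zero_apply,
    Matrix.neg_apply, CharTwo.neg_eq] <;>
  by_cases h : i = j <;> simp [idm, h, Matrix.one_apply]

theorem mem_sp (hm : enc γ 11 = 0) {n L : ℕ} (h : spOk n L = true) :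
    E γ (un (ix n) L) ∈ Matrix.symplecticGroup (Fin n) F := by
  have := E_congr (γ := γ) h
  rw [E_mm hm, E_mm hm] at this
  rw [SymplecticGroup.mem_iff, ← E_jm (γ := γ)]
  exact this

theorem herm_of (A : Matrix (Fin 4) (Fin 4) F) (h : Aᵀ * A.map (fun y => y ^ 8) = 1) (u v : Fin 4 → F) :
    hermForm 4 F 8 (A *ᵥ u) (A *ᵥ v) = hermForm 4 F 8 u v := by
  have hf : ∀ w : Fin 4 → F, (fun i => (A *ᵥ w) i ^ 8) = A.map (fun y => y ^ 8) *ᵥ (fun i => w i ^ 8) := by
    intro w
    ext i
    have := sum_pow_char_pow 2 3 (Finset.univ : Finset (Fin 4)) (fun j => A i j * w j)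
    simp only [Matrix.mulVec, dotProduct, Matrix.map_apply, ← mul_pow]
    exact this
  have e : ∀ u v : Fin 4 → F, hermForm 4 F 8 u v = u ⬝ᵥ (fun i => v i ^ 8) := fun _ _ => rfl
  rw [e, e, hf, Matrix.dotProduct_mulVec, Matrix.vecMul_mulVec, h, Matrix.vecMul_one]

theorem su_of (hm : enc γ 67 = 0) {L : ℕ} (h : suOk L = true) :
    (E γ (un (Fin.val : Fin 4 → ℕ) L))ᵀ * (E γ (un Fin.val L)).map (fun y => y ^ 8) = 1 := by
  rw [← E_idm (γ := γ), ← E_congr h, E_mm hm]
  congr 1
  ext i j
  simp only [Matrix.map_apply, E_apply, enc_gmul hm]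
  ring

end

section
variable {F : Type*} [Field F] [Fintype F] (H : Subgroup ↥(Cfsg.Lie.chevE7.group (ZMod 2)))

theorem no_sl {n : ℕ} [CharP F 2] {γ : F} {t m : ℕ} (hm : enc γ m = 0) {c : Cert} {o : Fin n}
    (h : c.ok t m Fin.val o = true) (c65 : Nat.Coprime 65 (Fintype.card F - 1))
    (c2 : Nat.Coprime 2 (Fintype.card F - 1)) :
    IsEmpty (↥H ≃* Matrix.ProjectiveSpecialLinearGroup (Fin n) F) := by
  obtain ⟨h65, hb, h5, h13⟩ := Cert.spec hm h
  exact noiso (slToMat n F) Subtype.val_injective ⟨_, det_eq_one (by norm_num) h65 c65⟩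
    ⟨_, det_eq_one (by norm_num) hb c2⟩ h65 h5 h13 H

omit [Fintype F] in
theorem no_sp {n : ℕ} [CharP F 2] {γ : F} (hm : enc γ 11 = 0) {c : Cert} {o : Fin n ⊕ Fin n}
    (h : c.ok 8 11 (ix n) o = true) (hs : (spOk n c.a1 && spOk n c.b) = true) :
    IsEmpty (↥H ≃* Cfsg.PSp n F) := by
  obtain ⟨h65, hb, h5, h13⟩ := Cert.spec hm h
  rw [Bool.and_eq_true] at hs
  exact noiso (Matrix.symplecticGroup (Fin n) F).subtype Subtype.val_injective ⟨_, mem_sp hm hs.1⟩
    ⟨_, mem_sp hm hs.2⟩ h65 h5 h13 H

theorem no_su (h64 : Fintype.card F = 64) : IsEmpty (↥H ≃* Cfsg.PSU 4 F 8) := by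
  haveI := charP_two (F := F) (k := 6) h64
  obtain ⟨γ, hγ⟩ := root64 h64
  have hm := enc_m64 hγ
  obtain ⟨h65, hb, h5, h13⟩ := Cert.spec hm cSU4_ok
  have hs := su4_ok
  rw [Bool.and_eq_true] at hs
  exact noiso ((slToMat 4 F).comp (SU 4 F 8).subtype) (Subtype.val_injective.comp Subtype.val_injective)
    ⟨⟨_, det_eq_one (by norm_num) h65 (by rw [h64]; norm_num)⟩, herm_of _ (su_of hm hs.1)⟩
    ⟨⟨_, det_eq_one (by norm_num) hb (by rw [h64]; norm_num)⟩, herm_of _ (su_of hm hs.2)⟩ h65 h5 h13 H

end

end Cfsg.Agent.H4.GF2
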