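import Mathlib

/-! Regular semisimple matrices: diagonalisation, centralisers and normalisers. -/

set_option autoImplicit false

namespace Cfsg.Agent.H4.RS

open Matrix Polynomial

theorem exists_diag {L : Type*} [Field L] [IsAlgClosed L] {n : ℕ} (A : Matrix (Fin n) (Fin n) L)
    (h : A.charpoly.Separable) : ∃ (P : Matrix (Fin n) (Fin n) L) (l : Fin n → L),
      IsUnit P ∧ Function.Injective l ∧ A * P = P * diagonal l := by
  classical
  have h1 : A.charpoly.roots.toFinset.card = n := by
    rw [Multiset.toFinset_card_of_nodup (nodup_roots h), IsAlgClosed.card_roots_eq_natDegree,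
      charpoly_natDegree_eq_dim, Fintype.card_fin]
  let e := A.charpoly.roots.toFinset.equivFinOfCardEq h1
  have h2 : ∀ i : Fin n, ∃ v : Fin n → L, v ≠ 0 ∧ A *ᵥ v = (e.symm i : L) • v := fun i => by
    have := (mem_roots h.ne_zero).1 (Multiset.mem_toFinset.1 (e.symm i).2)
    rw [IsRoot.def, Matrix.eval_charpoly, ← exists_mulVec_eq_zero_iff] at this
    obtain ⟨v, hv, e1⟩ := this
    rw [sub_mulVec, sub_eq_zero] at e1
    exact ⟨v, hv, by rw [← e1]; ext; simp⟩
  choose v hv0 hv using h2
  have hi : Function.Injective fun i => (e.symm i : L) := Subtype.val_injective.comp e.symm.injective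
  have h3 := Module.End.eigenvectors_linearIndependent' (toLin' A) _ hi v fun i =>
    ⟨Module.End.mem_eigenspace_iff.2 (hv i), hv0 i⟩
  refine ⟨(Matrix.of v)ᵀ, _, ?_, hi, ?_⟩
  · rw [isUnit_transpose]
    exact linearIndependent_rows_iff_isUnit.1 h3
  · ext i j
    have := congrFun (hv j) i
    simp only [mul_diagonal, transpose_apply, of_apply, Pi.smul_apply, smul_eq_mul] at this ⊢
    rw [mul_comm, ← this]
    rfl

variable {G K : Type*} [Group G] [Field K] {n : ℕ}

theorem exists_rep (ρ : G →* Matrix (Fin n) (Fin n) K) (hρ : Function.Injective ρ) {x : G}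
    (h : (ρ x).charpoly.Separable) :
    ∃ (σ : G →* Matrix (Fin n) (Fin n) (AlgebraicClosure K)) (l : Fin n → AlgebraicClosure K),
      Function.Injective σ ∧ Function.Injective l ∧ σ x = diagonal l := by
  let f := algebraMap K (AlgebraicClosure K)
  obtain ⟨P, l, ⟨P, rfl⟩, h1, h2⟩ := exists_diag ((ρ x).map f) (by rw [charpoly_map]; exact h.map)
  refine ⟨{ toFun := fun g => (P⁻¹ : GL _ _) * (ρ g).map f * P
            map_one' := by simp
            map_mul' := fun g k => by simp [Matrix.mul_assoc] }, l, fun g k e => ?_, h1, ?_⟩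
  · exact hρ (map_injective f.injective ((Units.mul_right_inj P⁻¹).1 ((Units.mul_left_inj P).1 e)))
  · change (P⁻¹ : GL _ _) * (ρ x).map f * P = _
    rw [Matrix.mul_assoc, h2, Units.inv_mul_cancel_left]

theorem diag_of_comm {l : Fin n → K} (hl : Function.Injective l) {A : Matrix (Fin n) (Fin n) K}
    (h : A * diagonal l = diagonal l * A) : A = diagonal fun i => A i i := by
  ext i j
  by_cases e : i = j
  · simp [e]
  · have := congrFun (congrFun h i) j
    rw [mul_diagonal, diagonal_mul, mul_comm] at this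
    rw [diagonal_apply_ne _ e]
    exact (mul_eq_mul_right_iff.1 this).resolve_left fun e' => e (hl e').symm

theorem comm_of_sep (ρ : G →* Matrix (Fin n) (Fin n) K) (hρ : Function.Injective ρ) {x : G}
    (h : (ρ x).charpoly.Separable) {a b : G} (ha : a * x = x * a) (hb : b * x = x * b) :
    a * b = b * a := by
  obtain ⟨σ, l, h1, h2, h3⟩ := exists_rep ρ hρ h
  apply h1
  rw [map_mul, map_mul, diag_of_comm h2 (A := σ a) (by rw [← h3, ← map_mul, ha, map_mul]),
    diag_of_comm h2 (A := σ b) (by rw [← h3, ← map_mul, hb, map_mul]), diagonal_mul_diagonal,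
    diagonal_mul_diagonal]
  simp only [mul_comm]

theorem comm_of_coprime [Finite G] (ρ : G →* Matrix (Fin n) (Fin n) K) (hρ : Function.Injective ρ)
    {x : G} (h : (ρ x).charpoly.Separable) {g : G} (hg : g⁻¹ * x * g * x = x * (g⁻¹ * x * g))
    (hc : (orderOf g).Coprime n.factorial) : g * x = x * g := by
  obtain ⟨σ, l, h1, h2, h3⟩ := exists_rep ρ hρ h
  have h4 := diag_of_comm h2 (A := σ (g⁻¹ * x * g)) (by rw [← h3, ← map_mul, hg, map_mul])
  have h5 : diagonal l * σ g = σ g * diagonal fun i => σ (g⁻¹ * x * g) i i := by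
    rw [← h4, ← h3, ← map_mul, ← map_mul]; congr 1; group
  have h6 : ∀ j, ∃ i, σ g i j ≠ 0 := fun j => by
    by_contra! h7
    have : (σ g⁻¹ * σ g) j j = 0 := by simp [mul_apply, h7]
    rw [← map_mul, inv_mul_cancel, map_one, one_apply_eq] at this
    exact one_ne_zero this
  choose π hπ using h6
  have h7 : ∀ i j, i ≠ π j → σ g i j = 0 := fun i j hij => by
    by_contra h8
    have e1 := congrFun (congrFun h5 i) j
    have e2 := congrFun (congrFun h5 (π j)) j
    rw [mul_diagonal, diagonal_mul, mul_comm] at e1 e2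
    exact hij (h2 ((mul_left_cancel₀ h8 e1).trans (mul_left_cancel₀ (hπ j) e2).symm))
  have h8 : ∀ (m : ℕ) j, σ (g ^ m) (π^[m] j) j ≠ 0 := fun m => by
    induction m with
    | zero => simp
    | succ m ih =>
      intro j
      rw [pow_succ, map_mul, mul_apply, Finset.sum_eq_single (π j)
        (fun k _ hk => by rw [h7 k j hk, mul_zero]) (by simp)]
      exact mul_ne_zero (ih _) (hπ j)
  have h9 : ∀ j, π^[orderOf g] j = j := fun j => by
    by_contra e
    exact h8 (orderOf g) j (by rw [pow_orderOf_eq_one, map_one, one_apply_ne e])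
  have h10 : Function.Injective π := fun i j e => by
    obtain ⟨m, hm⟩ := Nat.exists_eq_succ_of_ne_zero (orderOf_pos g).ne'
    rw [← h9 i, ← h9 j, hm, Function.iterate_succ_apply, Function.iterate_succ_apply, e]
  let p := Equiv.ofBijective π (Finite.injective_iff_bijective.1 h10)
  have h11 : p = 1 := by
    rw [← orderOf_eq_one_iff]
    refine Nat.eq_one_of_dvd_coprimes hc (orderOf_dvd_of_pow_eq_one (Equiv.ext fun j => ?_)) ?_
    · rw [Equiv.Perm.coe_pow]; exact h9 j
    · simpa [Fintype.card_perm] using orderOf_dvd_card (x := p)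
  apply h1
  rw [map_mul, map_mul, h3]
  ext i j
  rw [mul_diagonal, diagonal_mul]
  by_cases e : i = j
  · rw [e, mul_comm]
  · rw [h7 i j (by rwa [show π j = j from Equiv.congr_fun h11 j]), zero_mul, mul_zero]

/-- two involutions are conjugate in the group they generate, or commute with an involution -/
theorem dihedral_cases [Finite G] {s t : G} (hs2 : s * s = 1) (ht2 : t * t = 1) :
    (∃ z : G, z ≠ 1 ∧ z * z = 1 ∧ z * s = s * z ∧ z * t = t * z) ∨
    ∃ k : ℕ, (s * t) ^ k * s * ((s * t) ^ k * s) = 1 ∧ (s * t) ^ k * s * s * ((s * t) ^ k * s)⁻¹ = t := by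
  have e1 : s⁻¹ = s := inv_eq_of_mul_eq_one_right hs2
  have e2 : t⁻¹ = t := inv_eq_of_mul_eq_one_right ht2
  have h1 : ∀ k : ℕ, s * (s * t) ^ k = ((s * t) ^ k)⁻¹ * s := fun k => by
    rw [← inv_pow, ← mul_inv_eq_iff_eq_mul, ← conj_pow, _root_.mul_inv_rev, e1, e2, ← mul_assoc,
      hs2, one_mul]
  have h2 : ∀ k : ℕ, t * (s * t) ^ k = ((s * t) ^ k)⁻¹ * t := fun k => by
    rw [← inv_pow, ← mul_inv_eq_iff_eq_mul, ← conj_pow, _root_.mul_inv_rev, e1, e2, mul_assoc,
      mul_assoc, ht2, mul_one]
  have h3 := pow_orderOf_eq_one (s * t)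
  rcases Nat.even_or_odd' (orderOf (s * t)) with ⟨k, hk | hk⟩
  · have h4 : (s * t) ^ k ≠ 1 := pow_ne_one_of_lt_orderOf
      (by have := orderOf_pos (s * t); omega) (by have := orderOf_pos (s * t); omega)
    rw [hk, two_mul, pow_add] at h3
    exact .inl ⟨_, h4, h3, by rw [h1 k, inv_eq_of_mul_eq_one_right h3],
      by rw [h2 k, inv_eq_of_mul_eq_one_right h3]⟩
  · have h4 : (s * t) ^ k * s * ((s * t) ^ k * s) = 1 := by
      rw [mul_assoc, ← mul_assoc s, h1, mul_assoc, hs2, mul_one, mul_inv_cancel]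
    exact .inr ⟨k, h4, by
      rw [inv_eq_of_mul_eq_one_right h4, mul_assoc _ s s, hs2, mul_one, ← mul_assoc, ← pow_add,
        ← two_mul, ← mul_left_inj t, mul_assoc, ← pow_succ, ← hk, h3, ht2]⟩

end Cfsg.Agent.H4.RS
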