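import Cfsg.Agent.H4.SzGroup
import Cfsg.Agent.H4.RegSS

/-! Suzuki groups: characteristic polynomials, centralisers, real elements. -/

set_option autoImplicit false
set_option linter.unusedSectionVars false
open Matrix Cfsg.Lie Polynomial
open scoped commutatorElement

namespace Cfsg.Agent.H4.Suz

variable {K : Type*} [Field K]

theorem det4 {R : Type*} [CommRing R] (A : Matrix (Fin 4) (Fin 4) R) : A.det =
    A 0 0 * (A 1 1 * (A 2 2 * A 3 3 - A 2 3 * A 3 2) - A 1 2 * (A 2 1 * A 3 3 - A 2 3 * A 3 1) +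
      A 1 3 * (A 2 1 * A 3 2 - A 2 2 * A 3 1)) -
    A 0 1 * (A 1 0 * (A 2 2 * A 3 3 - A 2 3 * A 3 2) - A 1 2 * (A 2 0 * A 3 3 - A 2 3 * A 3 0) +
      A 1 3 * (A 2 0 * A 3 2 - A 2 2 * A 3 0)) +
    A 0 2 * (A 1 0 * (A 2 1 * A 3 3 - A 2 3 * A 3 1) - A 1 1 * (A 2 0 * A 3 3 - A 2 3 * A 3 0) +
      A 1 3 * (A 2 0 * A 3 1 - A 2 1 * A 3 0)) -
    A 0 3 * (A 1 0 * (A 2 1 * A 3 2 - A 2 2 * A 3 1) - A 1 1 * (A 2 0 * A 3 2 - A 2 2 * A 3 0) +
      A 1 2 * (A 2 0 * A 3 1 - A 2 1 * A 3 0)) := by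
  simp [det_succ_row_zero, Fin.sum_univ_succ, Fin.succAbove]
  ring

/-- the characteristic polynomial of an element of trace `a` -/
noncomputable def cp (φ : K →+* K) (a : K) : K[X] :=
  X ^ 4 + C a * X ^ 3 + C (φ a) * X ^ 2 + C a * X + 1

variable [CharP K 2] {φ : K →+* K}

theorem charpoly_B (hφ : ∀ x, φ (φ x) = x ^ 2) (s y : K) {l : K} (hl : l ≠ 0) :
    (uM φ s y * hM φ l).charpoly = cp φ (uM φ s y * hM φ l).trace := by
  have h1 : φ l ≠ 0 := (map_ne_zero φ).2 hl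
  have e1 : (uM φ s y * hM φ l).trace = l + φ l / l + l / φ l + l⁻¹ := by
    simp [trace_fin_four', mul4, uM, hM]
  have e2 : φ (l + φ l / l + l / φ l + l⁻¹) = l * (φ l / l) + l * (l / φ l) + (φ l / l) * l⁻¹ +
      l / φ l * l⁻¹ := by
    simp only [map_add, map_div₀, map_inv₀, hφ]; field_simp
  have e3 : C l * C l⁻¹ = 1 := by rw [← map_mul, mul_inv_cancel₀ hl, map_one]
  have e4 : C (φ l / l) * C (l / φ l) = 1 := by
    rw [← map_mul, div_mul_div_cancel₀ hl, div_self h1, map_one]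
  rw [e1, cp, e2, charpoly, det4]
  simp only [map_add, map_mul]
  simp [mul4, uM, hM, -map_div₀, -map_inv₀]
  generalize C (φ l / l) = b at *
  generalize C (l / φ l) = c at *
  generalize C l⁻¹ = d at *
  grind
where trace_fin_four' : ∀ A : Matrix (Fin 4) (Fin 4) K, A.trace = A 0 0 + A 1 1 + A 2 2 + A 3 3 :=
  fun A => by simp [trace, Fin.sum_univ_four]

theorem charpoly_N (hφ : ∀ x, φ (φ x) = x ^ 2) (s y : K) {l : K} (hl : l ≠ 0) :
    (uM φ s y * hM φ l * nM).charpoly = cp φ (uM φ s y * hM φ l * nM).trace := by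
  have h1 : φ l ≠ 0 := (map_ne_zero φ).2 hl
  have e1 : (uM φ s y * hM φ l * nM).trace = (s * y + s ^ 2 * φ s + φ y) * l⁻¹ +
      φ s * (l / φ l) := by
    simp [trace, Fin.sum_univ_four, mul4, uM, hM, nM]
  have e2 : φ ((s * y + s ^ 2 * φ s + φ y) * l⁻¹ + φ s * (l / φ l)) =
      (φ s * φ y + φ s ^ 2 * s ^ 2 + y ^ 2) * (l / φ l * l⁻¹) + s ^ 2 * (φ l / l * l⁻¹) := by
    simp only [map_add, map_div₀, map_inv₀, map_mul, map_pow, hφ]; field_simp
  have e3 : C l * C l⁻¹ = 1 := by rw [← map_mul, mul_inv_cancel₀ hl, map_one]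
  have e4 : C (φ l / l) * C (l / φ l) = 1 := by
    rw [← map_mul, div_mul_div_cancel₀ hl, div_self h1, map_one]
  rw [e1, cp, e2, charpoly, det4]
  simp only [map_add, map_mul, map_pow]
  simp [mul4, uM, hM, nM, -map_div₀, -map_inv₀]
  generalize C (φ l / l) = b at *
  generalize C (l / φ l) = c at *
  generalize C l⁻¹ = d at *
  grind

theorem cp_sep {a : K} (ha : a ≠ 0) : (cp φ a).Separable := by
  have h1 : φ a ≠ 0 := (map_ne_zero φ).2 ha
  have e3 : C a * C a⁻¹ = 1 := by rw [← map_mul, mul_inv_cancel₀ ha, map_one]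
  have e4 : C (φ a) * C (φ a)⁻¹ = 1 := by rw [← map_mul, mul_inv_cancel₀ h1, map_one]
  refine ⟨C (φ a)⁻¹, C (φ a)⁻¹ * C a⁻¹ * (X ^ 2 + C a * X + 1 + C (φ a)), ?_⟩
  simp only [cp, derivative_add, derivative_mul, derivative_C, derivative_X_pow, derivative_X,
    derivative_one, map_natCast]
  grind

variable {G : Type*} [Group G]

namespace Model

variable (M : Model G φ)

/-- the trace -/
def tr (g : G) : K := (M.α g).trace

include M

theorem tr_comm (a b : G) : M.tr (a * b) = M.tr (b * a) := by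
  rw [tr, tr, map_mul, map_mul, trace_mul_comm]

theorem tr_conj (k g : G) : M.tr (k * g * k⁻¹) = M.tr g := by
  rw [tr_comm, inv_mul_cancel_left]

theorem bruhat {g : G} (hg : g ∉ M.B) : ∃ x ∈ M.U, ∃ w ∈ M.U, ∃ l, g = x * (w * M.h l * M.n) * x⁻¹ := by
  obtain ⟨x, hx, e⟩ := M.notB_decomp (g := g⁻¹) fun h => hg (by simpa using M.B.inv_mem h)
  obtain ⟨w, hw, l, e⟩ := M.B_decomp (M.B.inv_mem e)
  refine ⟨x⁻¹, M.U.inv_mem hx, x * w, M.U.mul_mem hx hw, l, ?_⟩
  rw [mul_assoc x, ← e]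
  group

theorem charpoly_eq (g : G) : (M.α g).charpoly = cp φ (M.tr g) := by
  by_cases hg : g ∈ M.B
  · obtain ⟨x, hx, l, rfl⟩ := M.B_decomp hg
    obtain ⟨s, y, rfl⟩ := M.exists_eq_u hx
    rw [tr, map_mul, α_u, α_h, charpoly_B M.hφ _ _ l.ne_zero]
  · obtain ⟨x, -, w, hw, l, rfl⟩ := M.bruhat hg
    obtain ⟨s, y, rfl⟩ := M.exists_eq_u hw
    rw [tr_conj, map_mul, charpoly_mul_comm, ← map_mul, inv_mul_cancel_left, tr, map_mul, map_mul,
      α_u, α_h, α_n, charpoly_N M.hφ _ _ l.ne_zero]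

theorem pow_four_of_tr {g : G} (h : M.tr g = 0) : g ^ 4 = 1 := by
  have := aeval_self_charpoly (M.α g)
  rw [charpoly_eq, h] at this
  simp only [cp, map_zero, zero_mul, add_zero, map_add, map_pow, aeval_X, map_one] at this
  apply M.inj
  rw [map_pow, map_one, eq_neg_of_add_eq_zero_left this]
  ext i j
  simp [CharTwo.neg_eq]

theorem sep {g : G} (h : M.tr g ≠ 0) : (M.α g).charpoly.Separable := by
  rw [charpoly_eq]; exact cp_sep h

theorem tr_ne_of_odd {g : G} (h : Odd (orderOf g)) (h1 : g ≠ 1) : M.tr g ≠ 0 := fun e => h1 (by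
  rw [← orderOf_eq_one_iff]
  exact Nat.eq_one_of_dvd_coprimes ((Nat.coprime_two_left.2 h).pow_left 2)
    (orderOf_dvd_of_pow_eq_one (M.pow_four_of_tr e)) dvd_rfl)

theorem eq_u0 {g : G} (hg : g ∈ M.B) (h : g * g = 1) : ∃ y, g = M.u 0 y := by
  obtain ⟨x, hx, l, rfl⟩ := M.B_decomp hg
  obtain ⟨s, y, rfl⟩ := M.exists_eq_u hx
  have h1 := congrArg (fun g => M.α g 0 0) h
  simp [α_u, α_h, mul4, uM, hM] at h1
  have h2 : l = 1 := Units.ext (by
    rcases mul_self_eq_one_iff.1 h1 with e | e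
    · exact e
    · rw [e, CharTwo.neg_eq, Units.val_one])
  rw [h2, map_one, mul_one, u_mul, ← M.u_zero] at h
  have h3 := (M.u_inj h).2
  rw [CharTwo.add_self_eq_zero, zero_add, mul_eq_zero, map_eq_zero, or_self] at h3
  exact ⟨y, by rw [h2, h3, map_one, mul_one]⟩

theorem u0_sq (y : K) : M.u 0 y * M.u 0 y = 1 := by
  rw [u_mul, ← M.u_zero]; simp [CharTwo.add_self_eq_zero]

theorem u0_comm {x : G} (hx : x ∈ M.U) (y : K) : x * M.u 0 y = M.u 0 y * x := by
  obtain ⟨s, y, rfl⟩ := M.exists_eq_u hx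
  rw [u_mul, u_mul]; simp [add_comm]

theorem u_ne {s y : K} (h : s ≠ 0 ∨ y ≠ 0) : M.u s y ≠ 1 := fun e => by
  have := M.u_inj (e.trans M.u_zero.symm); tauto

theorem h_u0 (l : Kˣ) (y : K) : M.h l * M.u 0 y * (M.h l)⁻¹ = M.u 0 (φ l * y) := by
  rw [h_u, mul_zero]

theorem phi_fix {t : K} (h : φ t = t) (h0 : t ≠ 0) : t = 1 := by
  have := M.hφ t
  rw [h, h, pow_two] at this
  exact (mul_left_cancel₀ h0 (by rw [← this, mul_one])).symm

theorem mem_B_of_comm {x g : G} (hx : x ∈ M.U) (h1 : x ≠ 1) (h : g * x = x * g) : g ∈ M.B := by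
  rw [← fix_iff]
  by_contra e
  exact h1 (M.eq_one_of_fix hx e (by rw [← mul_smul, ← h, mul_smul, M.U_fix hx]))

theorem mem_U_of_comm {y : K} (hy : y ≠ 0) {g : G} (h : g * M.u 0 y = M.u 0 y * g) : g ∈ M.U := by
  obtain ⟨x, hx, l, rfl⟩ := M.B_decomp (M.mem_B_of_comm (M.u_mem 0 y) (M.u_ne (.inr hy)) h)
  rw [← mul_assoc, ← M.u0_comm hx, mul_assoc, mul_assoc, mul_right_inj, ← mul_inv_eq_iff_eq_mul,
    h_u0] at h
  have h1 : φ l = φ 1 := by rw [map_one]; exact mul_right_cancel₀ hy (by rw [(M.u_inj h).2, one_mul])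
  rw [show l = 1 from Units.ext (φ.injective h1), map_one, mul_one]
  exact hx

variable [Fintype K]

theorem exists_conj_U {g : G} (h : g ^ 4 = 1) : ∃ k : G, k⁻¹ * g * k ∈ M.U := by
  have := M.finite
  obtain ⟨k, hk⟩ := exists_conj_mem M.U M.not_dvd_index_U (P := Subgroup.zpowers g) (by
    obtain ⟨j, -, hj⟩ := (Nat.dvd_prime_pow Nat.prime_two (m := 2)).1 (orderOf_dvd_of_pow_eq_one h)
    exact IsPGroup.of_card (by rw [Nat.card_zpowers, hj]))
  exact ⟨k, hk g (Subgroup.mem_zpowers g)⟩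

theorem exists_conj_u0 {g : G} (h : g * g = 1) (h1 : g ≠ 1) {y : K} (hy : y ≠ 0) :
    ∃ k : G, g = k * M.u 0 y * k⁻¹ := by
  obtain ⟨k, hk⟩ := M.exists_conj_U (g := g) (by rw [show 4 = 2 * 2 from rfl, pow_mul, pow_two g, h,
    one_pow])
  obtain ⟨z, hz⟩ := M.eq_u0 hk.1 (by simp [mul_assoc, ← mul_assoc g g, h])
  have hz0 : z ≠ 0 := by
    rintro rfl
    rw [u_zero] at hz
    exact h1 (by simpa [mul_assoc] using congrArg (fun x => k * x * k⁻¹) hz)
  obtain ⟨l, hl⟩ := Finite.injective_iff_surjective.1 φ.injective (z / y)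
  have hl0 : l ≠ 0 := by rintro rfl; exact div_ne_zero hz0 hy (by rw [← hl, map_zero])
  refine ⟨k * M.h (Units.mk0 l hl0), ?_⟩
  have := M.h_u0 (Units.mk0 l hl0) y
  rw [Units.val_mk0, hl, div_mul_cancel₀ _ hy, ← hz] at this
  calc g = k * (k⁻¹ * g * k) * k⁻¹ := by group
    _ = _ := by rw [← this]; group

theorem pow_four_of_comm {s g : G} (h : s * s = 1) (h1 : s ≠ 1) (hc : g * s = s * g) :
    g ^ 4 = 1 := by
  obtain ⟨k, rfl⟩ := M.exists_conj_u0 h h1 one_ne_zero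
  have := M.pow_four (M.mem_U_of_comm one_ne_zero (g := k⁻¹ * g * k) (by
    calc _ = k⁻¹ * (g * (k * M.u 0 1 * k⁻¹)) * k := by group
      _ = _ := by rw [hc]; group))
  rw [show g = k * (k⁻¹ * g * k) * k⁻¹ by group, conj_pow, this, mul_one, mul_inv_cancel]

theorem tr_eq_zero {g : G} (h : g ^ 4 = 1) : M.tr g = 0 := by
  obtain ⟨k, hk⟩ := M.exists_conj_U h
  obtain ⟨s, y, e⟩ := M.exists_eq_u hk
  rw [← M.tr_conj k⁻¹, inv_inv, e, tr, α_u]
  simp [trace, Fin.sum_univ_four, uM]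
  grind

theorem odd_of_tr {g : G} (h : M.tr g ≠ 0) : Odd (orderOf g) := by
  have := M.finite
  by_contra h1
  obtain ⟨j, hj⟩ := exists_pow_prime_order (Nat.not_odd_iff_even.1 h1).two_dvd
  exact h (M.tr_eq_zero (M.pow_four_of_comm (s := g ^ j) (by rw [← pow_two, ← hj, pow_orderOf_eq_one])
    (fun e => by simp [e] at hj) (Commute.self_pow g j)))

theorem eq_one_of_odd {g : G} (h : Odd (orderOf g)) (h1 : g ^ 4 = 1) : g = 1 := by
  by_contra e
  exact M.tr_ne_of_odd h e (M.tr_eq_zero h1)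

theorem comm_of_tr {x a b : G} (h : M.tr x ≠ 0) (ha : a * x = x * a) (hb : b * x = x * b) :
    a * b = b * a := RS.comm_of_sep M.α M.inj (M.sep h) ha hb

theorem pgroup_comm {r : ℕ} [hr : Fact r.Prime] (h2 : r ≠ 2) {P : Subgroup G} (hP : IsPGroup r P) :
    ∀ a ∈ P, ∀ b ∈ P, a * b = b * a := by
  have := M.finite
  intro a ha b hb
  by_cases h : a = 1
  · simp [h]
  have : Nontrivial P := ⟨⟨a, ha⟩, 1, fun e => h (congrArg Subtype.val e)⟩
  have := hP.center_nontrivial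
  obtain ⟨z, hz⟩ := exists_ne (1 : Subgroup.center P)
  obtain ⟨k, hk⟩ := IsPGroup.iff_orderOf.1 hP z
  have hz2 : ∀ y ∈ P, y * (z : P) = (z : P) * y := fun y hy =>
    congrArg Subtype.val (Subgroup.mem_center_iff.1 z.2 ⟨y, hy⟩)
  exact M.comm_of_tr (M.tr_ne_of_odd (by
    rw [Subgroup.orderOf_coe, hk]; exact (hr.out.odd_of_ne_two h2).pow)
    fun e => hz (Subtype.ext (Subtype.ext e))) (hz2 a ha) (hz2 b hb)

theorem norm_cent (h3 : ¬ 3 ∣ Nat.card G) {r : ℕ} [hr : Fact r.Prime] (h2 : r ≠ 2) {P : Subgroup G}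
    (hP : IsPGroup r P) {g : G} (hg : ∀ x ∈ P, g⁻¹ * x * g ∈ P) (ho : Odd (orderOf g)) :
    ∀ x ∈ P, g * x = x * g := by
  have := M.finite
  intro x hx
  by_cases h : x = 1
  · simp [h]
  obtain ⟨k, hk⟩ := IsPGroup.iff_orderOf.1 hP ⟨x, hx⟩
  refine RS.comm_of_coprime M.α M.inj (M.sep (M.tr_ne_of_odd ?_ h))
    (M.pgroup_comm h2 hP _ (hg x hx) x hx) ?_
  · rw [← Subgroup.orderOf_mk (ha := hx), hk]; exact (hr.out.odd_of_ne_two h2).pow
  · exact Nat.Coprime.mul_right (k := orderOf g) (m := 2 ^ 3) (n := 3)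
      ((Nat.coprime_two_left.2 ho).symm.pow_right 3)
      ((Nat.prime_three.coprime_iff_not_dvd.2 fun e => h3 (e.trans (orderOf_dvd_natCard g))).symm)

theorem comm_of_odd (h3 : ¬ 3 ∣ Nat.card G) {H : Subgroup G} (hH : Odd (Nat.card H)) :
    ∀ a ∈ H, ∀ b ∈ H, a * b = b * a := by
  have := M.finite
  have : commutator H = ⊥ := by
    rw [← Subgroup.card_eq_one]
    by_contra h
    obtain ⟨r, hr, hd⟩ := Nat.exists_prime_and_dvd h
    have := Fact.mk hr
    have h2 : r ≠ 2 := by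
      rintro rfl
      exact (Nat.not_even_iff_odd.2 hH) (even_iff_two_dvd.2
        (hd.trans (Subgroup.card_subgroup_dvd_card _)))
    obtain ⟨P⟩ := (Sylow.nonempty : Nonempty (Sylow r H))
    have hP := P.2.map H.subtype
    have h1 : Subgroup.normalizer (P : Set H) ≤ Subgroup.centralizer (P : Set H) :=
      fun u hu y hy => Subtype.ext (M.norm_cent h3 h2 hP (g := u) (by
        rintro _ ⟨x, hx, rfl⟩
        exact ⟨_, (Subgroup.mem_set_normalizer_iff''.1 hu x).1 hx, rfl⟩)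
        (hH.of_dvd_nat (Subgroup.orderOf_dvd_natCard _ u.2)) y ⟨y, hy, rfl⟩).symm
    refine MonoidHom.not_dvd_card_ker_transferSylow P h1 (hd.trans (Subgroup.card_dvd_of_le ?_))
    rw [commutator_def, Subgroup.commutator_le]
    intro a _ b _
    rw [MonoidHom.mem_ker, map_commutatorElement, commutatorElement_eq_one_iff_mul_comm]
    exact Subtype.ext (Subtype.ext (M.pgroup_comm h2 hP _ ⟨_, Subtype.prop _, rfl⟩ _
      ⟨_, Subtype.prop _, rfl⟩))
  intro a ha b hb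
  have h1 : ⁅(⟨a, ha⟩ : H), (⟨b, hb⟩ : H)⁆ ∈ commutator H :=
    Subgroup.commutator_mem_commutator (Subgroup.mem_top _) (Subgroup.mem_top _)
  rw [this, Subgroup.mem_bot, commutatorElement_eq_one_iff_mul_comm] at h1
  exact congrArg Subtype.val h1

theorem real (hq : 2 < Fintype.card K) (h3 : ¬ 3 ∣ Nat.card G) {x : G} (hx : M.tr x ≠ 0) :
    ∃ s : G, s ≠ 1 ∧ s * s = 1 ∧ s * x * s = x⁻¹ := by
  have := M.finite
  have := M.simple hq
  have ho := M.odd_of_tr hx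
  have hx1 : orderOf x ≠ 1 := fun e => hx (M.tr_eq_zero (by rw [orderOf_eq_one_iff.1 e, one_pow]))
  obtain ⟨r, hr, hd⟩ := Nat.exists_prime_and_dvd hx1
  have := Fact.mk hr
  have h2 : r ≠ 2 := by rintro rfl; exact (Nat.not_even_iff_odd.2 ho) (even_iff_two_dvd.2 hd)
  obtain ⟨j, hj⟩ := exists_pow_prime_order hd
  have hy1 : x ^ j ≠ 1 := fun e => hr.ne_one (by rw [← hj, e, orderOf_one])
  obtain ⟨P, hP⟩ := IsPGroup.exists_le_sylow (G := G) (p := r) (P := Subgroup.zpowers (x ^ j))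
    (IsPGroup.of_card (n := 1) (by rw [Nat.card_zpowers, hj, pow_one]))
  have hyP : x ^ j ∈ P := hP (Subgroup.mem_zpowers _)
  have h4 : Even (Nat.card (Subgroup.normalizer (P : Set G))) := by
    by_contra h4
    have h1 : Subgroup.normalizer (P : Set G) ≤ Subgroup.centralizer (P : Set G) :=
      fun u hu y hy => (M.norm_cent h3 h2 P.2 (g := u)
        (fun x hx => (Subgroup.mem_set_normalizer_iff''.1 hu x).1 hx)
        ((Nat.not_even_iff_odd.1 h4).of_dvd_nat (Subgroup.orderOf_dvd_natCard _ hu)) y hy).symm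
    have h5 := MonoidHom.ker_transferSylow_isComplement' P h1
    rcases IsSimpleGroup.eq_bot_or_eq_top_of_normal (MonoidHom.transferSylow P h1).ker
      inferInstance with e | e <;> rw [e] at h5
    · have h6 := Subgroup.isComplement'_bot_left.1 h5
      refine M.n_not_mem (M.mem_B_of_comm (M.u_mem 0 1) (M.u_ne (.inr one_ne_zero))
        (M.pgroup_comm h2 P.2 _ ?_ _ ?_)) <;> rw [h6] <;> trivial
    · have h6 := Subgroup.isComplement'_top_left.1 h5
      exact hy1 (Subgroup.mem_bot.1 (h6 ▸ hyP : x ^ j ∈ (⊥ : Subgroup G)))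
  obtain ⟨⟨s, hs⟩, hs2⟩ := exists_prime_orderOf_dvd_card' 2 h4.two_dvd
  rw [Subgroup.orderOf_mk] at hs2
  have hs1 : s ≠ 1 := by rintro rfl; simp at hs2
  have hs3 : s * s = 1 := by rw [← pow_two, ← hs2, pow_orderOf_eq_one]
  have hs4 : s⁻¹ = s := inv_eq_of_mul_eq_one_right hs3
  have hy := M.tr_ne_of_odd (g := x ^ j) (hj ▸ hr.odd_of_ne_two h2) hy1
  have h5 : s * x ^ j * s ∈ P := by
    simpa [hs4] using (Subgroup.mem_set_normalizer_iff.1 hs _).1 hyP
  have h6 : s * x * s * x = x * (s * x * s) := by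
    refine M.comm_of_tr hy ?_ (Commute.self_pow x j)
    have h7 := M.comm_of_tr hy (M.pgroup_comm h2 P.2 _ h5 _ hyP) (Commute.self_pow x j)
    calc _ = s * (x * (s * x ^ j * s)) * s := by simp [mul_assoc, hs3]
      _ = _ := by rw [← h7]; simp [← mul_assoc, hs3]
  refine ⟨s, hs1, hs3, eq_inv_of_mul_eq_one_left (M.eq_one_of_odd ?_
    (M.pow_four_of_comm hs3 hs1 ?_))⟩
  · refine Odd.of_dvd_nat ho (orderOf_dvd_of_pow_eq_one ?_)
    rw [Commute.mul_pow h6, pow_orderOf_eq_one, mul_one]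
    nth_rw 2 [← hs4]
    rw [conj_pow, pow_orderOf_eq_one, mul_one, mul_inv_cancel]
  · conv_lhs => rw [h6]
    simp only [← mul_assoc, hs3, one_mul]
    rw [mul_assoc _ s s, hs3, mul_one]

end Model

end Cfsg.Agent.H4.Suz
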