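import Cfsg.Agent.H4.SzBin1

/-! Binary actions of the Suzuki groups. -/

set_option autoImplicit false
set_option linter.unusedSectionVars false
open Matrix Cfsg.Lie MulAction

namespace Cfsg.Agent.H4

/-- binary actions -/
def Bin (G Ω : Type*) [Group G] [MulAction G Ω] : Prop :=
  ∀ (n : ℕ) (I J : Fin n → Ω), 2 ≤ n →
    (∀ i j : Fin n, i ≠ j → ∃ g : G, g • I i = J i ∧ g • I j = J j) → ∃ g : G, ∀ i, g • I i = J i

section
variable {G Ω : Type*} [Group G] [MulAction G Ω]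

theorem Bin.fin (h : Bin G Ω) {ι : Type*} [Finite ι] (I J : ι → Ω)
    (hIJ : ∀ i j, ∃ g : G, g • I i = J i ∧ g • I j = J j) : ∃ g : G, ∀ i, g • I i = J i := by
  have := Fintype.ofFinite ι
  by_cases h1 : 2 ≤ Fintype.card ι
  · let e := Fintype.equivFin ι
    obtain ⟨g, hg⟩ := h _ (I ∘ e.symm) (J ∘ e.symm) h1 fun i j _ => hIJ _ _
    exact ⟨g, fun i => by simpa using hg (e i)⟩
  · have := Fintype.card_le_one_iff_subsingleton.1 (show Fintype.card ι ≤ 1 by omega)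
    rcases isEmpty_or_nonempty ι with _ | ⟨⟨i⟩⟩
    · exact ⟨1, isEmptyElim⟩
    · obtain ⟨g, hg, -⟩ := hIJ i i
      exact ⟨g, fun j => by rwa [Subsingleton.elim j i]⟩

theorem Bin.tri [Finite Ω] (h : Bin G Ω) (y z : G) : ∃ k : G, ∀ α : Ω, (y • α = α → k • α = α) ∧
    (z • α = α → k • α = α) ∧ (y • α = z • α → k • α = y • α) := by
  obtain ⟨k, hk⟩ := h.fin (ι := {α : Ω // y • α = α} ⊕ {α : Ω // z • α = α} ⊕
    {α : Ω // y • α = z • α}) (Sum.elim (↑) (Sum.elim (↑) (↑)))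
    (Sum.elim (↑) (Sum.elim (↑) fun α => y • α.1)) (by
      rintro (a | a | a) (b | b | b)
      exacts [⟨1, one_smul _ _, one_smul _ _⟩, ⟨1, one_smul _ _, one_smul _ _⟩, ⟨y, a.2, rfl⟩,
        ⟨1, one_smul _ _, one_smul _ _⟩, ⟨1, one_smul _ _, one_smul _ _⟩, ⟨z, a.2, b.2.symm⟩,
        ⟨y, rfl, b.2⟩, ⟨z, a.2.symm, b.2⟩, ⟨y, rfl, rfl⟩])
  exact ⟨k, fun α => ⟨fun e => hk (.inl ⟨α, e⟩), fun e => hk (.inr (.inl ⟨α, e⟩)),
    fun e => hk (.inr (.inr ⟨α, e⟩))⟩⟩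

theorem ncard_fix_conj (k g : G) : (fixedBy Ω (k * g * k⁻¹)).ncard = (fixedBy Ω g).ncard := by
  rw [← smul_fixedBy, Set.ncard_smul_set]

theorem Bin.fix_of_comm [Finite G] [Finite Ω] (h : Bin G Ω)
    (hc : ∀ s t : G, s ≠ 1 → s * s = 1 → t ≠ 1 → t * t = 1 → ∃ k, t = k * s * k⁻¹)
    {s t : G} (hs1 : s ≠ 1) (hs : s * s = 1) (ht : t * t = 1) (hst : s * t = t * s) {α : Ω}
    (hα : s • α = α) : t • α = α := by
  by_cases ht1 : t = 1
  · simp [ht1]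
  by_cases hst1 : s * t = 1
  · rw [← mul_left_cancel (hs.trans hst1.symm), hα]
  have hst2 : s * t * (s * t) = 1 := by
    rw [mul_assoc, ← mul_assoc t, ← hst, mul_assoc, ht, mul_one, hs]
  have card : ∀ t : G, t ≠ 1 → t * t = 1 → (fixedBy Ω t).ncard = (fixedBy Ω s).ncard :=
    fun t h1 h2 => by obtain ⟨k, rfl⟩ := hc s t hs1 hs h1 h2; exact ncard_fix_conj k s
  have eq : ∀ a b : G, a ≠ 1 → a * a = 1 → b ≠ 1 → b * b = 1 → fixedBy Ω a ⊆ fixedBy Ω b →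
      fixedBy Ω a = fixedBy Ω b := fun a b h1 h2 h3 h4 h5 =>
    Set.eq_of_subset_of_ncard_le h5 (by rw [card a h1 h2, card b h3 h4])
  refine (eq t s ht1 ht hs1 hs fun β hβ => ?_).ge hα
  by_contra hβ'
  obtain ⟨k, hk⟩ := h.tri s (s * t)
  have h1 : k • β = s • β := (hk β).2.2 (by rw [mul_smul, hβ])
  have h2 : k • s • β = β := by
    rw [(hk _).2.2 (by rw [mul_smul, ← mul_smul t, ← hst, mul_smul, hβ]), ← mul_smul, hs, one_smul]
  have h3 : 2 ∣ orderOf k := by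
    by_contra h3
    obtain ⟨m, hm⟩ := Nat.odd_iff.2 (Nat.two_dvd_ne_zero.1 h3)
    have h4 : k ^ 2 ∈ stabilizer G β := by rw [mem_stabilizer_iff, pow_two, mul_smul, h1, h2]
    have h5 := pow_orderOf_eq_one k
    rw [hm, pow_succ', pow_mul] at h5
    have h6 := congrArg (· • β) h5
    simp only [mul_smul, one_smul] at h6
    rw [show (k ^ 2) ^ m • β = β from pow_mem h4 m, h1] at h6
    exact hβ' h6
  obtain ⟨j, hj⟩ := exists_pow_prime_order h3
  have h4 : k ^ j ≠ 1 := fun e => by simp [e] at hj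
  have h5 : k ^ j * k ^ j = 1 := by rw [← pow_two, ← hj, pow_orderOf_eq_one]
  have h6 := eq s _ hs1 hs h4 h5 fun γ hγ => pow_mem (show k ∈ stabilizer G γ from (hk γ).1 hγ) j
  have h7 := eq _ _ hst1 hst2 h4 h5 fun γ hγ =>
    pow_mem (show k ∈ stabilizer G γ from (hk γ).2.1 hγ) j
  have h8 := eq s t hs1 hs ht1 ht fun γ hγ => by
    have h9 : (s * t) • γ = γ := (h6.trans h7.symm).le hγ
    rwa [hst, mul_smul, hγ] at h9
  exact hβ' (h8.ge hβ)

end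

namespace Suz.Model

variable {K : Type*} [Field K] [CharP K 2] {φ : K →+* K} {G : Type*} [Group G] (M : Model G φ)
  [Fintype K]
include M

theorem n_inv : M.n⁻¹ = M.n := inv_eq_of_mul_eq_one_right M.n_mul_n

theorem tr_un (b : K) : M.tr (M.u 0 b * M.n) = φ b := by
  simp [tr, α_u, α_n, trace, Fin.sum_univ_four, mul4, uM, nM]

theorem conj_normal (hq : 2 < Fintype.card K) (h3 : ¬ 3 ∣ Nat.card G) {x : G} (hx : M.tr x ≠ 0) :
    ∃ (k : G) (b : K), x = k * (M.u 0 b * M.n) * k⁻¹ := by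
  obtain ⟨s, hs1, hs2, hs⟩ := M.real hq h3 hx
  obtain ⟨k, rfl⟩ := M.exists_conj_u0 hs2 hs1 one_ne_zero
  obtain ⟨t, rfl⟩ : ∃ t, x = k * (M.u 0 1 * t) * k⁻¹ :=
    ⟨M.u 0 1 * (k⁻¹ * x * k), by rw [← mul_assoc (M.u 0 1), u0_sq]; group⟩
  have ht : t * t = 1 := by
    have e := M.u0_sq 1
    have : k * (M.u 0 1 * M.u 0 1 * t * M.u 0 1) * k⁻¹ = k * (M.u 0 1 * t)⁻¹ * k⁻¹ := by
      calc _ = _ := by group
        _ = _ := hs
        _ = _ := by group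
    rw [mul_left_inj, mul_right_inj, e, one_mul, _root_.mul_inv_rev,
      inv_eq_of_mul_eq_one_right e, mul_left_inj] at this
    exact mul_eq_one_iff_eq_inv.2 this
  rw [tr_conj] at hx
  have htB : t ∉ M.B := fun h => by
    obtain ⟨y, rfl⟩ := M.eq_u0 h ht
    exact hx (M.tr_eq_zero (M.pow_four (M.U.mul_mem (M.u_mem _ _) (M.u_mem _ _))))
  obtain ⟨x, hx', w, hw, l, rfl⟩ := M.bruhat htB
  have h1 : w * M.h l * M.n * (w * M.h l * M.n) = 1 := conj_eq_one (k := x) (by rw [← conj_sq, ht])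
  have h2 : w = 1 := by
    have := congrArg (· • M.o) h1
    simp only [mul_smul, h_fix_n, one_smul] at this
    have e1 : M.n • w • M.n • M.o = M.o := by
      rw [← smul_left_cancel_iff (M.h l), ← smul_left_cancel_iff w, this, h_fix, M.U_fix hw]
    exact M.eq_one_of_fix_n hw (by rw [← M.nn (w • _), e1])
  obtain ⟨m, hm⟩ := (Finite.injective_iff_surjective.1 (φ.injective.comp φ.injective)) (l : K)
  simp only [Function.comp, M.hφ] at hm
  obtain ⟨m, rfl⟩ : ∃ m' : Kˣ, m' = m := ⟨Units.mk0 m (by rintro rfl; exact l.ne_zero (by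
    simp [← hm])), rfl⟩
  obtain rfl : m * m = l := Units.ext (by rw [← hm, pow_two, Units.val_mul])
  refine ⟨k * x * M.h m, φ (m⁻¹ : Kˣ) * 1, ?_⟩
  rw [← h_u0, h2, one_mul, map_mul, map_inv, ← mul_assoc (M.u 0 1), ← mul_assoc (M.u 0 1),
    ← M.u0_comm hx']
  have := M.n_h m
  rw [map_inv] at this
  calc _ = k * (x * M.u 0 1 * (M.h m * M.n * (M.n * M.h m * M.n)) * x⁻¹) * k⁻¹ := by
        simp only [mul_assoc, ← mul_assoc M.n M.n, n_mul_n, one_mul]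
    _ = _ := by rw [this]; group

theorem conj_of_tr (hq : 2 < Fintype.card K) (h3 : ¬ 3 ∣ Nat.card G) {x y : G} (hx : M.tr x ≠ 0)
    (h : M.tr y = M.tr x) : ∃ k : G, y = k * x * k⁻¹ := by
  obtain ⟨k, b, rfl⟩ := M.conj_normal hq h3 hx
  obtain ⟨k', b', rfl⟩ := M.conj_normal hq h3 (h ▸ hx : M.tr y ≠ 0)
  rw [tr_conj, tr_conj, tr_un, tr_un] at h
  exact ⟨k' * k⁻¹, by rw [φ.injective h]; group⟩

theorem exists_invol (hq : 2 < Fintype.card K) (h3 : ¬ 3 ∣ Nat.card G) {x : G} (hx : M.tr x ≠ 0) :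
    ∃ s : G, s ≠ 1 ∧ s * s = 1 ∧ M.tr (x * s) = M.tr x := by
  classical
  obtain ⟨k, b, rfl⟩ := M.conj_normal hq h3 hx
  rw [tr_conj, tr_un, map_ne_zero] at hx
  obtain ⟨y, -, hy⟩ := Finset.exists_mem_notMem_of_card_lt_card (s := {0, b}) (t := Finset.univ)
    (Finset.card_le_two.trans_lt hq)
  simp only [Finset.mem_insert, Finset.mem_singleton, not_or] at hy
  have h1 : y * φ b + b * φ y ≠ 0 := fun e => hy.2 (by
    have := M.phi_fix (t := y / b) (by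
      rw [map_div₀, div_eq_div_iff ((map_ne_zero φ).2 hx) hx]; grind) (div_ne_zero hy.1 hx)
    exact (div_eq_one_iff_eq hx).1 this)
  have h2 : 1 + (y * b + y ^ 2) + φ (y * b + y ^ 2) ≠ 0 := fun e => by
    generalize y * b + y ^ 2 = w at e
    have e1 : φ w = w + 1 := by grind
    have e2 := M.hφ w
    rw [e1, map_add, map_one, e1] at e2
    rcases mul_eq_zero.1 (show w * (w + 1) = 0 by grind) with e3 | e3
    · rw [e3, map_zero] at e1; grind
    · rw [e3, map_eq_zero] at e1; grind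
  obtain ⟨c, hc0, hc⟩ : ∃ c, c ≠ 0 ∧ c * (1 + (y * b + y ^ 2) + φ (y * b + y ^ 2)) =
      y * φ b + b * φ y := ⟨_, div_ne_zero h1 h2, div_mul_cancel₀ _ h2⟩
  have h4 := M.u_ne (s := 0) (.inr (mul_ne_zero hc0 ((map_ne_zero φ).2 hc0)))
  refine ⟨(k * M.u 0 y * M.n) * M.u 0 (c * φ c) * (k * M.u 0 y * M.n)⁻¹, fun e => h4 (conj_eq_one e),
    by rw [conj_sq, u0_sq]; simp, ?_⟩
  rw [tr_conj, tr_un, ← M.tr_conj k⁻¹, show k⁻¹ * (k * (M.u 0 b * M.n) * k⁻¹ * (k * M.u 0 y * M.n *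
    M.u 0 (c * φ c) * (k * M.u 0 y * M.n)⁻¹)) * k⁻¹⁻¹ = M.u 0 b * M.n * M.u 0 y * M.n *
    M.u 0 (c * φ c) * M.n⁻¹ * (M.u 0 y)⁻¹ by group, n_inv, inv_eq_of_mul_eq_one_right (M.u0_sq y)]
  simp only [map_add, map_mul, map_pow] at hc
  simp [tr, α_u, α_n, trace, Fin.sum_univ_four, mul4, uM, nM, M.hφ]
  grind

end Suz.Model

end Cfsg.Agent.H4
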