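import Cfsg.Agent.H4.SzBin2

/-! Binary actions of the Suzuki groups, II. -/

set_option autoImplicit false
set_option linter.unusedSectionVars false
open Matrix Cfsg.Lie MulAction

namespace Cfsg.Agent.H4.Suz.Model

variable {K : Type*} [Field K] [CharP K 2] {φ : K →+* K} {G : Type*} [Group G] (M : Model G φ)
  [Fintype K]
include M

theorem eq_o {x : G} (hx : x ∈ M.U) (h1 : x ≠ 1) {c : G ⧸ M.B} (h : x • c = c) : c = M.o :=
  by_contra fun e => h1 (M.eq_one_of_fix hx e h)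

theorem ratio_ne {l : Kˣ} (hl : l ≠ 1) : (l : K) ^ 2 / φ l ≠ 1 := fun e => hl (Units.ext (by
  rw [div_eq_one_iff_eq ((map_ne_zero φ).2 l.ne_zero), ← M.hφ] at e
  exact M.phi_fix (φ.injective e) l.ne_zero))

theorem scale {s t : K} (hs : s ≠ 0) (ht : t ≠ 0) : ∃ l : Kˣ, (l : K) ^ 2 / φ l * s = t := by
  obtain ⟨c, hc⟩ := Finite.injective_iff_surjective.1 φ.injective (t / s)
  have h0 : c ≠ 0 := by rintro rfl; exact div_ne_zero ht hs (by rw [← hc, map_zero])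
  have h1 := (map_ne_zero φ).2 h0
  refine ⟨Units.mk0 _ (mul_ne_zero h0 h1), ?_⟩
  rw [Units.val_mk0, map_mul, M.hφ, ← eq_div_iff hs, ← hc]
  field_simp

theorem three {l : Kˣ} {x : G} (hx : x ∈ M.U) (h1 : x ≠ 1)
    (h : M.h l • x • M.n • M.o = x • M.n • M.o) : l = 1 := by
  have := M.eq_one_of_fix_n (M.U.mul_mem (M.U.inv_mem hx) (M.conj_mem_U (M.h_mem l) hx))
    (by rw [mul_smul, mul_smul, mul_smul, ← map_inv, h_fix_n, h, inv_smul_smul])
  obtain ⟨s, y, rfl⟩ := M.exists_eq_u hx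
  rw [inv_mul_eq_one, h_u] at this
  obtain ⟨e1, e2⟩ := M.u_inj this
  by_contra hl
  have h2 : s = 0 := by
    by_contra h2
    exact M.ratio_ne hl (mul_right_cancel₀ h2 (by rw [← e1, one_mul]))
  have h3 : y = 0 := by
    by_contra h3
    exact hl (Units.ext (φ.injective (mul_right_cancel₀ h3 (by rw [← e2, Units.val_one, map_one,
      one_mul]))))
  exact h1 (by rw [h2, h3, u_zero])

theorem pair {H : Subgroup G} (hZ : ∀ y, M.u 0 y ∈ H) (hZ' : M.n * M.u 0 1 * M.n ∈ H) :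
    M.n ∈ H ∧ ∀ l, M.h l ∈ H := by
  have := M.finite
  have key : ∀ l, M.n * M.h l ∈ H := fun l => by
    have hy : (φ l)⁻¹ ≠ 0 := inv_ne_zero ((map_ne_zero φ).2 l.ne_zero)
    have h1 := M.u_ne (s := 0) (.inr (one_ne_zero (α := K)))
    rcases RS.dihedral_cases (M.u0_sq (φ l)⁻¹) (t := M.n * M.u 0 1 * M.n) (by
      nth_rw 2 4 [← M.n_inv]; rw [conj_sq, u0_sq, mul_one, mul_inv_cancel]) with
      ⟨z, z1, -, z2, z3⟩ | ⟨k, hk1, hk2⟩
    · refine absurd (M.U_aniso (M.mem_U_of_comm hy z2) (M.mem_B_of_comm (M.u_mem 0 1) h1 ?_)) z1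
      calc _ = M.n * (z * (M.n * M.u 0 1 * M.n)) * M.n⁻¹ := by group
        _ = _ := by rw [z3, ← mul_assoc, ← mul_assoc, ← mul_assoc, n_mul_n, n_inv]; group
    · have h2 : (M.u 0 (φ l)⁻¹ * (M.n * M.u 0 1 * M.n)) ^ k * M.u 0 (φ l)⁻¹ ∈ H :=
        H.mul_mem (H.pow_mem (H.mul_mem (hZ _) hZ') _) (hZ _)
      generalize (M.u 0 (φ l)⁻¹ * (M.n * M.u 0 1 * M.n)) ^ k * M.u 0 (φ l)⁻¹ = v at *
      have h3 : M.n * v * M.u 0 (φ l)⁻¹ * (M.n * v)⁻¹ = M.u 0 1 := by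
        calc _ = M.n * (v * M.u 0 (φ l)⁻¹ * v⁻¹) * M.n⁻¹ := by group
          _ = _ := by rw [hk2, ← mul_assoc, ← mul_assoc, n_mul_n]; group
      have h4 : (M.n * v) • M.o = M.o := M.eq_o (M.u_mem 0 1) h1 (by
        rw [← h3, mul_smul, inv_smul_smul, mul_smul, M.U_fix (M.u_mem _ _)])
      obtain ⟨m, hm⟩ := M.fix_both h4 (by
        have : v • M.o = M.n • M.o := by rw [← M.nn (v • M.o), ← mul_smul M.n v, h4]
        rw [mul_smul]
        conv_lhs => rw [← this, ← mul_smul v, hk1, one_smul])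
      rw [hm, h_u0] at h3
      have h5 : m = l := Units.ext (φ.injective ((mul_inv_eq_one₀ ((map_ne_zero φ).2 l.ne_zero)).1
        (M.u_inj h3).2))
      rw [← h5, ← hm, ← mul_assoc, n_mul_n, one_mul]
      exact h2
  have hn : M.n ∈ H := by simpa using key 1
  exact ⟨hn, fun l => (H.mul_mem_cancel_left hn).1 (key l)⟩

/-- closure under commuting involutions -/
def Cl (H : Subgroup G) : Prop :=
  ∀ s ∈ H, s ≠ 1 → s * s = 1 → ∀ t, t * t = 1 → s * t = t * s → t ∈ H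

omit M in
theorem Cl.comap {H : Subgroup G} (h : Cl H) (x : G) : Cl (H.comap (MulAut.conj x).toMonoidHom) :=
  fun s hs h1 h2 t h3 h4 => h _ hs (fun e => h1 (conj_eq_one e)) (by
    change x * s * x⁻¹ * (x * s * x⁻¹) = 1; rw [conj_sq, h2]; simp) _ (by
    change x * t * x⁻¹ * (x * t * x⁻¹) = 1; rw [conj_sq, h3]; simp) (conj_comm h4)

theorem Z_le {H : Subgroup G} (h : Cl H) {y : K} (hy : y ≠ 0) (h1 : M.u 0 y ∈ H) (z : K) :
    M.u 0 z ∈ H := h _ h1 (M.u_ne (.inr hy)) (M.u0_sq _) _ (M.u0_sq _) (M.u0_comm (M.u_mem _ _) _)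

theorem pair' {H : Subgroup G} (h : Cl H) (h1 : M.u 0 1 ∈ H) {x g : G} (hx : x ∈ M.U) (hg : g ∈ H)
    (e : g • M.o = x • M.n • M.o) : x * M.n * x⁻¹ ∈ H ∧ ∀ l, x * M.h l * x⁻¹ ∈ H := by
  refine M.pair (H := H.comap (MulAut.conj x).toMonoidHom) (fun y => ?_) ?_
  · change x * M.u 0 y * x⁻¹ ∈ H
    rw [M.u0_comm hx, mul_inv_cancel_right]
    exact M.Z_le h one_ne_zero h1 y
  · have h2 : (x * M.n)⁻¹ * g ∈ M.B := M.fix_iff.1 (by rw [mul_smul, e, inv_smul_eq_iff, mul_smul])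
    obtain ⟨y, hy⟩ := M.eq_u0 (M.conj_mem_U h2 (M.u_mem 0 1)).1 (by rw [conj_sq, u0_sq]; simp)
    have hy0 : y ≠ 0 := by
      rintro rfl
      rw [u_zero] at hy
      exact M.u_ne (.inr one_ne_zero) (conj_eq_one hy)
    have := M.Z_le (h.comap (x * M.n)) hy0 (by
      change x * M.n * M.u 0 y * (x * M.n)⁻¹ ∈ H
      rw [← hy]
      simpa [mul_assoc] using H.mul_mem (H.mul_mem hg h1) (H.inv_mem hg)) 1
    change x * M.n * M.u 0 1 * (x * M.n)⁻¹ ∈ H at this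
    change x * (M.n * M.u 0 1 * M.n) * x⁻¹ ∈ H
    simpa [mul_assoc, n_inv] using this

theorem top_of_n (hq : 2 < Fintype.card K) {H : Subgroup G} (h : Cl H) (h1 : M.u 0 1 ∈ H)
    (hn : M.n ∈ H) (hh : ∀ l, M.h l ∈ H) : H = ⊤ := by
  classical
  have hZ := M.Z_le h one_ne_zero h1
  have e1 : (M.u 1 0)⁻¹ = M.u 1 1 := inv_eq_of_mul_eq_one_right (by
    rw [u_mul, ← M.u_zero]; simp [CharTwo.add_self_eq_zero])
  obtain ⟨-, h2⟩ := M.pair' h h1 (M.u_mem 1 0) (H.mul_mem (H.mul_mem hn h1) hn) (by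
    rw [← inv_smul_eq_iff, ← inv_smul_eq_iff, ← mul_smul, ← mul_smul, fix_iff, e1, n_inv]
    change M.α _ 3 0 = 0
    simp [α_u, α_n, mul4, uM, nM]
    grind)
  obtain ⟨l, hl⟩ : ∃ l : Kˣ, l ≠ 1 := Fintype.exists_ne_of_one_lt_card (by
    rw [Fintype.card_units]; omega) 1
  have h3 := H.mul_mem (h2 l) (H.inv_mem (hh l))
  rw [e1, mul_assoc, mul_assoc, ← mul_assoc (M.h l), h_u, u_mul] at h3
  have h4 : 1 + (l : K) ^ 2 / φ l * 1 ≠ 0 := by have := M.ratio_ne hl; grind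
  have hU : M.U ≤ H := fun x hx => by
    obtain ⟨s, y, rfl⟩ := M.exists_eq_u hx
    by_cases hs : s = 0
    · exact hs ▸ hZ y
    obtain ⟨m, hm⟩ := M.scale h4 hs
    have h5 := H.mul_mem (H.mul_mem (hh m) h3) (H.inv_mem (hh m))
    rw [h_u, hm] at h5
    generalize φ m * _ = z at h5
    have h6 := H.mul_mem h5 (hZ (y - z))
    rwa [u_mul, add_zero, mul_zero, add_zero, add_sub_cancel] at h6
  have hB : M.B ≤ H := fun g hg => by
    obtain ⟨x, hx, l, rfl⟩ := M.B_decomp hg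
    exact H.mul_mem (hU hx) (hh l)
  rw [eq_top_iff]
  intro g _
  by_cases hg : g ∈ M.B
  · exact hB hg
  · obtain ⟨x, hx, e⟩ := M.notB_decomp hg
    exact (H.mul_mem_cancel_left (hU hx)).1 ((H.mul_mem_cancel_left hn).1 (hB e))

theorem le_B (hq : 2 < Fintype.card K) {H : Subgroup G} (h : Cl H) (h1 : M.u 0 1 ∈ H)
    (hH : H ≠ ⊤) : H ≤ M.B := fun g hg => by
  by_contra hg'
  obtain ⟨x, hx, e⟩ := M.exists_U fun e => hg' (M.fix_iff.1 e)
  obtain ⟨h2, h3⟩ := M.pair' h h1 hx hg e.symm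
  have := M.top_of_n hq (h.comap x) (by
    change x * M.u 0 1 * x⁻¹ ∈ H
    rwa [M.u0_comm hx, mul_inv_cancel_right]) h2 h3
  refine hH (eq_top_iff.2 fun a _ => ?_)
  have h4 : x⁻¹ * a * x ∈ H.comap (MulAut.conj x).toMonoidHom := this ▸ Subgroup.mem_top _
  simpa [mul_assoc] using h4

theorem conj_torus {x : G} (hx : x ∈ M.U) {l : Kˣ} (hl : l ≠ 1) :
    ∃ w ∈ M.U, w * M.h l * w⁻¹ = x * M.h l := by
  have := M.finite
  have : Function.Injective fun w : M.U => (⟨w * (M.h l * (w : G)⁻¹ * (M.h l)⁻¹),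
      M.U.mul_mem w.2 (M.conj_mem_U (M.h_mem l) (M.U.inv_mem w.2))⟩ : M.U) := fun w z e => by
    have e1 : (w : G) * (M.h l * (w : G)⁻¹ * (M.h l)⁻¹) = z * (M.h l * (z : G)⁻¹ * (M.h l)⁻¹) :=
      congrArg Subtype.val e
    by_contra hne
    refine hl (M.three (M.U.mul_mem (M.U.inv_mem z.2) w.2)
      (fun e => hne (Subtype.ext (inv_mul_eq_one.1 e).symm)) ?_)
    have : M.h l * ((z : G)⁻¹ * w) = (z : G)⁻¹ * w * M.h l := by
      calc _ = (z : G)⁻¹ * (z * (M.h l * (z : G)⁻¹ * (M.h l)⁻¹)) * M.h l * w := by group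
        _ = _ := by rw [← e1]; group
    rw [← mul_smul, this, mul_smul, h_fix_n]
  obtain ⟨w, hw⟩ := Finite.injective_iff_surjective.1 this ⟨x, hx⟩
  have h3 : (w : G) * (M.h l * (w : G)⁻¹ * (M.h l)⁻¹) = x := congrArg Subtype.val hw
  exact ⟨w, w.2, by rw [← h3]; group⟩

variable {Ω : Type*} [MulAction G Ω] [Finite Ω] (hb : Bin G Ω)
include hb

theorem cl_stab (α : Ω) : Cl (stabilizer G α) := fun s hs h1 h2 t h3 h4 => by
  have := M.finite
  refine hb.fix_of_comm (fun a b a1 a2 b1 b2 => ?_) h1 h2 h3 h4 hs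
  obtain ⟨k, rfl⟩ := M.exists_conj_u0 a2 a1 one_ne_zero
  obtain ⟨k', rfl⟩ := M.exists_conj_u0 b2 b1 one_ne_zero
  exact ⟨k' * k⁻¹, by group⟩

omit hb in
theorem fix_o {α : Ω} (hα : stabilizer G α ≤ M.B) {g a : G} (h : g • a • α = a • α) :
    g • a • M.o = a • M.o := by
  rw [← inv_smul_eq_iff, ← mul_smul, ← mul_smul] at h ⊢
  exact M.fix_iff.2 (hα h)

theorem no_torus {α : Ω} (hα : stabilizer G α ≤ M.B) {l : Kˣ} (hl : M.h l • α = α) : l = 1 := by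
  by_contra hl1
  have h0 := (map_ne_zero φ).2 l.ne_zero
  have h1 : 1 + φ l ≠ 0 := fun e => hl1 (Units.ext (φ.injective (by simp; grind)))
  have hn : ∀ m, M.h m • α = α → M.h m⁻¹ • M.n • α = M.n • α := fun m hm => by
    rw [← n_h, mul_smul, mul_smul, ← mul_smul M.n M.n, n_mul_n, one_smul, hm]
  have hl' : M.h l⁻¹ • α = α := by rw [map_inv, inv_smul_eq_iff, hl]
  obtain ⟨k, hk⟩ := hb.tri (M.h l⁻¹) (M.u 0 1 * M.h l * (M.u 0 1)⁻¹)
  obtain ⟨m, rfl⟩ := M.fix_both (M.fix_iff.2 (hα ((hk α).1 hl'))) (M.fix_o hα ((hk _).1 (hn l hl)))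
  have h2 : m = 1 := M.three (M.u_mem 0 1) (M.u_ne (.inr one_ne_zero)) (by
    have := (hk (M.u 0 1 • M.n • α)).2.1 (by
      rw [mul_smul, mul_smul, inv_smul_smul, ← inv_inv l, hn _ hl'])
    rw [← mul_smul (M.u 0 1)] at this ⊢
    exact M.fix_o hα this)
  have h3 : M.h l * (M.u 0 1 * M.h l * (M.u 0 1)⁻¹) = M.u 0 (φ l / (1 + φ l)) * M.h (l * l) *
      (M.u 0 (φ l / (1 + φ l)))⁻¹ := by
    have e1 : ∀ m y, M.h m * M.u 0 y = M.u 0 (φ m * y) * M.h m := fun m y => by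
      rw [← h_u0, inv_mul_cancel_right]
    rw [inv_eq_of_mul_eq_one_right (M.u0_sq _), inv_eq_of_mul_eq_one_right (M.u0_sq _),
      ← mul_assoc, ← mul_assoc, e1, mul_assoc _ (M.h l) (M.h l), ← map_mul, mul_assoc, mul_assoc,
      e1, e1, ← mul_assoc, ← mul_assoc, u_mul, u_mul]
    congr 2
    simp only [Units.val_mul, map_mul]
    field_simp
    grind
  have h4 := (hk (M.u 0 (φ l / (1 + φ l)) • M.n • α)).2.2 (by
    rw [map_inv, inv_smul_eq_iff, ← mul_smul (M.h l), h3, mul_smul, mul_smul, inv_smul_smul,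
      ← inv_inv (l * l), hn _ (by rw [mul_inv, map_mul, mul_smul, hl', hl'])])
  rw [h2, map_one, one_smul, ← mul_smul (M.u _ _)] at h4
  have h5 := M.fix_o hα h4.symm
  rw [mul_smul] at h5
  exact hl1 (inv_eq_one.1 (M.three (M.u_mem _ _) (M.u_ne (.inr (div_ne_zero h0 h1))) h5))

theorem no_four {α : Ω} (hα : stabilizer G α ≤ M.U) (hZ : ∀ z, M.u 0 z • α = α) {s y : K}
    (h : M.u s y • α = α) : s = 0 := by
  by_contra hs
  have hα' : stabilizer G α ≤ M.B := fun g hg => (hα hg).1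
  have key : ∀ g : G, g ^ 4 = 1 → ∃ a : G, g • a • α = a • α := fun g hg => by
    obtain ⟨k, hk⟩ := M.exists_conj_U hg
    obtain ⟨s', y', e⟩ := M.exists_eq_u hk
    by_cases hs' : s' = 0
    · exact ⟨k, by rw [← inv_smul_eq_iff, ← mul_smul, ← mul_smul, e, hs', hZ]⟩
    obtain ⟨l, hl⟩ := M.scale hs' hs
    refine ⟨k * (M.h l)⁻¹, ?_⟩
    rw [← inv_smul_eq_iff, ← mul_smul, ← mul_smul, show (k * (M.h l)⁻¹)⁻¹ * g * (k * (M.h l)⁻¹) =
      M.h l * (k⁻¹ * g * k) * (M.h l)⁻¹ by group, e, h_u, hl,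
      show M.u s (φ l * y') = M.u s y * M.u 0 (φ l * y' - y) by rw [u_mul]; simp, mul_smul, hZ, h]
  have hy := M.U.inv_mem (M.u_mem 1 0)
  have hy1 : (M.u 1 0)⁻¹ ≠ 1 := inv_ne_one.2 (M.u_ne (.inl one_ne_zero))
  obtain ⟨a1, h1⟩ := key _ (M.pow_four hy)
  obtain ⟨a2, h2⟩ := key M.n (by rw [show 4 = 2 * 2 from rfl, pow_mul, pow_two M.n, n_mul_n, one_pow])
  obtain ⟨a3, h3⟩ := key (M.u 1 0 * M.n) (M.pow_four_of_tr (by
    simp [tr, α_u, α_n, trace, Fin.sum_univ_four, mul4, uM, nM]; grind))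
  obtain ⟨k, hk⟩ := hb.tri (M.u 1 0)⁻¹ M.n
  have h4 : k ∈ M.U := by
    have e1 := (hk _).1 h1
    rw [← inv_smul_eq_iff, ← mul_smul, ← mul_smul] at e1
    simpa [mul_assoc] using M.conj_mem_U (M.fix_iff.1 (M.eq_o hy hy1 (M.fix_o hα' h1))) (hα e1)
  have h5 : k = 1 := M.eq_one_of_fix h4 (fun e => M.n_ne (by simpa [e] using M.fix_o hα' h2))
    (M.fix_o hα' ((hk _).2.1 h2))
  have h6 := (hk (a3 • α)).2.2 (by rw [inv_smul_eq_iff, ← mul_smul, h3])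
  rw [h5, one_smul] at h6
  have h7 := M.fix_o hα' h3
  rw [M.eq_o hy hy1 (M.fix_o hα' h6.symm), mul_smul, ← eq_inv_smul_iff, M.U_fix hy] at h7
  exact M.n_ne h7

theorem even_case (hq : 2 < Fintype.card K) {α : Ω} (hα : stabilizer G α ≠ ⊤)
    (h1 : M.u 0 1 • α = α) (g : G) : g • α = α ↔ ∃ y, g = M.u 0 y := by
  have hZ := M.Z_le (M.cl_stab hb α) one_ne_zero h1
  refine ⟨fun hg => ?_, by rintro ⟨y, rfl⟩; exact hZ y⟩
  have hB := M.le_B hq (M.cl_stab hb α) h1 hα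
  have hU : stabilizer G α ≤ M.U := fun g hg => by
    obtain ⟨x, hx, l, rfl⟩ := M.B_decomp (hB hg)
    by_cases hl : l = 1
    · simpa [hl] using hx
    obtain ⟨w, hw, e⟩ := M.conj_torus hx hl
    refine absurd (M.no_torus hb (α := w⁻¹ • α) (fun a ha => ?_) ?_) hl
    · rw [mem_stabilizer_iff, ← inv_smul_eq_iff, ← mul_smul, ← mul_smul, inv_inv] at ha
      simpa [mul_assoc] using M.B.mul_mem (M.B.mul_mem (M.B.inv_mem hw.1) (hB ha)) hw.1
    · rw [← inv_smul_eq_iff (g := w⁻¹), ← mul_smul, ← mul_smul, inv_inv, e]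
      exact hg
  obtain ⟨s, y, rfl⟩ := M.exists_eq_u (hU hg)
  exact ⟨y, by rw [M.no_four hb hU hZ hg]⟩

theorem odd_case (hq : 2 < Fintype.card K) (h3 : ¬ 3 ∣ Nat.card G) {α : Ω}
    (hα : Odd (Nat.card (stabilizer G α))) : stabilizer G α = ⊥ := by
  have := M.finite
  rw [eq_bot_iff]
  intro x hx
  by_contra hx1
  have ho : ∀ g ∈ stabilizer G α, Odd (orderOf g) := fun g hg =>
    hα.of_dvd_nat (Subgroup.orderOf_dvd_natCard _ hg)
  have hc := M.comm_of_odd h3 hα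
  have ht := M.tr_ne_of_odd (ho x hx) hx1
  obtain ⟨s, hs1, hs2, hs⟩ := M.exists_invol hq h3 ht
  obtain ⟨v, hv⟩ := M.conj_of_tr hq h3 ht hs
  have hs3 : s⁻¹ = s := inv_eq_of_mul_eq_one_right hs2
  have h4 : (x * s) • v • α = v • α := by rw [hv, mul_smul, mul_smul, inv_smul_smul, hx]
  obtain ⟨k, hk⟩ := hb.tri x⁻¹ (s * x * s⁻¹)
  have h5 : k ∈ stabilizer G α := (hk α).1 ((stabilizer G α).inv_mem hx)
  have h6 : s⁻¹ * k * s ∈ stabilizer G α := by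
    rw [mem_stabilizer_iff, mul_smul, mul_smul, (hk _).2.1 (by
      rw [mul_smul, mul_smul, inv_smul_smul, hx]), inv_smul_smul]
  have h7 : k = 1 := by
    by_contra h7
    have h8 := M.comm_of_tr (M.tr_ne_of_odd (ho k h5) h7) (hc x hx k h5) (b := s * x * s⁻¹)
      (by simpa [mul_assoc] using conj_comm (k := s) (hc x hx _ h6))
    have h9 := M.pow_four_of_comm hs2 hs1 (g := x * (s * x * s⁻¹)) (by
      conv_rhs => rw [h8]
      simp only [← mul_assoc, hs2, one_mul, hs3]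
      rw [mul_assoc _ s s, hs2, mul_one])
    rw [hs3, ← mul_assoc, ← mul_assoc, mul_assoc (x * s), hv, conj_sq, conj_pow] at h9
    have h10 := M.eq_one_of_odd (ho _ ((stabilizer G α).mul_mem hx hx)) (conj_eq_one h9)
    exact hx1 (M.eq_one_of_odd (ho x hx) (by rw [show 4 = 2 * 2 from rfl, pow_mul, pow_two x, h10,
      one_pow]))
  have h8 := (hk (v • α)).2.2 (by
    rw [inv_smul_eq_iff, ← mul_smul, hs3, ← mul_assoc, ← mul_assoc, mul_assoc (x * s), mul_smul,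
      h4, h4])
  rw [h7, one_smul, eq_inv_smul_iff] at h8
  have h9 : v⁻¹ * s * v ∈ stabilizer G α := by
    rw [mem_stabilizer_iff, mul_smul, mul_smul, inv_smul_eq_iff, ← smul_left_cancel_iff x,
      ← mul_smul, h4, h8]
  rw [← inv_inv v, inv_inv v⁻¹] at h9
  exact hs1 (conj_eq_one (M.eq_one_of_odd (ho _ h9) (by
    rw [conj_pow, show 4 = 2 * 2 from rfl, pow_mul, pow_two s, hs2]; simp)))

end Cfsg.Agent.H4.Suz.Model
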